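import Mathlib
import Cfsg.Agent.H09.TwA
/-! Amalgams for symplectic groups: generation lemmas and lifting of Heisenberg groups. -/
namespace H09

/-- `φ` is injective on `N` -/
def Gd {J G : Type*} [Group J] [Group G] (φ : J →* G) (N : Subgroup J) : Prop := ∀ g ∈ N, φ g = 1 → g = 1
theorem Gd.eq {J G : Type*} [Group J] [Group G] {φ : J →* G} {N : Subgroup J} (h : Gd φ N) {x y} (hx : x ∈ N) (hy : y ∈ N)
    (e : φ x = φ y) : x = y := mul_inv_eq_one.1 (h _ (mul_mem hx (inv_mem hy)) (by simp [e]))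
theorem Gd.mono {J G : Type*} [Group J] [Group G] {φ : J →* G} {N M : Subgroup J} (h : Gd φ N) (e : M ≤ N) : Gd φ M :=
  fun g m => h g (e m)
theorem Gd.mem {J G : Type*} [Group J] [Group G] {φ : J →* G} {N M : Subgroup J} (h : Gd φ N) {x} (hx : x ∈ N)
    (e : φ x ∈ (M ⊓ N).map φ) : x ∈ M := let ⟨_, m, e⟩ := e; h.eq m.2 hx e ▸ m.1
theorem Gd.comm {J G : Type*} [Group J] [Group G] {φ : J →* G} {N : Subgroup J} (h : Gd φ N) {x y} (hx : x ∈ N) (hy : y ∈ N)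
    (e : Commute (φ x) (φ y)) : Commute x y := h.eq (mul_mem hx hy) (mul_mem hy hx) (by simpa using e.eq)

namespace Sk
variable {F V H J : Type*} [Field F] [AddCommGroup V] [Module F V] [Group H] [Group J] {S : Sk F V H} {L : Subgroup H} {g k : H}
  {r p a e f u v w : V} {b c s t : F} {W R W' R' : Submodule F V}

variable (S) in
/-- pointwise stabiliser -/
def Fx (R : Submodule F V) : Subgroup H where
  carrier := {g | ∀ x ∈ R, S.ρ g x = x}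
  one_mem' x _ := by simp
  mul_mem' h h' x m := by rw [ρ_mul, h' x m, h x m]
  inv_mem' h x m := S.ρ_eq (h x m)
variable (S) in
/-- orthogonal splitting -/
structure Spl (W R : Submodule F V) : Prop where
  o : ∀ w ∈ W, ∀ r ∈ R, S.h r w = 0
  s : ∀ v, ∃ w ∈ W, ∃ r ∈ R, v = w + r
variable (S) in
/-- Witt's lemma -/
def Wt : Prop := ∀ (X : Submodule F V) u v, u ∉ X → v ∉ X → (∀ x ∈ X, S.h x u = S.h x v) → ∃ g ∈ S.Fx X, S.ρ g u = v

theorem Spl.zero (K : S.Spl W R) (h : v ∈ W) (h' : v ∈ R) : v = 0 := S.nd v fun x => by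
  obtain ⟨w, m, r, m', rfl⟩ := K.s x
  simp [K.o v h r m', S.sym (K.o w m v h')]
theorem Spl.mem (K : S.Spl W R) (h : ∀ r ∈ R, S.h r v = 0) : v ∈ W := by
  obtain ⟨w, m, r, m', rfl⟩ := K.s v
  rw [S.nd r fun x => ?_, add_zero]
  · exact m
  obtain ⟨w', n, r', n', rfl⟩ := K.s x
  simpa [S.sym (K.o w' n r m'), K.o w m r' n'] using h r' n'
theorem Spl.map (K : S.Spl W R) (hg : g ∈ S.Fx R) (h : v ∈ W) : S.ρ g v ∈ W :=
  K.mem fun r m => by rw [← hg r m, S.inv, K.o v h r m]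
theorem Spl.fx (K : S.Spl W R) (i : S.IsE g r p b) (h : r ∈ W) (h' : p ∈ W) : g ∈ S.Fx R := fun x m => by
  rw [i]; simp [K.o r h x m, K.o p h' x m]
theorem IsE.uniq (i : S.IsE g r p b) (i' : S.IsE k r p b) : g = k := S.inj (LinearMap.ext fun y => (i y).trans (i' y).symm)
theorem Eg.mem (a : S.Eg L r p b) (i : S.IsE g r p b) : g ∈ L := let ⟨_, _, m, i'⟩ := a; i'.uniq i ▸ m
theorem Spl.wt (K : S.Spl W R) (T : S.Wt) (hp : p ∈ W) (hu : u ∈ W) (hv : v ∈ W) (n : u ∉ F ∙ p) (n' : v ∉ F ∙ p)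
    (e : S.h p u = S.h p v) : ∃ g ∈ S.Fx R, S.ρ g p = p ∧ S.ρ g u = v := by
  have : ∀ u ∈ W, u ∉ F ∙ p → u ∉ R ⊔ F ∙ p := fun u m n h => by
    obtain ⟨r, m', _, m'', rfl⟩ := Submodule.mem_sup.1 h
    obtain ⟨c, rfl⟩ := Submodule.mem_span_singleton.1 m''
    rw [K.zero ((add_mem_cancel_right (W.smul_mem c hp)).1 m) m', zero_add] at n
    exact n m''
  obtain ⟨g, m, i⟩ := T _ u v (this u hu n) (this v hv n') fun x h => by
    obtain ⟨r, m', _, m'', rfl⟩ := Submodule.mem_sup.1 h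
    obtain ⟨c, rfl⟩ := Submodule.mem_span_singleton.1 m''
    simp [K.o u hu r m', K.o v hv r m', e]
  exact ⟨g, fun x h => m x (Submodule.mem_sup_left h), m p (Submodule.mem_sup_right (Submodule.mem_span_singleton_self p)), i⟩
theorem Spl.wt0 (K : S.Spl W R) (T : S.Wt) (hu : u ∈ W) (hv : v ∈ W) (n : u ≠ 0) (n' : v ≠ 0) : ∃ g ∈ S.Fx R, S.ρ g u = v :=
  let ⟨g, m, _, i⟩ := K.wt T (zero_mem _) hu hv (by simpa) (by simpa) (by simp); ⟨g, m, i⟩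
theorem nsp (h : S.h u p ≠ 0) (o : S.h p p = 0) : u ∉ F ∙ p := fun m => by
  obtain ⟨c, rfl⟩ := Submodule.mem_span_singleton.1 m
  simp [o] at h

namespace Sy
variable (Y : S.Sy)
include Y
theorem sk (x y) : S.h y x = -S.h x y := by rw [S.skew, Y.σ]
theorem ok' (o : S.h p r = 0) : S.Ok r p b := ⟨Y.alt _, o, by simp [Y.σ, Y.alt]⟩
theorem eg (i : S.IsE g r p b) (o : S.h p r = 0) (m : g ∈ L) : S.Eg L r p b := ⟨Y.ok' o, g, m, i⟩
theorem exE (o : S.h p r = 0) (b) : ∃ g, S.IsE g r p b := let ⟨_, g, _, i⟩ := S.eg_top (Y.ok' o (b := b)); ⟨g, i⟩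

/-- generation of a point stabiliser -/
theorem st (T : S.Wt) (K : S.Spl W R) (K' : S.Spl W' R') (le : W' ≤ W) (he : e ∈ W) (hf : f ∈ W) (he' : e ∈ R') (hf' : f ∈ R')
    (h1 : S.h f e ≠ 0) (sp : R' ≤ R ⊔ Submodule.span F {e, f}) (l1 : S.Fx R' ≤ L) (l2 : ∀ t, S.Eg L e 0 t)
    (l3 : W' = ⊥ ∨ ∃ p ∈ W', p ≠ 0 ∧ S.Eg L e p 0) (hg : g ∈ S.Fx R) (hg' : S.ρ g e = e) : g ∈ L := by
  have l4 : ∀ p ∈ W', S.Eg L e p 0 := fun p m => by
    by_cases p0 : p = 0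
    · exact p0 ▸ l2 0
    obtain ⟨q, m', q0, a⟩ := l3.resolve_left fun h => p0 (h.le m)
    obtain ⟨k, n, i⟩ := K'.wt0 T m' m q0 p0
    exact (a.conj (l1 n)).congr (n e he') i rfl
  have l5 : ∀ p ∈ W, S.h p e = 0 → ∀ b, S.Eg L e p b := fun p m o b => by
    obtain ⟨w, n, r, n', rfl⟩ := K'.s p
    obtain ⟨r, n1, _, n2, rfl⟩ := Submodule.mem_sup.1 (sp n')
    obtain ⟨s, t, rfl⟩ := Submodule.mem_span_pair.1 n2
    obtain rfl := K.zero ((add_mem_cancel_right (add_mem (W.smul_mem s he) (W.smul_mem t hf))).1 ((add_mem_cancel_left (le n)).1 m)) n1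
    obtain rfl : t = 0 := by simpa [S.sym (K'.o w n e he'), Y.alt, h1] using o
    obtain ⟨-, k, n3, i⟩ := (l4 w n).addT (l2 (b + s + s))
    exact Y.eg (fun y => by rw [i]; simp [Y.σ]; module) o n3
  obtain ⟨p, b, o, i⟩ := mv (r := e) (y := S.ρ g f) (y' := f) (Y.alt _) (Y.alt _) (Y.alt _) (by nth_rw 1 [← hg', S.inv]) h1
  obtain ⟨k, i'⟩ := Y.exE o.2.1 b
  obtain ⟨i1, i2⟩ := i k i'
  have i3 : k ∈ S.Fx R := fun x m => i2 x (K.o e he x m) (by rw [← hg x m, S.inv, hg x m])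
  have i4 : S.ρ k e = e := by rw [i']; simp [Y.alt, S.sym o.2.1]
  have i5 : k ∈ L := (l5 p (K.mem fun x m => by simpa [K.o e he x m, show e ≠ 0 by rintro rfl; simp at h1] using (i' x).symm.trans (i3 x m)) o.2.1 b).mem i'
  refine (mul_mem_cancel_left (inv_mem i5)).1 (l1 fun x m => ?_)
  obtain ⟨r, n1, _, n2, rfl⟩ := Submodule.mem_sup.1 (sp m)
  obtain ⟨s, t, rfl⟩ := Submodule.mem_span_pair.1 n2
  rw [ρ_mul]
  exact S.ρ_eq (by simp [hg r n1, i3 r n1, hg', i4, i1])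

theorem gen (T : S.Wt) (K : S.Spl W R) (he : e ∈ W) (hf : f ∈ W) (h1 : S.h f e ≠ 0) (l1 : ∀ g ∈ S.Fx R, S.ρ g e = e → g ∈ L)
    (l2 : ∀ g ∈ S.Fx R, S.ρ g f = f → g ∈ L) : S.Fx R ≤ L := fun g hg => by
  have h2 : S.h e f ≠ 0 := by rwa [Y.sk, neg_ne_zero]
  let O : V → Prop := fun v => ∃ k ∈ L, k ∈ S.Fx R ∧ S.ρ k e = v
  have t : ∀ p ∈ W, (∀ g ∈ S.Fx R, S.ρ g p = p → g ∈ L) → ∀ u ∈ W, ∀ v ∈ W, u ∉ F ∙ p → v ∉ F ∙ p → S.h p u = S.h p v → O u → O v :=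
    fun p m l u hu v hv n n' h ⟨k, a1, a2, a3⟩ => let ⟨g, b1, b2, b3⟩ := K.wt T m hu hv n n' h
      ⟨g * k, mul_mem (l g b1 b2) a1, mul_mem b1 a2, by rw [ρ_mul, a3, b3]⟩
  have t1 : ∀ v ∈ W, S.h v e ≠ 0 → O v := fun v m h => by
    have m' : e + (S.h v e / S.h f e) • f ∈ W := add_mem he (W.smul_mem _ hf)
    refine t e he l1 _ m' v m (nsp (S := S) (by simp [Y.alt, h1, h]) (Y.alt _)) (nsp h (Y.alt _)) (by rw [Y.sk, Y.sk v]; simp [Y.alt, h1]) ?_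
    exact t f hf l2 e he _ m' (nsp h2 (Y.alt _)) (nsp (S := S) (by simp [Y.alt, h2]) (Y.alt _)) (by simp [Y.alt]) ⟨1, one_mem _, one_mem _, by simp⟩
  obtain ⟨k, a1, a2, a3⟩ : O (S.ρ g e) := by
    have m := K.map hg he
    have n : S.ρ g e ≠ 0 := fun h => h1 (by rw [← S.inv g, h]; simp)
    generalize S.ρ g e = v at *
    by_cases h : S.h v e = 0
    swap
    · exact t1 v m h
    have n' : ∀ c : F, v + c • f ∉ F ∙ f := fun c h' => by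
      obtain ⟨d, rfl⟩ := Submodule.mem_span_singleton.1 ((add_mem_cancel_right (Submodule.smul_mem _ c (Submodule.mem_span_singleton_self f))).1 h')
      simp [h1] at h; simp [h] at n
    exact t f hf l2 (v + (1 : F) • f) (by simpa using add_mem m hf) v m (n' 1) (by simpa using n' 0) (by simp [Y.alt])
      (t1 _ (by simpa using add_mem m hf) (by simpa [h]))
  exact (mul_mem_cancel_left (inv_mem a1)).1 (l1 _ (mul_mem (inv_mem a2) hg) (by rw [ρ_mul]; exact S.ρ_eq a3))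

/-- lifting a Heisenberg group -/
theorem hz (T : S.Wt) (hF : ∃ c : F, c ≠ 0 ∧ c ≠ 1) (φ : J →* H) {A N Z : Subgroup J} {τ : J} (K : S.Spl W R) (ha : a ∈ R) (a0 : a ≠ 0)
    (he : e ∈ W) (hf : f ∈ W) (h1 : S.h f e ≠ 0) (A1 : ∀ x ∈ A, φ x ∈ S.Fx R) (A2 : ∀ g ∈ S.Fx R, ∃ x ∈ A, φ x = g)
    (N1 : Gd φ N) (N2 : τ ∈ N) (N3 : Z ≤ N) (N4 : ∀ v ∈ Submodule.span F {e, f}, v ≠ 0 → ∃ x ∈ A ⊓ N, S.ρ (φ x) e = v)
    (Z1 : ∀ z ∈ Z, ∃ t, S.IsE (φ z) a 0 t) (Z2 : ∀ t, ∃ z ∈ Z, S.IsE (φ z) a 0 t) (Z3 : ∀ z ∈ Z, ∀ x ∈ A, Commute x z)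
    (τ1 : S.IsE (φ τ) a e 0) (τ2 : ∀ x ∈ A, S.ρ (φ x) e = e → Commute x τ) :
    ∃ U : Subgroup J, Gd φ U ∧ Z ≤ U ∧ τ ∈ U ∧ U ≤ Z ⊔ A ⊔ Subgroup.zpowers τ ∧ ∀ x ∈ A, ∀ y ∈ U, x * y * x⁻¹ ∈ U := by
  have e0 : e ≠ 0 := by rintro rfl; simp at h1
  have oa : ∀ v ∈ W, S.h v a = 0 := fun v m => S.sym (K.o v m a ha)
  obtain ⟨T', t0, t1⟩ : ∃ T' : V → J, T' 0 = 1 ∧ ∀ x ∈ A, T' (S.ρ (φ x) e) = x * τ * x⁻¹ := by
    classical
    refine ⟨fun v => if h : ∃ x ∈ A, S.ρ (φ x) e = v then h.choose * τ * h.choose⁻¹ else 1, dif_neg ?_, fun x m => ?_⟩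
    · rintro ⟨x, -, h⟩
      exact e0 (by simpa using (S.ρ_eq h).symm)
    have h : ∃ y ∈ A, S.ρ (φ y) e = S.ρ (φ x) e := ⟨x, m, rfl⟩
    have := (τ2 _ (mul_mem (inv_mem m) h.choose_spec.1) (by rw [map_mul, map_inv, ρ_mul, h.choose_spec.2, S.ρ_inv])).mul_inv_cancel
    refine (dif_pos h).trans ?_
    generalize h.choose = y at *
    nth_rw 2 [← this]; group
  have t2 : ∀ v ∈ W, v ≠ 0 → ∃ x ∈ A, S.ρ (φ x) e = v := fun v m n =>
    let ⟨g, m', i⟩ := K.wt0 T he m e0 n; let ⟨x, m'', i'⟩ := A2 g m'; ⟨x, m'', i' ▸ i⟩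
  have t3 : ∀ x ∈ A, ∀ v ∈ W, x * T' v * x⁻¹ = T' (S.ρ (φ x) v) := fun x m v m' => by
    by_cases n : v = 0
    · simp [n, t0]
    obtain ⟨y, m'', rfl⟩ := t2 v m' n
    rw [← ρ_mul, ← map_mul, t1 _ (mul_mem m m''), t1 y m'']; group
  have t4 : ∀ v ∈ W, S.IsE (φ (T' v)) a v 0 := fun v m => by
    by_cases n : v = 0
    · intro y; simp [n, t0]
    obtain ⟨x, m', rfl⟩ := t2 v m n
    have := τ1.conj (φ x)
    rw [A1 x m' a ha] at this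
    simpa [t1 x m']
  have t5 : ∀ v ∈ Submodule.span F {e, f}, T' v ∈ N := fun v m => by
    by_cases n : v = 0
    · simp [n, t0]
    obtain ⟨x, m', rfl⟩ := N4 v m n
    rw [t1 x m'.1]; exact mul_mem (mul_mem m'.2 N2) (inv_mem m'.2)
  have sp : Submodule.span F {e, f} ≤ W := Submodule.span_le.2 (by rintro _ (rfl | rfl) <;> assumption)
  have t6 : ∀ z ∈ Z, ∀ v ∈ W, Commute z (T' v) := fun z m v m' => by
    by_cases n : v = 0
    · simp [n, t0]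
    obtain ⟨x, m'', rfl⟩ := t2 v m' n
    obtain ⟨t, i⟩ := Z1 z m
    have : Commute z τ := N1.comm (N3 m) N2 ((i.mul τ1 (Y.ok' (by simp)) (Y.ok' (oa e he))).uniq
      (by simpa using τ1.mul i (Y.ok' (oa e he)) (Y.ok' (by simp))))
    rw [t1 x m'']
    exact ((Z3 z m x m'').symm.mul_right this).mul_right (Z3 z m x m'').symm.inv_right
  let P : V → V → Prop := fun v w => ∃ z ∈ Z, T' v * T' w = T' (v + w) * z
  have p1 : ∀ x ∈ A, ∀ w ∈ Submodule.span F {e, f}, P (S.ρ (φ x) e) (S.ρ (φ x) w) := fun x m w m' => by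
    have m1 : e ∈ Submodule.span F {e, f} := Submodule.subset_span (by simp)
    obtain ⟨z, n, i⟩ := Z2 (S.h w e)
    refine ⟨z, n, ?_⟩
    rw [← map_add, ← t3 x m _ he, ← t3 x m _ (sp m'), ← t3 x m _ (sp (add_mem m1 m')), ← (Z3 z n x m).mul_inv_cancel, conj_mul, conj_mul]
    congr 2
    refine N1.eq (mul_mem (t5 _ m1) (t5 _ m')) (mul_mem (t5 _ (add_mem m1 m')) (N3 n)) ?_
    rw [map_mul, map_mul]
    exact ((t4 e he).mul (t4 w (sp m')) (Y.ok' (oa e he)) (Y.ok' (oa w (sp m')))).uniq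
      (by simpa using (t4 _ (add_mem he (sp m'))).mul i (Y.ok' (oa _ (add_mem he (sp m')))) (Y.ok' (by simp)))
  have p2 : ∀ v ∈ W, ∀ w ∈ W, S.h w v ≠ 0 → P v w := fun v m w m' h => by
    obtain ⟨x, n, rfl⟩ := t2 v m (by rintro rfl; simp at h)
    have h' : S.h (S.ρ (φ x)⁻¹ w) e ≠ 0 := by rwa [← S.inv (φ x), S.ρ_inv']
    obtain ⟨g, n1, n2, n3⟩ := K.wt T he (W.smul_mem (S.h (S.ρ (φ x)⁻¹ w) e / S.h f e) hf) (K.map (inv_mem (A1 x n)) m')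
      (nsp (S := S) (by simp [h', h1]) (Y.alt _)) (nsp h' (Y.alt _)) (by rw [Y.sk, Y.sk (S.ρ (φ x)⁻¹ w)]; simp [h1])
    obtain ⟨y, n4, rfl⟩ := A2 g n1
    have := p1 _ (mul_mem n n4) _ (Submodule.smul_mem _ (S.h (S.ρ (φ x)⁻¹ w) e / S.h f e) (Submodule.subset_span (s := {e, f}) (a := f) (by simp)))
    rwa [map_mul, ρ_mul, ρ_mul, n2, n3, S.ρ_inv'] at this
  have p3 : ∀ v ∈ W, ∀ w ∈ W, P v w := fun v m w m' => by
    by_cases n : v = 0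
    · exact ⟨1, one_mem _, by simp [n, t0]⟩
    by_cases h : S.h w v = 0
    swap
    · exact p2 v m w m' h
    by_cases n' : w ∈ F ∙ v
    · obtain ⟨c, rfl⟩ := Submodule.mem_span_singleton.1 n'
      obtain ⟨x, n1, rfl⟩ := t2 v m n
      simpa using p1 x n1 (c • e) (Submodule.smul_mem _ _ (Submodule.subset_span (by simp)))
    obtain ⟨c, c0, c1⟩ := hF
    obtain ⟨u, mu, u1, u2⟩ : ∃ u ∈ W, S.h u v = -1 ∧ S.h u w = c := by
      obtain ⟨x, x1, x2⟩ := Y.sep _ w n'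
      obtain ⟨y, y1, y2⟩ := Y.sep (F ∙ w) v fun h' => by
        obtain ⟨d, rfl⟩ := Submodule.mem_span_singleton.1 h'
        exact n' (Submodule.mem_span_singleton.2 ⟨d⁻¹, inv_smul_smul₀ (by rintro rfl; simp at n) _⟩)
      obtain ⟨u, mu, r, mr, i⟩ := K.s (c • x - y)
      refine ⟨u, mu, ?_, ?_⟩ <;> rw [eq_sub_of_add_eq i.symm] <;>
        simp [K.o v m r mr, K.o w m' r mr, x2, y2, x1 v (Submodule.mem_span_singleton_self v), y1 w (Submodule.mem_span_singleton_self w)]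
    obtain ⟨z1, n1, i1⟩ := p2 (w - u) (sub_mem m' mu) u mu (by simp [Y.alt, u2, c0])
    obtain ⟨z2, n2, i2⟩ := p2 v m (w - u) (sub_mem m' mu) (by simp [h, u1])
    obtain ⟨z3, n3, i3⟩ := p2 (v + (w - u)) (add_mem m (sub_mem m' mu)) u mu (by simp [Y.alt, u1, u2, neg_add_eq_sub, sub_eq_zero, c1])
    rw [sub_add_cancel] at i1
    rw [add_assoc, sub_add_cancel] at i3
    refine ⟨z3 * z2 * z1⁻¹, mul_mem (mul_mem n3 n2) (inv_mem n1), ?_⟩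
    rw [← mul_assoc, ← mul_assoc, ← i3, mul_assoc _ _ z2, ← (t6 z2 n2 u mu).eq, ← mul_assoc, ← i2, mul_assoc (T' v), i1]; group
  refine ⟨{ carrier := {y | ∃ v ∈ W, ∃ z ∈ Z, y = T' v * z}, one_mem' := ⟨0, zero_mem _, 1, one_mem _, by simp [t0]⟩
            mul_mem' := ?_, inv_mem' := ?_ }, ?_, fun z m => ⟨0, zero_mem _, z, m, by simp [t0]⟩,
    ⟨e, he, 1, one_mem _, by simpa using (t1 1 (one_mem _)).symm⟩, ?_, ?_⟩
  · rintro _ _ ⟨v, m, z, n, rfl⟩ ⟨w, m', z', n', rfl⟩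
    obtain ⟨z1, n1, i⟩ := p3 v m w m'
    exact ⟨_, add_mem m m', z1 * z * z', mul_mem (mul_mem n1 n) n', by
      rw [mul_assoc, ← mul_assoc z, (t6 z n w m').eq, ← mul_assoc, ← mul_assoc, i]; group⟩
  · rintro _ ⟨v, m, z, n, rfl⟩
    obtain ⟨z1, n1, i⟩ := p3 v m (-v) (neg_mem m)
    rw [add_neg_cancel, t0, one_mul] at i
    exact ⟨_, neg_mem m, z⁻¹ * z1⁻¹, mul_mem (inv_mem n) (inv_mem n1), by
      rw [← i, ← mul_assoc, ← (t6 _ (inv_mem n) _ (neg_mem m)).eq]; group⟩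
  · rintro _ ⟨v, m, z, n, rfl⟩ h
    obtain ⟨t, i⟩ := Z1 z n
    obtain ⟨d, -, d1⟩ := Y.sep ⊥ a (by simpa)
    have := (t4 v m).mul i (Y.ok' (oa v m)) (Y.ok' (by simp)) d
    rw [← map_mul, h] at this
    obtain rfl : v = 0 := K.zero m (by
      simp [d1, add_assoc] at this
      exact eq_neg_of_add_eq_zero_left this ▸ neg_mem (add_mem (R.smul_mem _ ha) (R.smul_mem _ ha)))
    rw [t0, one_mul] at h ⊢
    exact N1 z (N3 n) h
  · rintro _ ⟨v, m, z, n, rfl⟩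
    refine mul_mem ?_ (Subgroup.mem_sup_left (Subgroup.mem_sup_left n))
    by_cases n : v = 0
    · simp [n, t0]
    obtain ⟨x, m', rfl⟩ := t2 v m n
    have := Subgroup.mem_sup_left (T := Subgroup.zpowers τ) (Subgroup.mem_sup_right (S := Z) m')
    exact t1 x m' ▸ mul_mem (mul_mem this (Subgroup.mem_sup_right (Subgroup.mem_zpowers τ))) (inv_mem this)
  · rintro x m _ ⟨v, m', z, n, rfl⟩
    exact ⟨_, K.map (A1 x m) m', z, n, by rw [← conj_mul, t3 x m v m', (Z3 z n x m).mul_inv_cancel]⟩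
end Sy
end Sk
end H09
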