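import Mathlib
import Cfsg.Agent.H09.AmA
import Cfsg.Agent.H09.RuE
import Cfsg.Agent.H09.SpM
/-! Amalgams for symplectic groups: the Steinberg step over an arbitrary field. -/
namespace H09
open Matrix Cfsg Cfsg.Lie H11 H11.StSys L.RD L.CT Sum
open scoped commutatorElement
variable {K : Type*} [Field K] {G J : Type*} [Group G] [Group J] {n : ℕ}

theorem stRel_of' {D : ChevalleyDatum} [Good D] (φ : J →* G) {x : Root D → K → G} (hx : StRel x) {y : Root D → K → J}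
    (hφ : ∀ r t, φ (y r t) = x r t) (add : ∀ r t u, y r t * y r u = y r (t + u))
    (hQ : ∀ r s : Root D, s ≠ r → s ≠ r.rev → ∃ N : Subgroup J, Gd φ N ∧
      (∀ (k : Root D) (i j : ℤ), 1 ≤ i → 1 ≤ j → wt k = i • wt r + j • wt s → ∀ t, y k t ∈ N) ∧ ∀ t u, ⁅y r t, y s u⁆ ∈ N) :
    StRel y := by
  refine ⟨add, fun r s h1 h2 t u => ?_⟩
  obtain ⟨N, a, b, c⟩ := hQ r s h1 h2
  have h3 : ∀ r t, y r (-t) = (y r t)⁻¹ := fun r t => eq_inv_of_mul_eq_one_left (by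
    rw [add, neg_add_cancel, ← mul_eq_left (a := y r 0), add, add_zero])
  have h4 := a _ (mul_mem (c (-t) (-u)) (L.CT.word_mem b t u)) (by
    rw [h3, h3, map_mul, map_commutatorElement, map_wordG, map_inv, map_inv]
    simp only [hφ]
    rw [show wordG (fun r t => x r t) _ = _ from eq_inv_mul_iff_mul_eq.2 (hx.comm r s h1 h2 t u).symm]; group)
  rw [h3, h3] at h4
  rw [eq_inv_of_mul_eq_one_right h4]; group

/-- the plane of an index -/
def pq : Fin n ⊕ Fin n → Fin n := Sum.elim id id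
@[simp] theorem pq_inl (i : Fin n) : pq (inl i) = i := rfl
@[simp] theorem pq_inr (i : Fin n) : pq (inr i) = i := rfl
@[simp] theorem pq_swap (a : Fin n ⊕ Fin n) : pq a.swap = pq a := by rcases a with a | a <;> rfl

theorem Cn_dot {a c : Fin n ⊕ Fin n} (q) (h : c ≠ a.swap) : ((a = q ∨ c = q) ↔ 0 < (εJ a + εJ c) ⬝ᵥ εJ q) ∧
    ((pq a ≠ pq q ∧ pq c ≠ pq q) ↔ (εJ a + εJ c) ⬝ᵥ εJ q = 0) := by
  rw [add_dotProduct, εJ_dot, εJ_dot]
  rcases a with a | a <;> rcases c with c | c <;> rcases q with q | q <;> simp [eq_comm (b := q)] at h ⊢ <;> split_ifs <;> simp_all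

theorem Cn_pairs {a c a' c' : Fin n ⊕ Fin n} {i j : Fin n} (hij : i ≠ j) (h : κJ a ≤ κJ c ∧ c ≠ a.swap) (h' : κJ a' ≤ κJ c' ∧ c' ≠ a'.swap)
    (e : (a', c') ≠ (c.swap, a.swap)) : ((pq a ≠ i ∧ pq c ≠ i) ∧ pq a' ≠ i ∧ pq c' ≠ i) ∨ ((pq a ≠ j ∧ pq c ≠ j) ∧ pq a' ≠ j ∧ pq c' ≠ j) ∨
    ∃ q, (pq q = i ∨ pq q = j) ∧ ((a = q ∨ c = q) ∧ ((a' = q ∨ c' = q) ∨ pq a' ≠ pq q ∧ pq c' ≠ pq q) ∨
      (a' = q ∨ c' = q) ∧ pq a ≠ pq q ∧ pq c ≠ pq q) := by
  by_contra H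
  simp only [not_or, not_exists, not_and] at H
  obtain ⟨h1, h2, h3⟩ := H
  have h4 := h3 (inl i) (.inl rfl)
  have h5 := h3 (inr i) (.inl rfl)
  have h6 := h3 (inl j) (.inr rfl)
  have h7 := h3 (inr j) (.inr rfl)
  clear h3
  rcases a with a | a <;> rcases c with c | c <;> rcases a' with a' | a' <;> rcases c' with c' | c' <;>
    simp [Fin.ext_iff] at * <;> omega

variable (K) in
/-- basis vectors -/
abbrev bv (a : Fin n ⊕ Fin n) : Fin n ⊕ Fin n → K := Pi.single a 1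
theorem h_bv (y) (c : Fin n ⊕ Fin n) : (spSk K n).h y (bv K c) = -(sgS c * y c.swap) := by
  rw [spSk_h, ← spB_alt.neg_eq]
  rcases c with c | c <;> simp [spB_single_inl, spB_single_inr, sgS]
theorem sgS_sq (c : Fin n ⊕ Fin n) : (sgS c : K) * sgS c = 1 := by rcases c with c | c <;> simp [sgS]
theorem sgS_ne (c : Fin n ⊕ Fin n) : (sgS c : K) ≠ 0 := left_ne_zero_of_mul_eq_one (sgS_sq c)

/-- root elements -/
def Rt (g : symplecticGroup (Fin n) K) (a c : Fin n ⊕ Fin n) : Prop :=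
  ∃ s t : K, (spSk K n).IsE g (bv K a) (s • bv K c) t ∧ (a ≠ c → t = 0)
theorem Rt.symm {g : symplecticGroup (Fin n) K} {a c} (h : Rt g a c) : Rt g c a := by
  by_cases e : a = c
  · exact e ▸ h
  obtain ⟨s, t, i, h⟩ := h
  exact ⟨s, 0, fun y => by rw [i, h e]; simp; module, fun _ => rfl⟩

theorem pad_g {m : ℕ} (em : Fin (m + 1) ↪ Fin n) (r) (t : K) {x : symplecticGroup (Fin (m + 1)) K} (hx : x.1 = (mmC m).g r t) :
    (spSk K n).IsE (spPad em x) (bv K (em.sumMap em r.1.1)) ((if r.1.1 = r.1.2 then 0 else -(sgS r.1.2 * t)) • bv K (em.sumMap em r.1.2))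
      (if r.1.1 = r.1.2 then -(sgS r.1.2 * t) else 0) := fun y => by
  have e1 : ∀ a, em.sumMap em a.swap = (em.sumMap em a).swap := by rintro (a | a) <;> rfl
  have e2 : ∀ a, (sgS (em.sumMap em a) : K) = sgS a := by rintro (a | a) <;> rfl
  change padM (em.sumMap em) x.1 *ᵥ y = _
  rw [hx, gC]
  split_ifs with e
  · rw [padM_add, incl_single, add_mulVec, one_mulVec, single_mulVec_eq, h_bv, e1, e2, ← e]
    simp only [zero_smul, smul_zero, map_zero, add_zero]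
    congr 2; linear_combination (-t * y (em.sumMap em r.1.1).swap) * sgS_sq (K := K) r.1.1
  · rw [PM_single, add_assoc, padM_add, Matrix.mul_add, Matrix.add_mul, incl_single, incl_single, add_mulVec, one_mulVec, add_mulVec,
      single_mulVec_eq, single_mulVec_eq, map_smulₛₗ, spSk_σ, smul_eq_mul, h_bv, h_bv, e1, e1, e2, e2]
    match_scalars <;> ring

/-- membership conditions for the lift of a root element -/
def Cnd {m : ℕ} (A A' D : Subgroup J) (U : Fin (m + 1) ⊕ Fin (m + 1) → Subgroup J) (a c : Fin (m + 1) ⊕ Fin (m + 1)) (y : J) : Prop :=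
  (pq a ≠ 0 ∧ pq c ≠ 0 → y ∈ A) ∧ (pq a ≠ .last m ∧ pq c ≠ .last m → y ∈ A') ∧
    (∀ q, (pq q = 0 ∨ pq q = .last m) → (a = q ∨ c = q) → y ∈ U q) ∧ (a = c → y ∈ D)
theorem Cnd.symm {m : ℕ} {A A' D : Subgroup J} {U : Fin (m + 1) ⊕ Fin (m + 1) → Subgroup J} {a c y} (h : Cnd A A' D U a c y) :
    Cnd A A' D U c a y := ⟨fun e => h.1 e.symm, fun e => h.2.1 e.symm, fun q e e' => h.2.2.1 q e e'.symm, fun e => h.2.2.2 e.symm⟩

theorem torus_long {m : ℕ} (S : StSys (dC m) K G) {L : Subgroup G}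
    (hL : ∀ r t, ((mmC (m + 1)).σ r).1.1 = ((mmC (m + 1)).σ r).1.2 → S.x r t ∈ L) : S.H ≤ L := by
  have h1 : ∀ g, (∀ r t, ((mmC (m + 1)).σ r).1.1 = ((mmC (m + 1)).σ r).1.2 → g * S.x r t * g⁻¹ ∈ L) → ∀ r c,
      ((mmC (m + 1)).σ r).1.1 = ((mmC (m + 1)).σ r).1.2 → g * S.h r c * g⁻¹ ∈ L := fun g h r c e => by
    have a := fun t => h r t e
    have b := fun t => h r.rev t (by rw [MM.σ_rev]; exact congrArg Sum.swap e.symm)
    simp only [StSys.h, StSys.n, ← conj_mul]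
    exact mul_mem (mul_mem (mul_mem (a _) (b _)) (a _)) (mul_mem (mul_mem (a _) (b _)) (a _))
  have h2 := fun r c e => h1 1 (by simpa using hL) r c e
  simp only [one_mul, inv_one, mul_one] at h2
  refine (Subgroup.closure_le _).2 ?_
  rintro _ ⟨s, c, c0, rfl⟩
  by_cases e : ((mmC (m + 1)).σ s).1.1 = ((mmC (m + 1)).σ s).1.2
  · exact h2 s c e
  obtain ⟨r, hr⟩ := (mmC (m + 1)).σ.surjective ⟨(((mmC (m + 1)).σ s).1.1, ((mmC (m + 1)).σ s).1.1), le_rfl, ne_swap _⟩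
  have h3 : pair r s = 1 := by
    rw [MM.pair_σ, hr]
    change (εJ _ + if _ then 0 else _) ⬝ᵥ (εJ _ + εJ _) = 1
    simp [εJ_dot, ne_swap, Ne.symm e, show _ ≠ Sum.swap _ from ((mmC (m + 1)).σ s).2.2]
  have h4 := h1 (S.n s 1) (fun k t e => by
    rw [n_conj _ _ one_ne_zero]
    refine hL _ _ (by_contra fun e' => ?_)
    have := congrArg (· ⬝ᵥ εJ ((mmC (m + 1)).σ (refl s k)).1.1) (v_of_wt (mmC (m + 1)) (k := refl s k) (r := k) (s := s) (i := 1) (j := -pair s k)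
      (by rw [wt_refl, one_smul, neg_smul, sub_eq_add_neg]))
    rw [MM.pair_σ] at this
    change (εJ _ + εJ _) ⬝ᵥ _ = (1 • (εJ _ + εJ _) + -(_ ⬝ᵥ (εJ _ + εJ _)) • _) ⬝ᵥ _ at this
    have e2 : ((mmC (m + 1)).σ (refl s k)).1.1 ≠ ((mmC (m + 1)).σ (refl s k)).1.2.swap := fun e => ((mmC (m + 1)).σ (refl s k)).2.2 (by
      change _ = Sum.swap _; simp [e])
    rw [add_dotProduct, εJ_dot, εJ_dot, if_pos rfl, if_neg (ne_swap _), if_neg e', if_neg e2, ← e, add_dotProduct, smul_dotProduct,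
      smul_dotProduct, add_dotProduct, dotProduct_add] at this
    simp only [smul_eq_mul] at this
    generalize (mmC (m + 1)).c _ ⬝ᵥ _ = u, (mmC (m + 1)).v _ ⬝ᵥ _ = w, εJ _ ⬝ᵥ εJ _ = z at this
    exact (by decide : ¬ (2 : ℤ) ∣ 1) ⟨z - u * w, by linear_combination this⟩) r c (by rw [hr])
  have h5 := S.h_conj_n r s c0 1
  rw [h3, zpow_one, mul_one] at h5
  rw [SetLike.mem_coe, StSys.h, ← h5, ← n_inv]
  simpa [mul_assoc] using mul_mem (h2 r c (by rw [hr])) (inv_mem h4)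

theorem am_core {m : ℕ} (hK : ∃ a : K, a ≠ 0 ∧ a ≠ 1) (em : Fin (m + 2) ↪ Fin n) (φ : J →* symplecticGroup (Fin n) K) {A A' D : Subgroup J}
    {U : Fin (m + 2) ⊕ Fin (m + 2) → Subgroup J} (gA : Gd φ A) (gA' : Gd φ A') (gD : Gd φ D)
    (gU : ∀ q, (pq q = 0 ∨ pq q = .last _) → Gd φ (U q)) (nA : ∀ q, pq q = 0 → ∀ x ∈ A, ∀ y ∈ U q, x * y * x⁻¹ ∈ U q)
    (nA' : ∀ q, pq q = .last _ → ∀ x ∈ A', ∀ y ∈ U q, x * y * x⁻¹ ∈ U q)
    (hy : ∀ a c, c ≠ a.swap → ∀ g, Rt g (em.sumMap em a) (em.sumMap em c) → ∃ y, φ y = g ∧ Cnd A A' D U a c y) :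
    ∃ R, Gd φ R ∧ ∀ a c, c ≠ a.swap → ∀ g, Rt g (em.sumMap em a) (em.sumMap em c) → ∃ y ∈ R, φ y = g ∧ Cnd A A' D U a c y := by
  obtain ⟨S, -, hS⟩ := sysC m (.inr hK)
  choose y y1 y2 using fun r t => hy _ _ ((mmC (m + 1)).σ r).2.2 _ ⟨_, _, pad_g em _ t (hS r t), fun e => if_neg fun e' => e (congrArg _ e')⟩
  have h0 : (0 : Fin (m + 2)) ≠ .last _ := by simp [Fin.ext_iff]
  have hs : StRel y := stRel_of' φ (S.rel.map (spPad em)) y1 (fun r t u => by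
    by_cases e : pq ((mmC (m + 1)).σ r).1.1 ≠ 0 ∧ pq ((mmC (m + 1)).σ r).1.2 ≠ 0
    · exact gA.eq (mul_mem ((y2 _ _).1 e) ((y2 _ _).1 e)) ((y2 _ _).1 e) (by simp [y1, ← S.add])
    obtain ⟨q, e1, e2⟩ : ∃ q, pq q = 0 ∧ (((mmC (m + 1)).σ r).1.1 = q ∨ ((mmC (m + 1)).σ r).1.2 = q) := by grind
    have := fun t => (y2 r t).2.2.1 q (.inl e1) e2
    exact (gU q (.inl e1)).eq (mul_mem (this _) (this _)) (this _) (by simp [y1, ← S.add])) fun r s _ b => by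
      have v := fun k i j q e => congrArg (· ⬝ᵥ εJ q) (v_of_wt (mmC (m + 1)) (k := k) (r := r) (s := s) (i := i) (j := j) e)
      simp only [add_dotProduct (_ • _), smul_dotProduct, smul_eq_mul] at v
      have d := fun k q => Cn_dot q ((mmC (m + 1)).σ k).2.2
      have cc : ∀ {N : Subgroup J} {a b}, a ∈ N → b ∈ N → ⁅a, b⁆ ∈ N := fun h h' =>
        Subgroup.commutator_le_self _ (Subgroup.commutator_mem_commutator h h')
      rcases Cn_pairs h0 ((mmC (m + 1)).σ r).2 ((mmC (m + 1)).σ s).2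
        (fun e => b ((mmC (m + 1)).σ.injective ((Subtype.ext e).trans (MM.σ_rev _ _).symm))) with h | h | ⟨q, hq, h⟩
      · exact ⟨A, gA, fun k i j _ _ e t => (y2 _ _).1 ((d k (inl 0)).2.2 ((v k i j _ e).trans (by
          erw [(d r (inl 0)).2.1 h.1, (d s (inl 0)).2.1 h.2]; simp))), fun t u => cc ((y2 _ _).1 h.1) ((y2 _ _).1 h.2)⟩
      · exact ⟨A', gA', fun k i j _ _ e t => (y2 _ _).2.1 ((d k (inl (.last _))).2.2 ((v k i j _ e).trans (by
          erw [(d r (inl (.last _))).2.1 h.1, (d s (inl (.last _))).2.1 h.2]; simp))), fun t u => cc ((y2 _ _).2.1 h.1) ((y2 _ _).2.1 h.2)⟩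
      have nn : ∀ k t, pq ((mmC (m + 1)).σ k).1.1 ≠ pq q ∧ pq ((mmC (m + 1)).σ k).1.2 ≠ pq q → ∀ z ∈ U q, y k t * z * (y k t)⁻¹ ∈ U q :=
        fun k t e => hq.elim (fun e' => nA q e' _ ((y2 _ _).1 (e' ▸ e))) fun e' => nA' q e' _ ((y2 _ _).2.1 (e' ▸ e))
      have mm := fun k t => (y2 k t).2.2.1 q hq
      refine ⟨U q, gU q hq, fun k i j hi hj e t => mm _ _ ((d k q).1.2 (lt_of_lt_of_eq ?_ (v k i j q e).symm)), fun t u => ?_⟩
      · rcases h with ⟨h, h' | h'⟩ | ⟨h, h'⟩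
        · exact add_pos (mul_pos (by omega) ((d r q).1.1 h)) (mul_pos (by omega) ((d s q).1.1 h'))
        · exact add_pos_of_pos_of_nonneg (mul_pos (by omega) ((d r q).1.1 h)) (mul_nonneg (by omega) ((d s q).2.1 h').ge)
        · exact add_pos_of_nonneg_of_pos (mul_nonneg (by omega) ((d r q).2.1 h').ge) (mul_pos (by omega) ((d s q).1.1 h))
      rcases h with ⟨h, h' | h'⟩ | ⟨h, h'⟩
      · exact cc (mm _ _ h) (mm _ _ h')
      · simpa only [commutatorElement_def, mul_assoc] using mul_mem (mm _ t h) (nn s u h' _ (inv_mem (mm _ t h)))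
      · simpa only [commutatorElement_def, mul_assoc] using mul_mem (nn r t h' _ (mm _ u h)) (inv_mem (mm _ u h))
  refine ⟨(scLift hs).range, ?_, fun a c h g hg => ?_⟩
  · rintro _ ⟨z, rfl⟩ e
    have e1 : φ.comp (scLift hs) = (spPad em).comp (scLift S.rel) := hom_ext (scSys_grp _ K) fun r t => by simp [y1]
    have e2 : (scSys (dC m) K).θ = S.θ.comp (scLift S.rel) := hom_ext (scSys_grp _ K) fun r t => by simp [θ_x']
    have e3 : scLift S.rel z = 1 := spPad_inj em ((DFunLike.congr_fun e1 z).symm.trans (e.trans (map_one _).symm))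
    exact gD _ (torus_long (scSys (dC m) K) (L := D.comap (scLift hs)) (fun r t e => by simpa using (y2 r t).2.2.2 e)
      (mem_H_of_θ_eq_one (by rw [scSys_grp]; trivial) (by simp [e2, e3]))) e
  wlog hκ : κJ a ≤ κJ c generalizing a c
  · obtain ⟨y, h1, h2, h3⟩ := this c a (fun e => h (by simp [e])) hg.symm (by omega)
    exact ⟨y, h1, h2, h3.symm⟩
  obtain ⟨r, hr⟩ := (mmC (m + 1)).σ.surjective ⟨(a, c), hκ, h⟩
  obtain ⟨s, t, i, ht⟩ := hg
  refine ⟨y r (-(sgS c * if a = c then t + s + s else s)), ⟨_, scLift_x hs _ _⟩, ?_, by simpa only [hr] using y2 r _⟩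
  refine (y1 _ _).trans ((pad_g em _ _ (hS r _)).uniq fun v => ?_)
  rw [i, hr]
  dsimp only
  split_ifs with e
  · subst e; simp [← mul_assoc, sgS_sq]; module
  · simp [← mul_assoc, sgS_sq, ht fun e' => e ((em.sumMap em).injective e')]
end H09
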