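import Mathlib
import Cfsg.Agent.H09.AmB
import Cfsg.Agent.H09.TwD
import Cfsg.Agent.H09.SpOrder
/-! Amalgams for symplectic groups: coordinates, generation by root elements. -/
namespace H09
open Matrix Sum Sk
variable {K : Type*} [Field K] {J : Type*} [Group J] {n : ℕ} {P Q : Fin n → Prop} {a : Fin n ⊕ Fin n} {i j : Fin n}

theorem spSk_wt : (spSk K n).Wt := fun X u v hu hv h =>
  let ⟨g, _, h1, h2⟩ := (spForm (Fin n) K).witt_point (spForm (Fin n) K).hasElem_top X hu hv h rfl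
  ⟨(spIsomEquiv _ K).symm g, fun x m => (spIsomEquiv_symm_smul g x).trans (h1 x m), (spIsomEquiv_symm_smul g u).trans h2⟩

variable (K) in
/-- vectors supported on the planes in `P` -/
def VS (P : Fin n → Prop) : Submodule K (Fin n ⊕ Fin n → K) where
  carrier := {v | ∀ a, ¬ P (pq a) → v a = 0}
  add_mem' h h' a e := by simp [h a e, h' a e]
  zero_mem' _ _ := rfl
  smul_mem' c v h a e := by simp [h a e]
variable (K) in
/-- the symplectic group on the planes in `P` -/
noncomputable def GP (P : Fin n → Prop) : Subgroup (symplecticGroup (Fin n) K) := (spSk K n).Fx (VS K fun i => ¬ P i)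
variable (K n) in
/-- the span of the `e_i` -/
def Lg : Submodule K (Fin n ⊕ Fin n → K) where
  carrier := {v | ∀ i, v (inr i) = 0}
  add_mem' h h' a := by simp [h a, h' a]
  zero_mem' _ := rfl
  smul_mem' c v h a := by simp [h a]

theorem bv_mem (h : P (pq a)) : bv K a ∈ VS K P := fun _ e => Pi.single_eq_of_ne (by rintro rfl; exact e h) _
theorem bv_ne (a : Fin n ⊕ Fin n) : bv K a ≠ 0 := fun h => by simpa using congrFun h a
theorem VS_mono (h : ∀ i, P i → Q i) : VS K P ≤ VS K Q := fun _ m a e => m a (mt (h _) e)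
theorem GP_mono (h : ∀ i, P i → Q i) : GP K P ≤ GP K Q := fun _ m v e => m v (VS_mono (fun i => mt (h i)) e)
theorem spl (P : Fin n → Prop) : (spSk K n).Spl (VS K P) (VS K fun i => ¬ P i) := by
  classical
  refine ⟨fun w m r m' => ?_, fun v => ⟨fun a => if P (pq a) then v a else 0, fun a e => if_neg e,
    fun a => if P (pq a) then 0 else v a, fun a e => if_pos (not_not.1 e), funext fun a => by by_cases e : P (pq a) <;> simp [e]⟩⟩
  rw [spSk_h, spB_apply']
  refine Finset.sum_eq_zero fun i _ => ?_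
  by_cases e : P i
  · simp [m' (inl i) (not_not.2 e), m' (inr i) (not_not.2 e)]
  · simp [m (inl i) e, m (inr i) e]
theorem fx_of_bv {W : Submodule K (Fin n ⊕ Fin n → K)} {g} (h : ∀ v ∈ W, ∀ a, v a ≠ 0 → (spSk K n).ρ g (bv K a) = bv K a) : g ∈ (spSk K n).Fx W :=
  fun v m => by
    rw [pi_eq_sum_univ' v, map_sum]
    refine Finset.sum_congr rfl fun a _ => ?_
    by_cases e : v a = 0
    · simp [e]
    · rw [map_smul, h v m a e]
theorem h_bv_bv (h : pq a ≠ i) (c) (e : pq c = i) : (spSk K n).h (bv K a) (bv K c) = 0 :=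
  (spl (· = i)).o _ (bv_mem e) _ (bv_mem (P := fun j => ¬ j = i) h)
theorem h_swap (a : Fin n ⊕ Fin n) : (spSk K n).h (bv K a.swap) (bv K a) ≠ 0 := by simp [h_bv, sgS_ne]

theorem comm_of {g k : symplecticGroup (Fin n) K} (h : ∀ v, (spSk K n).ρ k ((spSk K n).ρ g v - v) = (spSk K n).ρ g v - v)
    (h' : ∀ v, (spSk K n).ρ g ((spSk K n).ρ k v - v) = (spSk K n).ρ k v - v) : Commute g k :=
  (spSk K n).inj (LinearMap.ext fun v => by
    have := h v; have := h' v
    rw [ρ_mul, ρ_mul]; simp only [map_sub, sub_eq_iff_eq_add] at *; simp only [*]; abel)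
theorem GP_sub {g} (m : g ∈ GP K P) (v) : (spSk K n).ρ g v - v ∈ VS K P :=
  (spl P).mem fun r e => by rw [map_sub, sub_eq_zero, ← (spSk K n).inv g r v, m r e]
theorem GP_comm {g k} (m : g ∈ GP K P) (m' : k ∈ GP K Q) (h : ∀ i, P i → ¬ Q i) : Commute g k :=
  comm_of (fun v => m' _ (VS_mono h (GP_sub m v))) fun v => m _ (VS_mono (fun i e e' => h i e' e) (GP_sub m' v))
theorem Lg_comm {g k} (m : g ∈ (spSk K n).Fx (Lg K n)) (m' : k ∈ (spSk K n).Fx (Lg K n)) : Commute g k := by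
  have : ∀ g ∈ (spSk K n).Fx (Lg K n), ∀ v, (spSk K n).ρ g v - v ∈ Lg K n := fun g m v i => by
    have := (spSk K n).inv g v (bv K (inl i))
    rw [m (bv K (inl i)) (fun j => by simp), h_bv, h_bv] at this
    simpa [sgS, sub_eq_zero] using this
  exact comm_of (fun v => m' _ (this g m v)) fun v => m _ (this k m' v)
theorem GP_disj {g} (m : g ∈ GP K P) (m' : g ∈ GP K Q) (h : ∀ i, P i → ¬ Q i) : g = 1 :=
  (spSk K n).inj (LinearMap.ext fun v => by
    obtain ⟨w, e, r, e', rfl⟩ := (spl (K := K) P).s v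
    simp [m r e', m' w (VS_mono h e)])
theorem isE_GP {g r p b} (e : (spSk K n).IsE g r p b) (h : r ∈ VS K P) (h' : p ∈ VS K P) : g ∈ GP K P := (spl P).fx e h h'
theorem isE_Lg {g r p b} (e : (spSk K n).IsE g r p b) (h : r ∈ Lg K n) (h' : p ∈ Lg K n) : g ∈ (spSk K n).Fx (Lg K n) := fun v m => by
  have : ∀ r ∈ Lg K n, (spSk K n).h v r = 0 := fun r e => by simp [spSk_h, spB_apply', m _, e _]
  rw [e]; simp [this r h, this p h']
theorem e_Lg (i : Fin n) : bv K (inl i) ∈ Lg K n := fun j => by simp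

theorem sp_st {L : Subgroup (symplecticGroup (Fin n) K)} (h1 : P (pq a)) (h2 : ∀ i, Q i ↔ P i ∧ i ≠ pq a) (l1 : GP K Q ≤ L)
    (l2 : ∀ t, (spSk K n).Eg L (bv K a) 0 t) (l3 : (∀ i, ¬ Q i) ∨ ∃ c, Q (pq c) ∧ (spSk K n).Eg L (bv K a) (bv K c) 0) {g}
    (hg : g ∈ GP K P) (hg' : (spSk K n).ρ g (bv K a) = bv K a) : g ∈ L :=
  spSk_sy.st spSk_wt (spl P) (spl Q) (VS_mono fun i e => ((h2 i).1 e).1) (bv_mem h1) (bv_mem (a := a.swap) (by simpa))
    (bv_mem (P := fun i => ¬ Q i) (by simp [h2])) (bv_mem (P := fun i => ¬ Q i) (by simp [h2])) (h_swap a) (fun v m => by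
      refine Submodule.mem_sup.2 ⟨v - (v a • bv K a + v a.swap • bv K a.swap), fun c e => ?_, _, Submodule.mem_span_pair.2 ⟨v a, v a.swap, rfl⟩, sub_add_cancel ..⟩
      have := m c
      rcases a with a | a <;> rcases c with c | c <;> by_cases e' : c = a <;> simp_all) l1 l2
    (l3.imp (fun h => eq_bot_iff.2 fun v m => funext fun c => m c (h _)) fun ⟨c, e, h⟩ => ⟨_, bv_mem e, bv_ne c, h⟩) hg hg'

/-- intervals -/
def In (k l : ℕ) (i : Fin n) : Prop := k ≤ i.val ∧ i.val < l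

theorem sp_gen {L : Subgroup (symplecticGroup (Fin n) K)} {l : ℕ} (hl : l ≤ n) (d : ℕ) : ∀ k, k + d = l →
    (∀ a, In k l (pq a) → ∀ t, (spSk K n).Eg L (bv K a) 0 t) →
    (∀ a j, In k l (pq a) → In k l j → j.val = (pq a).val + 1 → (spSk K n).Eg L (bv K a) (bv K (inl j)) 0) → GP K (In k l) ≤ L := by
  induction d with
  | zero => exact fun k e _ _ g m => GP_disj m m (fun i h => by simp [In] at h; omega) ▸ one_mem _
  | succ d ih =>
    intro k e h1 h2
    have i1 := ih (k + 1) (by omega) (fun a h => h1 a ⟨by have := h.1; omega, h.2⟩)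
      fun a j h h' => h2 a j ⟨by have := h.1; omega, h.2⟩ ⟨by have := h'.1; omega, h'.2⟩
    have i2 : ∀ a : Fin n ⊕ Fin n, (pq a).val = k → ∀ g ∈ GP K (In k l), (spSk K n).ρ g (bv K a) = bv K a → g ∈ L := fun a h g =>
      sp_st (by simp [In]; omega) (fun i => by simp [In, Fin.ext_iff]; omega) i1 (h1 a (by simp [In]; omega)) (by
        by_cases c : k + 1 < l
        · exact .inr ⟨inl ⟨k + 1, by omega⟩, by simp [In, c], h2 a _ (by simp [In]; omega) (by simp [In, c]) (by simp [h])⟩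
        · exact .inl fun i h => by simp [In] at h; omega)
    exact spSk_sy.gen spSk_wt (spl _) (bv_mem (a := inl ⟨k, by omega⟩) (by simp [In]; omega)) (bv_mem (a := inr ⟨k, by omega⟩) (by simp [In]; omega))
      (h_swap (inl _)) (i2 _ rfl) (i2 _ rfl)

theorem ex_w (a : Fin n ⊕ Fin n) : ∃ g ∈ GP K (· = pq a), (spSk K n).ρ g (bv K (inl (pq a))) = bv K a :=
  (spl _).wt0 spSk_wt (bv_mem rfl) (bv_mem rfl) (bv_ne _) (bv_ne _)

theorem sp_gen' {L : Subgroup (symplecticGroup (Fin n) K)} {k l : ℕ} (hl : l ≤ n) (h1 : ∀ j, In k l j → GP K (· = j) ≤ L)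
    (h2 : ∀ i j, In k l i → In k l j → j.val = i.val + 1 → (spSk K n).Eg L (bv K (inl i)) (bv K (inl j)) 0) : GP K (In k l) ≤ L := by
  rcases le_total k l with h | h
  swap
  · exact fun g m => GP_disj m m (fun i h => by simp [In] at h; omega) ▸ one_mem _
  refine sp_gen hl (l - k) k (by omega) (fun a h t => ?_) fun a j h h' e => ?_
  · obtain ⟨g, i⟩ := spSk_sy.exE (r := bv K a) (p := 0) (by simp) t
    exact spSk_sy.eg i (by simp) (h1 _ h (isE_GP i (bv_mem rfl) (zero_mem _)))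
  · obtain ⟨g, m, i⟩ := ex_w (K := K) a
    exact ((h2 _ j h h' e).conj (h1 _ h m)).congr i (m _ (bv_mem (P := fun i => ¬ i = pq a) (by simp [Fin.ext_iff, e]))) rfl
end H09
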