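import Mathlib
import Cfsg.Agent.H09.AmC
/-! Amalgams for symplectic groups: amalgam data and the corner lemma. -/
namespace H09
open Matrix Sum Sk
variable {K : Type*} [Field K] {J : Type*} [Group J] {n : ℕ} {P Q : Fin n → Prop} {i j p q nb : Fin n}
  {φ : J →* symplecticGroup (Fin n) K} {A : Fin n → Subgroup J} {B : Fin n → Fin n → Subgroup J} {U : Subgroup J}

variable (K) in
/-- the abelian groups of the amalgam -/
noncomputable def MG (i j : Fin n) : Subgroup (symplecticGroup (Fin n) K) := (spSk K n).Fx (Lg K n) ⊓ GP K fun l => l = i ∨ l = j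
/-- adjacency -/
def Adj (i j : Fin n) : Prop := j.val = i.val + 1 ∨ i.val = j.val + 1
theorem Adj.ne (h : Adj i j) : i ≠ j := by rintro rfl; simp [Adj] at h

/-- amalgam data -/
structure AD (φ : J →* symplecticGroup (Fin n) K) (A : Fin n → Subgroup J) (B : Fin n → Fin n → Subgroup J) : Prop where
  a1 : ∀ j, ∀ x ∈ A j, φ x ∈ GP K (· = j)
  a2 : ∀ j, ∀ g ∈ GP K (· = j), ∃ x ∈ A j, φ x = g
  b1 : ∀ i j, Adj i j → ∀ x ∈ B i j, φ x ∈ MG K i j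
  b2 : ∀ i j, Adj i j → ∀ g ∈ MG K i j, ∃ x ∈ B i j, φ x = g
  bs : ∀ i j, B i j = B j i
  aa : ∀ j l, Gd φ (A j ⊔ A l)
  bb : ∀ i j i' j', Adj i j → Adj i' j' → Gd φ (B i j ⊔ B i' j')
  ba : ∀ i j l, Adj i j → Gd φ (B i j ⊔ A l)

/-- the subgroup generated by the members on the planes in `P` -/
def JJ (A : Fin n → Subgroup J) (B : Fin n → Fin n → Subgroup J) (P : Fin n → Prop) : Subgroup J :=
  Subgroup.closure {x | (∃ j, P j ∧ x ∈ A j) ∨ ∃ i j, Adj i j ∧ P i ∧ P j ∧ x ∈ B i j}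
theorem jA (h : P j) : A j ≤ JJ A B P := fun _ m => Subgroup.subset_closure (.inl ⟨j, h, m⟩)
theorem jB (e : Adj i j) (h : P i) (h' : P j) : B i j ≤ JJ A B P := fun _ m => Subgroup.subset_closure (.inr ⟨i, j, e, h, h', m⟩)
theorem j_le (h : ∀ j, P j → A j ≤ U) (h' : ∀ i j, Adj i j → P i → P j → B i j ≤ U) : JJ A B P ≤ U :=
  (Subgroup.closure_le _).2 fun _ m => m.elim (fun ⟨j, e, m⟩ => h j e m) fun ⟨i, j, e, e1, e2, m⟩ => h' i j e e1 e2 m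
theorem j_mono (h : ∀ i, P i → Q i) : JJ A B P ≤ JJ A B Q := j_le (fun j e => jA (h j e)) fun i j e e1 e2 => jB e (h i e1) (h j e2)

theorem isE_MG {g} {s t : K} (e : (spSk K n).IsE g (bv K (inl i)) (s • bv K (inl j)) t) : g ∈ MG K i j :=
  ⟨isE_Lg e (e_Lg i) (Submodule.smul_mem _ _ (e_Lg j)), isE_GP e (bv_mem (.inl rfl)) (Submodule.smul_mem _ _ (bv_mem (.inr rfl)))⟩
theorem h_ee (i j : Fin n) : (spSk K n).h (bv K (inl i)) (bv K (inl j)) = 0 := by simp [h_bv]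
theorem isE_symm {g r p} {s : K} (e : (spSk K n).IsE g r (s • p) 0) : (spSk K n).IsE g p (s • r) 0 := fun y => by rw [e]; simp; module

/-- transvections with a fixed centre -/
def TvG (a : Fin n ⊕ Fin n → K) : Subgroup (symplecticGroup (Fin n) K) where
  carrier := {g | ∃ t, (spSk K n).IsE g a 0 t}
  one_mem' := ⟨0, fun y => by simp⟩
  mul_mem' := fun ⟨_, i⟩ ⟨_, i'⟩ => ⟨_, by simpa using i.mul i' (spSk_sy.ok' (by simp)) (spSk_sy.ok' (by simp))⟩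
  inv_mem' := fun ⟨_, i⟩ => ⟨_, by simpa using i.inv (spSk_sy.ok' (by simp))⟩

theorem orb {τ} (h : ∀ g ∈ GP K Q, ∃ x, φ x = g ∧ ∀ y ∈ U, x * y * x⁻¹ ∈ U) (hp : ¬ Q p) (hn : Q nb) (m : τ ∈ U)
    (e : (spSk K n).IsE (φ τ) (bv K (inl p)) (bv K (inl nb)) 0) : ∀ v ∈ VS K Q, ∃ y ∈ U, (spSk K n).IsE (φ y) (bv K (inl p)) v 0 := fun v m' => by
  by_cases v0 : v = 0
  · exact ⟨1, one_mem _, fun y => by simp [v0]⟩
  obtain ⟨g, m1, i⟩ := (spl Q).wt0 spSk_wt (bv_mem (a := inl nb) hn) m' (bv_ne _) v0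
  obtain ⟨x, rfl, m2⟩ := h g m1
  have := e.conj (φ x)
  rw [i, m1 _ (bv_mem (P := fun i => ¬ Q i) (a := inl p) hp)] at this
  exact ⟨_, m2 τ m, by simpa⟩

/-- the data at a corner -/
structure Side (φ : J →* symplecticGroup (Fin n) K) (A : Fin n → Subgroup J) (B : Fin n → Fin n → Subgroup J) (p nb : Fin n)
    (P : Fin n → Prop) (U : Subgroup J) : Prop where
  gd : Gd φ U
  z : ∀ z ∈ A p, φ z ∈ TvG (bv K (inl p)) → z ∈ U
  τ : ∃ τ ∈ U ⊓ B p nb, (spSk K n).IsE (φ τ) (bv K (inl p)) (bv K (inl nb)) 0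
  nm : ∀ x ∈ JJ A B P, ∀ y ∈ U, x * y * x⁻¹ ∈ U

namespace AD
variable (D : AD φ A B)
include D
theorem j1 : JJ A B P ≤ (GP K P).comap φ :=
  j_le (fun j e x m => GP_mono (by rintro _ rfl; exact e) (D.a1 j x m))
    fun i j e e1 e2 x m => GP_mono (by rintro _ (rfl | rfl) <;> assumption) (D.b1 i j e x m).2
theorem exB (e : Adj i j) (s t : K) : ∃ x ∈ B i j, (spSk K n).IsE (φ x) (bv K (inl i)) (s • bv K (inl j)) t := by
  obtain ⟨g, h⟩ := spSk_sy.exE (r := bv K (inl i)) (p := s • bv K (inl j)) (by simp [h_ee]) t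
  obtain ⟨x, m, rfl⟩ := D.b2 i j e g (isE_MG h)
  exact ⟨x, m, h⟩
theorem exB' (e : Adj i j) : ∃ x ∈ B i j, (spSk K n).IsE (φ x) (bv K (inl i)) (bv K (inl j)) 0 := by simpa using D.exB e 1 0
theorem j2 {k l : ℕ} (hl : l ≤ n) : GP K (In k l) ≤ (JJ A B (In k l)).map φ :=
  sp_gen' hl (fun j h g m => let ⟨x, m', e⟩ := D.a2 j g m; ⟨x, jA h m', e⟩) fun i j h h' e =>
    let ⟨x, m, e'⟩ := D.exB' (.inl e); spSk_sy.eg e' (h_ee _ _) ⟨x, jB (.inl e) h h' m, rfl⟩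
theorem cA (h : ¬ P p) {z} (hz : z ∈ A p) : JJ A B P ≤ Subgroup.centralizer {z} :=
  j_le (fun j e x m => Subgroup.mem_centralizer_singleton_iff.2 ((D.aa j p).comm (Subgroup.mem_sup_left m) (Subgroup.mem_sup_right hz)
    (GP_comm (D.a1 j x m) (D.a1 p z hz) (by rintro _ rfl rfl; exact h e))))
    fun i j e e1 e2 x m => Subgroup.mem_centralizer_singleton_iff.2 ((D.ba i j p e).comm (Subgroup.mem_sup_left m) (Subgroup.mem_sup_right hz)
      (GP_comm (D.b1 i j e x m).2 (D.a1 p z hz) (by rintro _ (rfl | rfl) rfl <;> contradiction)))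
theorem cB (e : Adj i j) {x} (m : x ∈ B i j) (e' : Adj p q) {y} (m' : y ∈ B p q) : Commute x y :=
  (D.bb i j p q e e').comm (Subgroup.mem_sup_left m) (Subgroup.mem_sup_right m') (Lg_comm (D.b1 _ _ e x m).1 (D.b1 _ _ e' y m').1)
theorem exZ (a : Fin n ⊕ Fin n) (t : K) : ∃ x ∈ A (pq a), (spSk K n).IsE (φ x) (bv K a) 0 t := by
  obtain ⟨g, h⟩ := spSk_sy.exE (r := bv K a) (p := 0) (by simp) t
  obtain ⟨x, m, rfl⟩ := D.a2 (pq a) g (isE_GP h (bv_mem rfl) (zero_mem _))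
  exact ⟨x, m, h⟩
theorem zB (e : Adj p nb) {z} (m : z ∈ A p) (h : φ z ∈ TvG (bv K (inl p))) : z ∈ B p nb := by
  obtain ⟨t, h⟩ := h
  obtain ⟨x, m', h'⟩ := D.exB e 0 t
  exact (D.ba p nb p e).eq (Subgroup.mem_sup_left m') (Subgroup.mem_sup_right m) (h'.uniq (by simpa)) ▸ m'

theorem corner (hK : ∃ a : K, a ≠ 0 ∧ a ≠ 1) (hP : GP K P ≤ (JJ A B P).map φ) (hQ : GP K Q ≤ (JJ A B Q).map φ) (gP : Gd φ (JJ A B P))
    (h1 : ¬ P p) (h2 : P nb) (h3 : Adj p nb) (h4 : ∀ i, Q i ↔ P i ∧ i ≠ nb) (h5 : (∀ i, ¬ Q i) ∨ ∃ c, Q c ∧ Adj nb c) :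
    ∃ U, Side φ A B p nb P U := by
  obtain ⟨τ, m, e⟩ := D.exB' h3
  obtain ⟨U, u1, u2, u3, -, u4⟩ := spSk_sy.hz spSk_wt hK φ (A := JJ A B P) (N := B p nb ⊔ A nb) (Z := A p ⊓ (TvG (bv K (inl p))).comap φ)
    (spl P) (bv_mem (P := fun i => ¬ P i) (a := inl p) h1) (bv_ne _) (bv_mem (a := inl nb) h2) (bv_mem (a := inr nb) h2) (h_swap (inl nb))
    (fun x m => D.j1 m) hP (D.ba p nb nb h3) (Subgroup.mem_sup_left m) (fun z m => Subgroup.mem_sup_left (D.zB h3 m.1 m.2))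
    (fun v m v0 => by
      obtain ⟨g, m1, i⟩ := (spl (· = nb)).wt0 spSk_wt (bv_mem (a := inl nb) rfl)
        (Submodule.span_le.2 (by rintro _ (rfl | rfl) <;> exact bv_mem rfl) m) (bv_ne _) v0
      obtain ⟨x, m2, rfl⟩ := D.a2 nb g m1
      exact ⟨x, ⟨jA h2 m2, Subgroup.mem_sup_right m2⟩, i⟩) (fun z m => m.2)
    (fun t => let ⟨x, m, e⟩ := D.exZ (inl p) t; ⟨x, ⟨m, t, e⟩, e⟩)
    (fun z m x m' => Subgroup.mem_centralizer_singleton_iff.1 (D.cA h1 m.1 m')) e fun x m' e' => by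
      refine Subgroup.mem_centralizer_singleton_iff.1 (gP.mem m' (sp_st (a := inl nb) h2 h4 ?_ (fun t => ?_) (h5.imp id ?_) (D.j1 m') e'))
      · refine hQ.trans (Subgroup.map_mono (le_inf (j_le (fun j e x m' => ?_) fun i j e _ _ x m' => ?_) (j_mono fun i h => ((h4 i).1 h).1)))
        · exact Subgroup.mem_centralizer_singleton_iff.2 ((D.ba p nb j h3).comm (Subgroup.mem_sup_right m') (Subgroup.mem_sup_left m)
            (GP_comm (D.a1 j x m') (D.b1 _ _ h3 τ m).2 (by rintro _ rfl (rfl | rfl) <;> simp_all)))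
        · exact Subgroup.mem_centralizer_singleton_iff.2 (D.cB e m' h3 m)
      · obtain ⟨x, m1, e⟩ := D.exZ (inl nb) t
        exact spSk_sy.eg e (by simp) ⟨x, ⟨Subgroup.mem_centralizer_singleton_iff.2 (D.cB h3.symm (D.zB h3.symm m1 ⟨t, e⟩) h3 m), jA h2 m1⟩, rfl⟩
      · rintro ⟨c, h, h'⟩
        obtain ⟨x, m1, e⟩ := D.exB' h'
        exact ⟨inl c, h, spSk_sy.eg e (h_ee _ _) ⟨x, ⟨Subgroup.mem_centralizer_singleton_iff.2 (D.cB h' m1 h3 m), jB h' h2 ((h4 c).1 h).1 m1⟩, rfl⟩⟩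
  exact ⟨U, u1, fun z m m' => u2 ⟨m, m'⟩, ⟨τ, ⟨u3, m⟩, e⟩, u4⟩
end AD
end H09
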