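import Mathlib
import Cfsg.Agent.H09.AmD
import Cfsg.Agent.H09.Pad
/-! Amalgams for symplectic groups: the induction. -/
namespace H09
open Matrix Sum Sk
variable {K : Type*} [Field K] {J : Type*} [Group J] {n : ℕ} {I P P' Q : Fin n → Prop} {i j p q nb nb' : Fin n}
  {φ : J →* symplecticGroup (Fin n) K} {A : Fin n → Subgroup J} {B : Fin n → Fin n → Subgroup J} {U U' : Subgroup J}

theorem Side.half (S : Side φ A B p nb P U) (hM : GP K Q ≤ (JJ A B Q).map φ) (l : ∀ i, Q i → P i) (l' : ∀ i, Q i → P' i) (h1 : ¬ Q p)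
    (h2 : Q nb) (h3 : Adj p nb) (h4 : P' p) : ∀ v ∈ VS K Q, ∃ y ∈ U ⊓ JJ A B P', (spSk K n).IsE (φ y) (bv K (inl p)) v 0 :=
  let ⟨_, m, e⟩ := S.τ
  orb (fun g m => let ⟨x, m', e⟩ := hM m
    ⟨x, e, fun y m => ⟨S.nm x (j_mono l m') y m.1, (JJ A B P').mul_mem (mul_mem (j_mono l' m') m.2) (inv_mem (j_mono l' m'))⟩⟩) h1 h2
    ⟨m.1, jB h3 h4 (l' _ h2) m.2⟩ e

theorem AD.half' (D : AD φ A B) (S : Side φ A B p q P U) (h2 : P q) (h3 : Adj p q) {y} {s : K} (m : y ∈ B p q)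
    (e : (spSk K n).IsE (φ y) (bv K (inl p)) (s • bv K (inl q)) 0) : y ∈ U := by
  obtain ⟨τ, m', e'⟩ := S.τ
  obtain ⟨z, m1, e1⟩ := orb (Q := (· = q)) (U := U ⊓ (B p q ⊔ A q)) (fun g m => let ⟨x, m', e⟩ := D.a2 q g m
    ⟨x, e, fun y m => ⟨S.nm x (jA h2 m') y m.1,
      (B p q ⊔ A q).mul_mem (mul_mem (Subgroup.mem_sup_right m') m.2) (inv_mem (Subgroup.mem_sup_right m'))⟩⟩)
    h3.ne rfl ⟨m'.1, Subgroup.mem_sup_left m'.2⟩ e' (s • bv K (inl q)) (Submodule.smul_mem _ _ (bv_mem rfl))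
  exact (D.ba p q q h3).eq m1.2 (Subgroup.mem_sup_left m) (e1.uniq e) ▸ m1.1

/-- membership conditions -/
def Cn (X X' U U' : Subgroup J) (p q i j : Fin n) (y : J) : Prop :=
  (i ≠ p ∧ j ≠ p → y ∈ X) ∧ (i ≠ q ∧ j ≠ q → y ∈ X') ∧ (i = p ∨ j = p → y ∈ U) ∧ (i = q ∨ j = q → y ∈ U')

theorem AD.base (D : AD φ A B) (S : Side φ A B p nb P U) (S' : Side φ A B q nb' P' U') (hM : GP K Q ≤ (JJ A B Q).map φ)
    (e0 : ∀ i, P i ↔ I i ∧ i ≠ p) (e1 : ∀ i, P' i ↔ I i ∧ i ≠ q) (e2 : ∀ i, Q i ↔ I i ∧ i ≠ p ∧ i ≠ q) (pq : p ≠ q) (hp : I p) (hq : I q)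
    (a : Adj p nb) (a' : Adj q nb') (hc : (Q nb ∧ Q nb') ∨ (nb = q ∧ nb' = p ∧ ∀ i, ¬ Q i)) (i j) (hi : I i) (hj : I j) (ij : i ≠ j) (s : K) :
    ∃ y, (spSk K n).IsE (φ y) (bv K (inl i)) (s • bv K (inl j)) 0 ∧ Cn (JJ A B P) (JJ A B P') U U' p q i j y := by
  have l : ∀ i, Q i → P i := by grind
  have l' : ∀ i, Q i → P' i := by grind
  have h0 := fun h => S.half (P' := P') hM l l' (by grind) h a (by grind)
  have h1 := fun h => S'.half (P' := P) hM l' l (by grind) h a' (by grind)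
  let C := fun i j => ∃ y, (spSk K n).IsE (φ y) (bv K (inl i)) (s • bv K (inl j)) 0 ∧ Cn (JJ A B P) (JJ A B P') U U' p q i j y
  have sy : ∀ i j, C i j → C j i := fun i j ⟨y, e, c⟩ =>
    ⟨y, isE_symm e, fun h => c.1 h.symm, fun h => c.2.1 h.symm, fun h => c.2.2.1 h.symm, fun h => c.2.2.2 h.symm⟩
  have c1 : ∀ j, Q j → C p j := fun j h =>
    let ⟨y, m, e⟩ := h0 (by grind) _ (Submodule.smul_mem _ s (bv_mem (a := inl j) h)); ⟨y, e, by grind, fun _ => m.2, fun _ => m.1, by grind⟩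
  have c2 : ∀ j, Q j → C q j := fun j h =>
    let ⟨y, m, e⟩ := h1 (by grind) _ (Submodule.smul_mem _ s (bv_mem (a := inl j) h)); ⟨y, e, fun _ => m.2, by grind, by grind, fun _ => m.1⟩
  have c3 : C p q := by
    rcases hc with hc | ⟨rfl, rfl, -⟩
    · obtain ⟨x, m, e⟩ := h1 hc.2 _ (Submodule.smul_mem _ s (bv_mem (a := inl nb) hc.1))
      obtain ⟨w, m', e'⟩ := h0 hc.1 _ (bv_mem (a := inr nb) hc.1)
      have o : ∀ c, H09.pq c = nb → (spSk K n).h (bv K c) (bv K (inl p)) = 0 := fun c h => h_bv_bv (h ▸ a.ne.symm) _ rfl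
      have i1 := e'.conj (φ x)
      rw [e, e, h_ee, h_bv_bv (a := inr nb) (i := q) (by simp; grind) _ rfl] at i1
      simp only [map_smulₛₗ, h_ee, h_bv (bv K (inr nb)), sgS] at i1
      refine ⟨x * w * x⁻¹ * w⁻¹, ?_, by grind, by grind, fun _ => mul_mem (S.nm x m.2 w m'.1) (inv_mem m'.1), fun _ => ?_⟩
      · simp at i1
        simpa [spSk_sy.alt, h_bv_bv (K := K) (a := inr nb) (i := q) (by simp; grind) (inl q) rfl] using
          i1.mul (e'.inv (spSk_sy.ok' (o _ rfl))) (spSk_sy.ok' (by simp [o (inr nb) rfl, h_ee])) (spSk_sy.ok' (by simp [o (inr nb) rfl]))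
      · simpa [mul_assoc] using mul_mem m.1 (S'.nm w m'.2 _ (inv_mem m.1))
    obtain ⟨y, m, e⟩ := D.exB a s 0
    exact ⟨y, e, by grind, by grind, fun _ => D.half' S (by grind) a m e, fun _ => D.half' S' (by grind) a' (D.bs _ _ ▸ m) (isE_symm e)⟩
  have c4 : Q i → Q j → C i j := fun h h' => by
    obtain ⟨g, e⟩ := spSk_sy.exE (r := bv K (inl i)) (p := s • bv K (inl j)) (by simp [h_ee]) 0
    obtain ⟨y, m, rfl⟩ := hM (isE_GP e (bv_mem h) (Submodule.smul_mem _ _ (bv_mem h')))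
    exact ⟨y, e, fun _ => j_mono l m, fun _ => j_mono l' m, by grind, by grind⟩
  change C i j
  by_cases h : i = p ∨ i = q <;> by_cases h' : j = p ∨ j = q
  · rcases h with rfl | rfl <;> rcases h' with rfl | rfl <;> first | exact c3 | exact sy _ _ c3 | contradiction
  · rcases h with rfl | rfl <;> first | exact c1 j (by grind) | exact c2 j (by grind)
  · rcases h' with rfl | rfl <;> first | exact sy _ _ (c1 i (by grind)) | exact sy _ _ (c2 i (by grind))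
  · exact c4 (by grind) (by grind)

theorem AD.lift (D : AD φ A B) (hK : ∃ a : K, a ≠ 0 ∧ a ≠ 1) (S : Side φ A B p nb P U) (S' : Side φ A B q nb' P' U')
    (hM : GP K Q ≤ (JJ A B Q).map φ) (g0 : Gd φ (JJ A B P)) (g1 : Gd φ (JJ A B P'))
    (e0 : ∀ i, P i ↔ I i ∧ i ≠ p) (e1 : ∀ i, P' i ↔ I i ∧ i ≠ q) (e2 : ∀ i, Q i ↔ I i ∧ i ≠ p ∧ i ≠ q)
    (a : Adj p nb) (a' : Adj q nb') (hc : (Q nb ∧ Q nb') ∨ (nb = q ∧ nb' = p ∧ ∀ i, ¬ Q i)) {m : ℕ} (em : Fin (m + 2) ↪ Fin n)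
    (e3 : ∀ i, I i ↔ ∃ j, em j = i) (e4 : em 0 = p) (e5 : em (.last _) = q) :
    ∃ R, Gd φ R ∧ ∀ a c, I (pq a) → I (pq c) → c ≠ a.swap → ∀ g, Rt g a c → ∃ y ∈ R, φ y = g ∧ (pq a ≠ p ∧ pq c ≠ p → y ∈ JJ A B P) ∧
      (pq a ≠ q ∧ pq c ≠ q → y ∈ JJ A B P') ∧ (a = inl p → y ∈ U) := by
  classical
  have h0 : p ≠ q := by rw [← e4, ← e5]; simp [Fin.ext_iff]
  obtain ⟨w, w1, w2, w3⟩ : ∃ w : Fin n ⊕ Fin n → J, (∀ a, w a ∈ A (pq a)) ∧ (∀ a, (spSk K n).ρ (φ (w a)) (bv K (inl (pq a))) = bv K a) ∧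
      ∀ i, w (inl i) = 1 := by
    choose g g1 g2 using ex_w (K := K) (n := n)
    choose w w1 w2 using fun a => D.a2 _ _ (g1 a)
    exact ⟨Sum.elim 1 (w ∘ inr), by rintro (a | a); exacts [one_mem _, w1 (inr _)], by rintro (a | a); exacts [by simp, w2 _ ▸ g2 (inr _)], fun _ => rfl⟩
  have w4 : ∀ a c, pq c ≠ pq a → (spSk K n).ρ (φ (w a)) (bv K c) = bv K c := fun a c h =>
    D.a1 _ _ (w1 a) _ (bv_mem (P := fun i => ¬ i = pq a) h)
  have e6 : ∀ a, pq (em.sumMap em a) = em (pq a) := by rintro (a | a) <;> rfl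
  let V : Fin n ⊕ Fin n → Subgroup J := fun a => (if pq a = p then U else U').comap (MulAut.conj (w a)⁻¹).toMonoidHom
  have v0 : ∀ a, pq a = p → ∀ y, y ∈ V a ↔ (w a)⁻¹ * y * w a ∈ U := fun a h y => by simp [V, h]
  have v1 : ∀ a, pq a = q → ∀ y, y ∈ V a ↔ (w a)⁻¹ * y * w a ∈ U' := fun a h y => by simp [V, h, h0.symm]
  have gV : ∀ {U V : Subgroup J} {w : J}, Gd φ U → (∀ y, y ∈ V ↔ w⁻¹ * y * w ∈ U) → Gd φ V := fun g h y m e => by
    simpa [mul_eq_one_iff_eq_inv] using g _ ((h y).1 m) (by simp [e])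
  have nV : ∀ {U V : Subgroup J} {w x : J}, (∀ y ∈ U, x * y * x⁻¹ ∈ U) → (∀ y, y ∈ V ↔ w⁻¹ * y * w ∈ U) → x ∈ Subgroup.centralizer {w} →
      ∀ y ∈ V, x * y * x⁻¹ ∈ V := fun {U V w x} g h c y m => (h _).2 (by
    have c : Commute x w := Subgroup.mem_centralizer_singleton_iff.1 c
    convert g _ ((h y).1 m) using 1
    simp only [← mul_assoc, c.inv_right.eq]
    simp only [mul_assoc, c.inv_left.eq])
  have hy : ∀ a c, I (pq a) → I (pq c) → c ≠ a.swap → ∀ g, Rt g a c → ∃ y, φ y = g ∧ (pq a ≠ p ∧ pq c ≠ p → y ∈ JJ A B P) ∧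
      (pq a ≠ q ∧ pq c ≠ q → y ∈ JJ A B P') ∧ (∀ r, pq r = p ∨ pq r = q → a = r ∨ c = r → y ∈ V r) ∧ (a = c → y ∈ A p ⊔ JJ A B P) := by
    rintro a c ha hc' ne g ⟨s, t, i, ht⟩
    by_cases e : a = c
    · subst e
      obtain ⟨y, m, rfl⟩ := D.a2 (pq a) g (isE_GP i (bv_mem rfl) (Submodule.smul_mem _ _ (bv_mem rfl)))
      have i1 := i.conj (φ (w a))⁻¹
      rw [map_smul, (spSk K n).ρ_eq (w2 a), ← zero_add (s • _)] at i1
      have i2 : φ ((w a)⁻¹ * y * w a) ∈ TvG (bv K (inl (pq a))) := ⟨_, by simpa using i1.self⟩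
      have i3 := mul_mem (mul_mem (inv_mem (w1 a)) m) (w1 a)
      refine ⟨y, rfl, fun h => jA (by grind) m, fun h => jA (by grind) m, ?_, fun _ => ?_⟩
      · rintro r h h'
        obtain rfl : a = r := by simpa using h'
        exact h.elim (fun h => (v0 a h y).2 (S.z _ (h ▸ i3) (h ▸ i2))) fun h => (v1 a h y).2 (S'.z _ (h ▸ i3) (h ▸ i2))
      · by_cases h : pq a = p
        · exact Subgroup.mem_sup_left (h ▸ m)
        · exact Subgroup.mem_sup_right (jA (by grind) m)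
    have ne' : pq a ≠ pq c := by rcases a with a | a <;> rcases c with c | c <;> simp_all [eq_comm]
    obtain ⟨y, i1, c1, c2, c3, c4⟩ := D.base S S' hM e0 e1 e2 h0 (by grind) (by grind) ‹_› ‹_› hc _ _ ha hc' ne' s
    have i2 := (i1.conj (φ (w c))).conj (φ (w a))
    rw [map_smul, w2, w4 c (inl (pq a)) ne', map_smul, w2, w4 a c ne'.symm] at i2
    have cm : Commute (w a) (w c) := Subgroup.mem_centralizer_singleton_iff.1
      (D.cA (P := (· = pq a)) ne'.symm (w1 c) (jA (P := (· = pq a)) (j := pq a) rfl (w1 a)))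
    have cj : ∀ {N : Subgroup J}, w a ∈ N → w c ∈ N → y ∈ N → w a * (w c * y * (w c)⁻¹) * (w a)⁻¹ ∈ N := fun h h' m =>
      mul_mem (mul_mem h (mul_mem (mul_mem h' m) (inv_mem h'))) (inv_mem h)
    have k1 : (w a)⁻¹ * (w a * (w c * y * (w c)⁻¹) * (w a)⁻¹) * w a = w c * y * (w c)⁻¹ := by group
    have k2 : (w c)⁻¹ * (w a * (w c * y * (w c)⁻¹) * (w a)⁻¹) * w c = w a * y * (w a)⁻¹ := by
      rw [← conj_mul, ← conj_mul, cm.mul_inv_cancel, cm.inv_right.mul_inv_cancel]; group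
    refine ⟨w a * (w c * y * (w c)⁻¹) * (w a)⁻¹, IsE.uniq (by simpa using i2) (ht e ▸ i),
      fun h => cj (jA ((e0 _).2 ⟨ha, h.1⟩) (w1 a)) (jA ((e0 _).2 ⟨hc', h.2⟩) (w1 c)) (c1 h),
      fun h => cj (jA ((e1 _).2 ⟨ha, h.1⟩) (w1 a)) (jA ((e1 _).2 ⟨hc', h.2⟩) (w1 c)) (c2 h),
      ?_, fun h => (e h).elim⟩
    rintro r (h | h) (rfl | rfl)
    · rw [v0 _ h, k1]; exact S.nm _ (jA ((e0 _).2 ⟨hc', h ▸ ne'.symm⟩) (w1 c)) _ (c3 (.inl h))
    · rw [v0 _ h, k2]; exact S.nm _ (jA ((e0 _).2 ⟨ha, h ▸ ne'⟩) (w1 a)) _ (c3 (.inr h))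
    · rw [v1 _ h, k1]; exact S'.nm _ (jA ((e1 _).2 ⟨hc', h ▸ ne'.symm⟩) (w1 c)) _ (c4 (.inl h))
    · rw [v1 _ h, k2]; exact S'.nm _ (jA ((e1 _).2 ⟨ha, h ▸ ne'⟩) (w1 a)) _ (c4 (.inr h))
  have e7 : ∀ a, (em.sumMap em a).swap = em.sumMap em a.swap := by rintro (a | a) <;> rfl
  obtain ⟨R, r1, r2⟩ := am_core hK em φ (D := A p ⊔ JJ A B P) (U := fun a => V (em.sumMap em a)) g0 g1 (fun g m e => by
      obtain ⟨x, m1, y, m2, rfl⟩ := sup_comm_ind (fun x m y m' =>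
        (Subgroup.mem_centralizer_singleton_iff.1 (D.cA (P := P) (by grind) m m') : Commute y x).symm) m
      have : φ y = 1 := GP_disj (D.j1 m2) (by rw [eq_inv_of_mul_eq_one_right ((map_mul φ x y).symm.trans e)]; exact inv_mem (D.a1 _ _ m1)) (by grind)
      rw [g0 y m2 this, mul_one] at e ⊢
      exact D.aa p p x (Subgroup.mem_sup_left m1) e)
    (fun r h => h.elim (fun h => gV S.gd (v0 _ (by rw [e6, h, e4]))) fun h => gV S'.gd (v1 _ (by rw [e6, h, e5])))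
    (fun r h x m => nV (S.nm x m) (v0 _ (by rw [e6, h, e4])) (D.cA (by rw [e6, h, e4]; grind) (w1 _) m))
    (fun r h x m => nV (S'.nm x m) (v1 _ (by rw [e6, h, e5])) (D.cA (by rw [e6, h, e5]; grind) (w1 _) m)) fun a c ne g h => by
      obtain ⟨y, y1, y2, y3, y4, y5⟩ := hy _ _ ((e3 _).2 ⟨_, (e6 a).symm⟩) ((e3 _).2 ⟨_, (e6 c).symm⟩) (by rwa [e7, (em.sumMap em).injective.ne_iff]) g h
      refine ⟨y, y1, fun h => y2 ?_, fun h => y3 ?_, fun r h h' => y4 _ ?_ (h'.imp (congrArg _) (congrArg _)), fun h => y5 (congrArg _ h)⟩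
      · simpa only [e6, ← e4, em.injective.ne_iff]
      · simpa only [e6, ← e5, em.injective.ne_iff]
      · simpa only [e6, ← e4, ← e5, em.injective.eq_iff]
  refine ⟨R, r1, fun a c ha hc ne g h => ?_⟩
  have e8 : ∀ a, I (pq a) → ∃ b, em.sumMap em b = a := by
    rintro (a | a) h <;> obtain ⟨b, h⟩ := (e3 _).1 h
    exacts [⟨inl b, congrArg inl h⟩, ⟨inr b, congrArg inr h⟩]
  obtain ⟨a, rfl⟩ := e8 a ha
  obtain ⟨c, rfl⟩ := e8 c hc
  obtain ⟨y, y0, y1, y2, y3, y4, -⟩ := r2 a c (by rwa [e7, (em.sumMap em).injective.ne_iff] at ne) g h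
  refine ⟨y, y0, y1, fun h => y2 ?_, fun h => y3 ?_, fun h => ?_⟩
  · simpa only [e6, ← e4, em.injective.ne_iff] using h
  · simpa only [e6, ← e5, em.injective.ne_iff] using h
  · have := y4 a (.inl (em.injective (by rw [← e6, h, e4]; rfl))) (.inl rfl)
    simpa [h, w3] using (v0 _ (by rw [h]; rfl) y).1 this
end H09
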