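import Mathlib
import Cfsg.Agent.H09.AmE
/-! Amalgams for symplectic groups: the main theorem. -/
namespace H09
open Matrix Sum Sk
variable {K : Type*} [Field K] {J : Type*} [Group J] {n : ℕ}
  {φ : J →* symplecticGroup (Fin n) K} {A : Fin n → Subgroup J} {B : Fin n → Fin n → Subgroup J}

theorem AD.le_R (D : AD φ A B) {k l : ℕ} (hl : l ≤ n) {R : Subgroup J} (g : Gd φ (JJ A B (In k l))) (hk : k ≤ l)
    (h : ∀ a c, In k l (pq a) → In k l (pq c) → c ≠ a.swap → ∀ g, Rt g a c → ∃ y ∈ R ⊓ JJ A B (In k l), φ y = g) : JJ A B (In k l) ≤ R :=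
  fun x m => g.mem m (sp_gen hl (l - k) k (by omega) (fun a e t =>
    let ⟨g, i⟩ := spSk_sy.exE (r := bv K a) (p := 0) (by simp) t
    spSk_sy.eg i (by simp) (h a a e e (by rcases a with a | a <;> simp) g ⟨0, t, by simpa, by simp⟩)) (fun a j e e' e'' =>
    have o := h_bv_bv (K := K) (a := inl j) (i := pq a) (by simp [Fin.ext_iff, e'']) a rfl
    let ⟨g, i⟩ := spSk_sy.exE o 0
    spSk_sy.eg i o (h a (inl j) e e' (by rintro h; simpa [Fin.ext_iff, e''] using congrArg pq h) g ⟨1, 0, by simpa, by simp⟩)) (D.j1 m))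

theorem AD.step (D : AD φ A B) (hK : ∃ a : K, a ≠ 0 ∧ a ≠ 1) {k m : ℕ} (hl : k + m + 2 ≤ n) (g0 : Gd φ (JJ A B (In (k + 1) (k + m + 2))))
    (g1 : Gd φ (JJ A B (In k (k + m + 1)))) : Gd φ (JJ A B (In k (k + m + 2))) := by
  obtain ⟨U, S⟩ := D.corner hK (p := ⟨k, by omega⟩) (nb := ⟨k + 1, by omega⟩) (D.j2 hl) (D.j2 (k := k + 2) hl) g0 (by simp [In])
    (by simp [In]) (.inl rfl) (fun i => by simp [In, Fin.ext_iff]; omega) (by
      by_cases c : m = 0
      · exact .inl fun i h => by simp [In] at h; omega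
      · exact .inr ⟨⟨k + 2, by omega⟩, by simp [In]; omega, .inl rfl⟩)
  obtain ⟨U', S'⟩ := D.corner hK (p := ⟨k + m + 1, by omega⟩) (nb := ⟨k + m, by omega⟩) (D.j2 (by omega)) (D.j2 (k := k) (l := k + m) (by omega)) g1
    (by simp [In]) (by simp [In]) (.inr rfl) (fun i => by simp [In, Fin.ext_iff]; omega) (by
      by_cases c : m = 0
      · exact .inl fun i h => by simp [In] at h; omega
      · exact .inr ⟨⟨k + m - 1, by omega⟩, by simp [In]; omega, .inr (by simp; omega)⟩)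
  obtain ⟨R, r1, r2⟩ := D.lift (I := In k (k + m + 2)) hK S S' (D.j2 (k := k + 1) (l := k + m + 1) (by omega)) g0 g1
    (fun i => by simp [In, Fin.ext_iff]; omega) (fun i => by simp [In, Fin.ext_iff]; omega) (fun i => by simp [In, Fin.ext_iff]; omega)
    (.inl rfl) (.inr rfl) (by
      by_cases c : m = 0
      · exact .inr ⟨by simp [c], by simp [c], fun i h => by simp [In] at h; omega⟩
      · exact .inl (by simp [In]; omega)) (m := m) ⟨fun i => ⟨k + i, by omega⟩, fun i j h => by simpa [Fin.ext_iff] using h⟩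
    (fun i => ⟨fun h => ⟨⟨i - k, by simp [In] at h; omega⟩, Fin.ext (Nat.add_sub_cancel' h.1)⟩,
      by rintro ⟨j, rfl⟩; exact ⟨Nat.le_add_right .., by change k + j.val < _; omega⟩⟩) rfl rfl
  have l0 := D.le_R hl g0 (by omega) (R := R) fun a c ha hc ne g h =>
    let ⟨y, y0, y1, y2, _⟩ := r2 a c (by simp [In] at ha ⊢; omega) (by simp [In] at hc ⊢; omega) ne g h
    ⟨y, ⟨y0, y2 (by simp [In, Fin.ext_iff] at ha hc ⊢; omega)⟩, y1⟩
  have l1 := D.le_R (by omega) g1 (by omega) (R := R) fun a c ha hc ne g h =>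
    let ⟨y, y0, y1, _, y2, _⟩ := r2 a c (by simp [In] at ha ⊢; omega) (by simp [In] at hc ⊢; omega) ne g h
    ⟨y, ⟨y0, y2 (by simp [In, Fin.ext_iff] at ha hc ⊢; omega)⟩, y1⟩
  have l2 : ∀ j, In k (k + m + 2) j → A j ≤ R := fun j h => by
    by_cases c : j.val = k
    · exact (jA (by simp [In]; omega)).trans l1
    · exact (jA (by simp [In] at h ⊢; omega)).trans l0
  refine r1.mono (j_le l2 fun i j e h h' => ?_)
  wlog hij : j.val = i.val + 1 generalizing i j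
  · exact D.bs i j ▸ this j i e.symm h' h (e.resolve_left hij)
  by_cases c : i.val = k
  swap
  · exact (jB e (by simp [In] at h ⊢; omega) (by simp [In] at h h' ⊢; omega)).trans l0
  by_cases c' : m = 0
  swap
  · exact (jB e (by simp [In] at h ⊢; omega) (by simp [In] at h h' ⊢; omega)).trans l1
  have hk : k + 1 < n := by omega
  obtain rfl : i = ⟨k, Nat.lt_of_succ_lt hk⟩ := Fin.ext c
  obtain rfl : j = ⟨k + 1, hk⟩ := Fin.ext hij
  intro x hx
  have hx' := D.b1 _ _ e x hx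
  refine (D.ba _ _ ⟨k + 1, by omega⟩ e).mem (Subgroup.mem_sup_left hx) (sp_st (a := inl ⟨k, by omega⟩) (Q := (· = ⟨k + 1, by omega⟩))
    (.inl rfl) (fun i => by simp [Fin.ext_iff]; omega) (fun g m => ?_) (fun t => ?_) (.inr ⟨inl _, rfl, ?_⟩) hx'.2 (hx'.1 _ (e_Lg _)))
  · obtain ⟨y, m', rfl⟩ := D.a2 _ g m
    exact ⟨y, ⟨l2 _ h' m', Subgroup.mem_sup_right m'⟩, rfl⟩
  · obtain ⟨y, m', i⟩ := D.exZ (inl ⟨k, by omega⟩) t
    exact spSk_sy.eg i (by simp) ⟨y, ⟨l2 _ h m', Subgroup.mem_sup_left (D.zB e m' ⟨t, i⟩)⟩, rfl⟩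
  · obtain ⟨τ, m', i⟩ := S.τ
    obtain ⟨y, y0, y1, -, -, y2⟩ := r2 (inl _) (inl _) h h' (by simp) (φ τ) ⟨1, 0, by simpa, by simp⟩
    exact spSk_sy.eg i (h_ee _ _) ⟨τ, ⟨S.gd.eq (y2 rfl) m'.1 y1 ▸ y0, Subgroup.mem_sup_left m'.2⟩, rfl⟩

theorem AD.good (D : AD φ A B) (hK : ∃ a : K, a ≠ 0 ∧ a ≠ 1) (d : ℕ) : ∀ k, k + d ≤ n → Gd φ (JJ A B (In k (k + d))) := by
  induction d using Nat.strong_induction_on with
  | _ d ih =>
  intro k hk
  match d with
  | 0 => exact Gd.mono (N := ⊥) (fun _ m _ => m) (j_le (fun j h => by simp [In] at h; omega) fun i j _ h => by simp [In] at h; omega)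
  | 1 => exact (D.aa ⟨k, hk⟩ ⟨k, hk⟩).mono (j_le (fun j h => by obtain rfl : j = ⟨k, hk⟩ := Fin.ext (by simp [In] at h ⊢; omega); simp)
      fun i j e h h' => by simp [In, Adj] at *; omega)
  | m + 2 => exact D.step hK hk (by simpa [add_assoc, add_comm 1] using ih (m + 1) (by omega) (k + 1) (by omega)) (ih (m + 1) (by omega) k (by omega))

theorem AD.main (D : AD φ A B) (hK : ∃ a : K, a ≠ 0 ∧ a ≠ 1) : ∃ Ψ : symplecticGroup (Fin n) K →* J,
    (∀ j, ∀ x ∈ A j, Ψ (φ x) = x) ∧ ∀ i j, Adj i j → ∀ x ∈ B i j, Ψ (φ x) = x := by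
  have h : ∀ i : Fin n, In 0 n i := fun i => by simp [In]
  have g : Gd φ (JJ A B (In 0 n)) := by simpa using D.good hK n 0 (by omega)
  let e := MulEquiv.ofBijective (φ.comp (JJ A B (In 0 n)).subtype) ⟨fun x y e => Subtype.ext (g.eq x.2 y.2 e), fun g =>
      let ⟨x, m, e⟩ := D.j2 (k := 0) le_rfl (fun v m => by rw [show v = 0 from funext fun a => m a (not_not.2 (h _)), map_zero] : g ∈ _)
      ⟨⟨x, m⟩, e⟩⟩
  have : ∀ x ∈ JJ A B (In 0 n), (Subgroup.subtype _).comp e.symm.toMonoidHom (φ x) = x := fun x m =>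
    congrArg Subtype.val (e.symm_apply_apply ⟨x, m⟩)
  exact ⟨_, fun j x m => this x (jA (h j) m), fun i j a x m => this x (jB a (h i) (h j) m)⟩
end H09
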