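import Mathlib
import Cfsg.Agent.H09.Balance2

/-!
# Local balance in classical groups, part 3: `PSL`
* `slRho`, `pAct_gP`, `sl_noCore`, `sBil` (the sesquilinear form of a matrix),
  `exists_form_of_corr`, `bal_gP`, `bcore_corr`
-/

open Module Matrix H10 H10.Form Subgroup Cfsg

namespace H09
open Gam

variable {ι : Type} [Fintype ι] [DecidableEq ι] {F : Type*} [Field F]

local notation "SL'" => Matrix.SpecialLinearGroup ι F
local notation "PSL'" => Matrix.ProjectiveSpecialLinearGroup ι F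

/-- `SL` acting on the natural module -/
noncomputable def slRho : SL' →* (zF ι F).Isom :=
  MonoidHom.mk' (fun s => ⟨glEquiv (SpecialLinearGroup.toGL s), fun _ _ => rfl, fun _ => rfl⟩)
    fun a b => Subtype.ext (by simp only [map_mul]; rfl)

theorem slRho_apply (s : SL') (v : ι → F) : (slRho s).1 v = s.1 *ᵥ v := rfl

theorem slRho_injective : Function.Injective (slRho : SL' →* _) := fun a b h =>
  sl_ext (matrix_eq_iff_mulVec.2 fun v => by rw [← slRho_apply, h, slRho_apply])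

theorem exists_slRho (g : (ι → F) ≃ₗ[F] (ι → F)) (h : LinearMap.det (g : (ι → F) →ₗ[F] (ι → F)) = 1) :
    ∃ s : SL', ∀ v, (slRho s).1 v = g v :=
  ⟨⟨LinearMap.toMatrix' g, by rwa [LinearMap.det_toMatrix']⟩, fun v =>
    LinearMap.toMatrix'_mulVec _ v⟩

theorem exists_sl_hom {D : Type*} [Group D] (l : D → (ι → F) ≃ₗ[F] (ι → F))
    (h1 : ∀ a b v, l (a * b) v = l a (l b v))
    (h2 : ∀ a, LinearMap.det (l a : (ι → F) →ₗ[F] (ι → F)) = 1) :
    ∃ f : D →* SL', ∀ a v, (slRho (f a)).1 v = l a v := by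
  choose f hf using fun a => exists_slRho (l a) (h2 a)
  exact ⟨MonoidHom.mk' f fun a b => slRho_injective (Isom.ext fun v => by
    rw [map_mul, Isom.mul_apply, hf, hf, hf, h1]), hf⟩

theorem sl_pow_mulVec {g : SL'} {x : ι → F} {c : F} (h : g.1 *ᵥ x = c • x) (t : ℕ) :
    (g ^ t).1 *ᵥ x = c ^ t • x := by
  induction t with
  | zero => simp
  | succ t ih => rw [pow_succ, sl_val_mul, ← mulVec_mulVec, h, mulVec_smul, ih, smul_smul, pow_succ']

theorem sl_center_mulVec {g : SL'} (h : g ∈ center SL') : ∃ c : F, ∀ x, g.1 *ᵥ x = c • x :=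
  let ⟨c, _, hc⟩ := Matrix.SpecialLinearGroup.mem_center_iff.1 h
  ⟨c, fun x => by rw [← show Matrix.scalar ι c = g.1 from hc]; ext; simp [mulVec_diagonal]⟩

theorem sl_noCore (h2 : 2 ≤ Fintype.card ι) {K : Type*} [Group K] {f : SL' →* K} {p r : ℕ}
    [Fact r.Prime] [CharP F r] (hp : p.Prime) (hpr : p ≠ r) {g : SL'} (hg : p ∣ orderOf (f g)) :
    NoCore p f := by
  intro M hN hM
  by_contra h0
  have h1 : MulAction.fixedPoints M (Projectivization F (ι → F)) ≠ Set.univ := fun h => h0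
    fun m hm => Projectivization.SL_mulAction_ker.le (Equiv.ext fun x =>
      (h.ge (Set.mem_univ x) ⟨m, hm⟩ :))
  have h3 := MulAction.IsQuasiPreprimitive.isPretransitive_of_normal h1
  obtain ⟨i, -, -⟩ := Fintype.exists_pair_of_one_lt_card h2
  have h4 : ∀ k : ι, (Pi.single k 1 : ι → F) ≠ 0 := fun k => by simp
  have h5 : M ⊔ ptSub (Pi.single i 1) = ⊤ := eq_top_of_transvection_mem _ fun k l hkl c => by
    obtain ⟨m, hm⟩ := MulAction.exists_smul_eq M (Projectivization.mk F _ (h4 k))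
      (Projectivization.mk F _ (h4 i))
    obtain ⟨a, ha⟩ := (Projectivization.mk_eq_mk_iff F _ _ _ _).1
      ((Projectivization.smul_mk m.1 (h4 k)).symm.trans hm)
    have h6 := conj_mem_ptSub m.1 (transvection_mem_ptSub hkl c)
    rw [show m.1.1 *ᵥ Pi.single k 1 = (a : F) • Pi.single i 1 from ha.symm] at h6
    simpa [mul_assoc] using mul_mem (mul_mem (mem_sup_left (inv_mem m.2))
      (mem_sup_right (ptSub_smul_le _ _ h6))) (mem_sup_left m.2)
  obtain ⟨k, hk⟩ := exists_pow_mem (fun _ h => (IsTv.of_ptSub h).pEl r) (h5.ge (mem_top g))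
  have h6 : orderOf (f g) ∣ r ^ k * orderOf (f (g ^ r ^ k)) :=
    orderOf_dvd_of_pow_eq_one (by rw [pow_mul, ← map_pow, pow_orderOf_eq_one])
  rcases (Nat.Prime.dvd_mul hp).1 (hg.trans h6) with h7 | h7
  · exact hpr ((Nat.prime_dvd_prime_iff_eq hp Fact.out).1 (hp.dvd_of_dvd_pow h7))
  · exact hp.one_lt.ne' ((hM _ hk).symm.eq_one_of_dvd h7)

/-- the sesquilinear form with Gram matrix `M` -/
def sBil (σ : RingAut F) (M : Matrix ι ι F) : (ι → F) →ₛₗ[(σ : F →+* F)] (ι → F) →ₗ[F] F :=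
  LinearMap.mk₂'ₛₗ (σ : F →+* F) (RingHom.id F) (sform σ M)
    (fun x x' y => by simp [sform, dotProduct, add_mul, Finset.sum_add_distrib])
    (fun a x y => by simp [sform, dotProduct, Finset.mul_sum, mul_assoc])
    (fun x y y' => by simp [sform, mulVec_add]) (fun a x y => by simp [sform, mulVec_smul])

omit [DecidableEq ι] in
theorem sBil_apply (σ : RingAut F) (M : Matrix ι ι F) (u v : ι → F) :
    sBil σ M u v = sform σ M u v := rfl

theorem sform_glStar {σ : RingAut F} (h : σ * σ = 1) (M : GL ι F) (u v : ι → F) :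
    sform σ (glStar σ M).1 u v = σ (sform σ M.1 v u) := by
  have : ∀ a, σ (σ a) = a := fun a => DFunLike.congr_fun h a
  simp only [sform, glStar_val, dotProduct, mulVec, map_sum, map_mul, this, Finset.mul_sum]
  rw [Finset.sum_comm]
  exact Finset.sum_congr rfl fun _ _ => Finset.sum_congr rfl fun _ _ => by simp; ring

theorem eq_zero_of_sform {σ : RingAut F} {M : GL ι F} {u : ι → F} (h : ∀ v, sform σ M.1 u v = 0) :
    u = 0 := funext fun i => by
  have := h ((M⁻¹).1 *ᵥ Pi.single i 1)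
  rw [sform, mulVec_mulVec, Units.mul_inv, one_mulVec] at this
  simpa using this

omit [DecidableEq ι] in
theorem sform_map {σ τ : RingAut F} (h : σ * τ = τ * σ) (M : Matrix ι ι F) (u v : ι → F) :
    sform σ (M.map τ) (fun i => τ (u i)) (fun i => τ (v i)) = τ (sform σ M u v) := by
  have : ∀ a, σ (τ a) = τ (σ a) := fun a => DFunLike.congr_fun h a
  simp [sform, dotProduct, mulVec, this]

variable [Finite F]

theorem pAct_gP (h2 : 2 ≤ Fintype.card ι) : PAct (slRho : SL' →* _) gP :=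
  ⟨slRho_injective, ker_gP h2, fun δ s => ⟨slConj (mat δ) (slField (fld δ) s), Isom.ext fun v => by
    obtain ⟨v, rfl⟩ := (perm δ).surjective v
    rw [conj_perm, slRho_apply, slRho_apply, perm_eq, perm_eq, slConj_val, slField_val,
      mulVec_mulVec, mul_assoc, Units.inv_mul, mul_one, ← mulVec_mulVec]
    congr 1; ext; simp [mulVec, dotProduct], rfl⟩⟩

theorem sl_exists_dvd (h2 : 2 ≤ Fintype.card ι) {p : ℕ} [Fact p.Prime] (hp : p ∣ Nat.card F - 1) :
    ∃ g : SL', ∀ t, g ^ t ∈ center SL' → p ∣ t := by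
  obtain ⟨i, j, hij⟩ := Fintype.exists_pair_of_one_lt_card h2
  by_cases h3 : p = 2
  · let g : SL' := SpecialLinearGroup.transvection hij 1 *
      SpecialLinearGroup.transvection hij.symm (-1) * SpecialLinearGroup.transvection hij 1
    have h4 : g.1 *ᵥ Pi.single i 1 = -Pi.single j 1 := by
      rw [sl_val_mul, sl_val_mul, ← mulVec_mulVec, ← mulVec_mulVec]
      simp [transvection_val, add_mulVec, vecMulVec_mulVec, hij, hij.symm,
        neg_mulVec, -mulVec_single, -mulVec_mulVec]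
    have h5 : g.1 *ᵥ Pi.single j 1 = Pi.single i 1 := by
      rw [sl_val_mul, sl_val_mul, ← mulVec_mulVec, ← mulVec_mulVec]
      simp [transvection_val, add_mulVec, vecMulVec_mulVec, hij, hij.symm,
        neg_mulVec, -mulVec_single, -mulVec_mulVec]
    refine ⟨g, fun t ht => by_contra fun h6 => ?_⟩
    obtain ⟨k, rfl⟩ : Odd t := Nat.not_even_iff_odd.1 (by rwa [even_iff_two_dvd, ← h3])
    obtain ⟨c, hc⟩ := sl_center_mulVec ht
    have := hc (Pi.single i 1)
    rw [pow_succ', pow_mul, sl_val_mul, ← mulVec_mulVec, sl_pow_mulVec (c := -1) (by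
      rw [sq, sl_val_mul, ← mulVec_mulVec, h4, mulVec_neg, h5, neg_one_smul]), mulVec_smul,
      h4] at this
    simpa [hij.symm] using congrFun this j
  obtain ⟨z, hz⟩ := exists_prime_orderOf_dvd_card' (G := Fˣ) p (by rwa [Nat.card_units])
  refine ⟨SpecialLinearGroup.diag2n hij z z.ne_zero, fun t ht => ?_⟩
  obtain ⟨c, hc⟩ := sl_center_mulVec ht
  have h4 := (hc _).symm.trans (sl_pow_mulVec (x := Pi.single i 1) (c := (z : F)) (by
    ext k; by_cases h : k = i <;> simp [SpecialLinearGroup.diag2n_coe, h]) t)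
  have h5 := (hc _).symm.trans (sl_pow_mulVec (x := Pi.single j 1) (c := (z : F)⁻¹) (by
    ext k; by_cases h : k = j <;> simp [SpecialLinearGroup.diag2n_coe, h, hij.symm]) t)
  have h9 : z ^ t = z⁻¹ ^ t := Units.ext (by
    simpa using (smul_left_injective F (by simp) h4).symm.trans (smul_left_injective F (by simp) h5))
  rw [inv_pow, eq_inv_iff_mul_eq_one, ← pow_add, ← two_mul, ← orderOf_dvd_iff_pow_eq_one, hz] at h9
  exact ((Nat.coprime_primes Fact.out Nat.prime_two).2 h3).dvd_of_dvd_mul_left h9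

theorem sl_pow (δ : Gam (zF ι F)) (h : fld δ = 1) :
    ∃ g c, δ ^ (Nat.card F - 1) = ofIsom (slRho g) * scal c := by
  have h1 : ∀ k, mat (δ ^ k) = mat δ ^ k := fun k => by
    induction k with
    | zero => exact Units.ext matFun_one
    | succ k ih => rw [pow_succ', mat_mul', ih, h, pow_succ']; rfl
  refine ⟨⟨(mat δ ^ (Nat.card F - 1)).1, ?_⟩, 1, Gam.ext (by simp [h, fld_ofIsom]) fun v => ?_⟩
  · rw [← GeneralLinearGroup.val_det_apply, map_pow, ← Nat.card_units, pow_card_eq_one',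
      Units.val_one]
  · rw [perm_eq' (by simp [h]), h1, map_one, mul_one]; rfl

theorem gP_or_corr (h2 : 2 ≤ Fintype.card ι) (θ : MulAut PSL') :
    (∃ γ, θ = gP γ) ∨ (3 ≤ Fintype.card ι ∧ ∃ σ M, θ = corr σ M) := by
  obtain ⟨p, _, _⟩ := exists_char F
  rcases h2.eq_or_lt with h | h
  · obtain ⟨g, σ, rfl⟩ := psl_aut_decomp_two p h.symm θ
    exact .inl ⟨_, (gP_glGam g σ).symm⟩
  · obtain ⟨g, σ, rfl | rfl⟩ := psl_aut_decomp p h2 θ
    · exact .inl ⟨_, (gP_glGam g σ).symm⟩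
    · exact .inr ⟨h, σ, g⁻¹, by rw [corr, inv_inv, mul_assoc]⟩

theorem commute_gP_corr {σ : RingAut F} {M : GL ι F} {δ : Gam (zF ι F)}
    (h : Commute (gP δ) (corr σ M)) :
    ∃ c : Fˣ, ∀ u v, sform σ M.1 (perm δ u) (perm δ v) = c * fld δ (sform σ M.1 u v) := by
  have h1 : pslF (fld δ) * corr σ M = corr σ (glMapEquiv (fld δ) M) * pslF (fld δ) := by
    rw [corr, corr, ← mul_assoc, pslF_mul_pslD, map_inv (glMapEquiv _), mul_assoc, mul_assoc,
      mul_assoc, pslT_mul_pslF, ← mul_assoc (pslF _), ← mul_assoc (pslF σ), ← map_mul, ← map_mul,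
      ringAut_comm]
  have h2 := h.eq
  rw [gP_apply, mul_assoc, h1, ← mul_assoc, ← mul_assoc, mul_left_inj, ← eq_inv_mul_iff_mul_eq,
    ← mul_assoc, corr_conj] at h2
  obtain ⟨c, hc⟩ := corr_eq_iff.1 h2
  exact ⟨c, fun u v => by
    rw [perm_eq, perm_eq, star_eq_iff.1 hc, ← sform_map (ringAut_comm _ _)]; rfl⟩

theorem exists_form_of_corr [Nonempty ι] (h2 : (2 : F) ≠ 0) {σ : RingAut F} {M : GL ι F}
    (h1 : σ * σ = 1) (h : ∃ c, glStar σ M = glScal c * M) : ∃ (N : GL ι F) (φ : Form F (ι → F)),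
      corr σ M = corr σ N ∧ φ.Nondeg ∧ (∀ u v, φ.B u v = sform σ N.1 u v) ∧
      (φ.IsQuad ∨ IsAltF φ ∨ ∃ q, φ.IsUnitary q) := by
  have hn : ∀ (N : GL ι F) (φ : Form F (ι → F)), (∀ u v, φ.B u v = sform σ N.1 u v) → φ.Nondeg :=
    fun N φ h => ⟨fun x hx => eq_zero_of_sform fun v => (h x v).symm.trans (hx v)⟩
  by_cases h3 : σ = 1
  swap
  · obtain ⟨c, hc⟩ := exists_herm h3 h1 h
    obtain ⟨q, h4, h5⟩ := exists_q_of_mul_self h3 h1
    have h6 : ∀ a, σ (σ a) = a := fun a => DFunLike.congr_fun h1 a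
    refine ⟨_, Form.ofHerm _ h6 (exists_theta (fun h => h3 (RingEquiv.ext fun a => DFunLike.congr_fun h a)) h6)
      (sBil σ (glScal c * M).1) ⟨fun x y => ?_⟩, corr_eq_iff.2 ⟨c, rfl⟩, hn _ _ fun _ _ => rfl,
      fun _ _ => rfl, .inr (.inr ⟨q, isHerm_ofHerm _ _ _ _ _, h4, h5⟩)⟩
    exact (sform_glStar h1 _ _ _).symm.trans (by rw [hc]; rfl)
  subst h3
  obtain ⟨c, hc⟩ := h
  have h4 : ∀ u v, sform 1 M.1 v u = c * sform 1 M.1 u v := fun u v => by
    have := sform_glStar h1 M u v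
    rwa [hc, Units.val_mul, glScal_val, smul_mul_assoc, one_mul, sform_smul, eq_comm] at this
  let B : LinearMap.BilinForm F (ι → F) := sBil 1 M.1
  have hB : ∀ u v, B u v = sform 1 M.1 u v := fun _ _ => rfl
  have h5 : (c : F) * c = 1 := by
    obtain ⟨u, hu⟩ := exists_ne (0 : ι → F)
    obtain ⟨v, hv⟩ := not_forall.1 (mt (eq_zero_of_sform (σ := 1) (M := M)) hu)
    exact mul_right_cancel₀ hv (by rw [mul_assoc, ← h4, ← h4, one_mul])
  rcases mul_self_eq_one_iff.1 h5 with h6 | h6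
  · have h9 : ∀ u v, (Form.ofQuad ((2 : F)⁻¹ • LinearMap.BilinMap.toQuadraticMap B)).B u v =
        sform 1 M.1 u v := fun u v => by
      have : B v u = B u v := by rw [hB, h4, h6, one_mul, hB]
      simp only [ofQuad_B, QuadraticMap.polar, QuadraticMap.smul_apply, map_add, this,
        LinearMap.BilinMap.toQuadraticMap_apply, LinearMap.add_apply, smul_eq_mul, ← hB]
      field_simp; ring
    exact ⟨M, _, rfl, hn _ _ h9, h9, .inl (isQuad_ofQuad _)⟩
  · have h9 : B.IsAlt := fun u => mul_left_cancel₀ h2 (by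
      have := h4 u u
      rw [h6] at this
      rw [hB]; linear_combination this)
    exact ⟨M, Form.ofAlt B h9, rfl, hn _ _ hB, hB, .inr (.inl (isAltF_ofAlt _ _))⟩

variable {p r : ℕ} [Fact p.Prime] [Fact r.Prime] [CharP F r] (hpr : p ≠ r)
include hpr

theorem bcore_corr (h3 : 3 ≤ Fintype.card ι) {σ : RingAut F} {M : GL ι F}
    (ho : orderOf (corr σ M) = p) {A : Subgroup (MulAut PSL')} (hA : ∀ k, MulAut.conj k ∈ A) :
    ∀ n ∈ bcore p A (corr σ M), n = 1 := by
  have : Nonempty ι := Fintype.card_pos_iff.1 (by omega)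
  obtain rfl := eq_two_of_orderOf_corr h3 Fact.out ho
  have h2 : (2 : F) ≠ 0 := fun h0 => hpr ((Nat.prime_dvd_prime_iff_eq Fact.out Nat.prime_two).1
    ((CharP.cast_eq_zero_iff F r 2).1 h0)).symm
  obtain ⟨h4, h5⟩ := (orderOf_corr h3).1 ho
  obtain ⟨N, φ, e, _, hB, hφ⟩ := exists_form_of_corr h2 h4 h5
  rw [e]
  have h6 : 3 ≤ finrank F (ι → F) := by simpa using h3
  have h₀ : Rep φ φ.E.subtype := hφ.elim (quad_rep · h6) fun h => h.elim (alt_rep ·)
    fun ⟨_, h⟩ => repE h.conn (h.exists_hyp_of_two_le (by omega))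
  have hT : TComp φ := hφ.elim quadT fun h => h.elim IsAltF.tComp fun ⟨_, h⟩ => hermT h.herm
  have a := pAct_gP (F := F) (ι := ι) (by omega)
  obtain ⟨f, hf⟩ := exists_sl_hom (fun g : φ.E => g.1.1) (fun _ _ _ => rfl)
    fun g => φ.mem_SIsom.1 (E_le_SIsom g.2)
  have hfr := (desc_refl φ).frame
  intro n hn
  obtain ⟨δ, rfl⟩ : n ∈ gP.range := by
    rcases gP_or_corr (by omega) n with ⟨δ, rfl⟩ | ⟨-, τ, L, rfl⟩
    · exact ⟨δ, rfl⟩
    · exact mem_of_sq_mem ⟨_, (gP_glGam _ _).trans (corr_mul_self _ _).symm⟩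
        (Nat.coprime_two_right.1 (bcore_coprime hn))
  obtain ⟨c, hc⟩ := commute_gP_corr (bcore_commute hn)
  simp only [← hB] at hc
  obtain ⟨b, hb⟩ := (h₀.pAct hT h6).mem_range_of_bcore hA a.center_eq_bot
    (f := (QuotientGroup.mk' _).comp f) (fun g => (commute_conj_iff a.center_eq_bot).1 (by
      rw [MonoidHom.comp_apply, QuotientGroup.mk'_apply, ← pslD_toGL]
      exact commute_corr_iff'.2 ⟨1, fun u v => by
        simpa [← hB, slRho_apply] using
          (congrArg₂ (φ.B · ·) (hf g u) (hf g v)).trans (Isom.B_map _ u v)⟩))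
    (h₀.noCore_two hpr (ker_mk_comp (hfr.iota_injective hf h₀.inj))) hn
    (δ := ⟨δ.1, c, c.ne_zero, perm_add δ, perm_smul δ, hc, fun x => by
      rcases hφ with h | h | ⟨q, h⟩
      · refine mul_left_cancel₀ h2 ?_
        have := hc x x
        rwa [h.B_self, h.B_self, map_mul, map_ofNat, mul_left_comm] at this
      · simp [h.Q_eq]
      · rw [h.herm.Q_eq, h.herm.Q_eq]; exact hc x x⟩)
    fun g g' h => hfr.map_iota (ρ₀ := φ.E.subtype) a hf (by exact fun _ => rfl) h
  rw [show δ = scal b from Subtype.ext (congrArg Subtype.val hb).symm, a.map_scal]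

theorem bal_gP (h2 : 2 ≤ Fintype.card ι) {γ : Gam (zF ι F)} (h1 : fld γ ≠ 1) (hx : gP γ ^ p = 1) :
    Bal p (gP γ) := by
  have : Nonempty ι := Fintype.card_pos_iff.1 (by omega)
  have a := pAct_gP (F := F) h2
  obtain ⟨γ, eb, ho, hb, F₀, _, _, j, hj⟩ := a.exists_norm h1 Fact.out hx
  rw [eb]
  have := j.charP j.injective r
  obtain ⟨e, he, fe⟩ := Gam.exists_frame ho (Fact.out : p.Prime).ne_zero hj hb ι (by simp)
  choose l hl using fun g : SpecialLinearGroup ι F₀ => he.exists_equiv (he.comp (slRho g).1)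
  obtain ⟨f, hf⟩ := exists_sl_hom l (fun g k => he.induction (fun u => by
      simp [hl, Isom.mul_apply]) (fun _ _ h1 h2 => by simp [h1, h2]) fun _ _ h => by simp [h])
    fun g => (he.det_eq (g₀ := (slRho g).1) (hl g)).trans (by
      rw [show LinearMap.det ((slRho g).1 : (ι → F₀) →ₗ[F₀] (ι → F₀)) = g.1.det from
        det_glEquiv _, g.2, map_one])
  have hf' : ∀ g u, (slRho (f g)).1 (e u) = e ((slRho g).1 u) := fun g u => (hf g _).trans (hl g u)
  have hres : ∀ δ : Gam (zF ι F), (∀ u, ∃ w, e w = perm δ (e u)) →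
      ∃ δ₀ : Gam (zF ι F₀), ∀ u, perm δ (e u) = e (perm δ₀ u) := fun δ hδ =>
    let ⟨τ, g, _, h3, h4, h5⟩ := he.exists_res hj δ hδ
    ⟨⟨(τ, g), 1, one_ne_zero, h4, h5, by simp, by simp⟩, h3⟩
  have hk := ker_mk_comp (he.iota_injective hf' slRho_injective)
  obtain ⟨i, k, hik⟩ := Fintype.exists_pair_of_one_lt_card h2
  refine ⟨⟨_, he.fix_iota a hf' fe (SpecialLinearGroup.transvection hik 1), fun h => ?_⟩,
    fun hc A hA n hn => ?_⟩
  · obtain ⟨c, hc⟩ := sl_center_mulVec (hk h)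
    simpa [transvection_val, add_mulVec, vecMulVec_mulVec, hik, -mulVec_single] using
      congrFun (hc (Pi.single k 1)) i
  have key : ∀ δ, gP δ ∈ bcore p A (gP γ) → gP δ = 1 := fun δ => by
    refine he.bcore_field a hf' ho hb hj fe hres (pAct_gP h2) ?_ hA
    by_cases h3 : p ∣ Nat.card F₀ - 1
    · obtain ⟨g, hg⟩ := sl_exists_dvd h2 h3
      exact sl_noCore h2 Fact.out hpr (g := g) (hg _ (hk (by
        rw [MonoidHom.mem_ker, map_pow, pow_orderOf_eq_one])))
    · obtain ⟨k, h6, h7⟩ := exists_fix_of_not_coprime hc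
      obtain ⟨g, hg⟩ := he.exists_dvd a hf' ho hb fe hres
        ((Nat.Prime.coprime_iff_not_dvd Fact.out).2 h3).symm sl_pow h6 h7
      exact sl_noCore h2 Fact.out hpr hg
  rcases gP_or_corr h2 n with ⟨δ, rfl⟩ | ⟨h3, τ, M, rfl⟩
  · exact key δ hn
  have h4 : ∀ g : SpecialLinearGroup ι F₀, ∃ c : Fˣ, ∀ u v,
      sform τ M.1 (e (g.1 *ᵥ u)) (e (g.1 *ᵥ v)) = c * sform τ M.1 (e u) (e v) := fun g => by
    obtain ⟨k, hk⟩ := QuotientGroup.mk_surjective (corr τ M (f g) * (f g : PSL')⁻¹)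
    have h13 := bcore_comm hA hn (he.fix_iota a hf' fe g)
    rw [← hk, ← a.map_ofIsom] at h13
    have h14 := conj_injective_of_center a.center_eq_bot
      (((a.map_ofIsom k).symm.trans (key _ h13)).trans (map_one _).symm)
    rw [hk, mul_inv_eq_one, ← commute_conj_iff a.center_eq_bot, ← pslD_toGL] at h14
    obtain ⟨c, hc⟩ := commute_corr_iff'.1 h14
    exact ⟨c, fun u v => (congrArg₂ _ (hf' g u) (hf' g v)).symm.trans (hc _ _)⟩
  obtain ⟨b, hb⟩ := he.exists_basis (Pi.basisFun F₀ ι)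
  have h5 : ∀ i k, sBil τ M.1 (b i) (b k) = 0 := fun i k => by
    obtain ⟨l, h5, h6⟩ := exists_ne_ne_of_three_le h3 i k
    obtain ⟨c, hc⟩ := h4 (SpecialLinearGroup.transvection h5 1)
    have h7 := hc (Pi.single i 1) (Pi.single k 1)
    have h8 := hc (Pi.single l 1) (Pi.single k 1)
    simp only [transvection_val, add_mulVec, vecMulVec_mulVec, one_mulVec, one_smul,
      single_dotProduct, Pi.single_eq_of_ne h5.symm, Pi.single_eq_of_ne h6, Pi.single_eq_same,
      one_mul, MulOpposite.op_zero, zero_smul, add_zero, MulOpposite.op_one, map_add,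
      ← sBil_apply, LinearMap.add_apply] at h7 h8
    rw [hb, hb, Pi.basisFun_apply, Pi.basisFun_apply]
    by_contra h9
    rw [show (c : F) = 1 from mul_right_cancel₀ h9 (h7.symm.trans (one_mul _).symm)] at h8
    exact h9 (by simpa using h8)
  exact (b.ne_zero i (eq_zero_of_sform (σ := τ) (M := M) fun v =>
    DFunLike.congr_fun (b.ext (f₂ := 0) (h5 i)) v)).elim

end H09
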