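import Mathlib
import Cfsg.Agent.S0058
import Cfsg.Agent.H19.Dm0

/-!
# The normalizer of a Sylow two-subgroup in the abstract `A₅ × A₅` setting
-/

set_option autoImplicit false
set_option synthInstance.maxSize 4000

namespace H09.Dm
open Equiv Subgroup H19.Dm

theorem gen {X : Type*} [Group X] [Finite X] (N D R : Subgroup X) (hDN : D ≤ N) (hD : Nat.card D = 9)
    (h27 : ¬ 27 ∣ Nat.card X) [IsMulCommutative D] (hnc : ¬ IsCyclic D)
    (hc : ∀ g ∈ N, g ∈ normalizer (D : Set X) → g ∈ centralizer (D : Set X))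
    (hDR : D ≤ R) (hR : ∀ a ∈ D, a ≠ 1 → centralizer {a} ≤ R) : N ≤ R := by
  haveI : Fact (Nat.Prime 3) := ⟨by norm_num⟩
  have hcard : Nat.card (D.subgroupOf N) = 9 := by
    rw [← hD]; exact Nat.card_congr (subgroupOfEquivOfLe hDN).toEquiv
  have hp : IsPGroup 3 (D.subgroupOf N) := IsPGroup.of_card (n := 2) (by rw [hcard]; norm_num)
  have hidx : ¬ 3 ∣ (D.subgroupOf N).index := by
    rintro ⟨k, hk⟩
    apply h27
    have h1 := (D.subgroupOf N).card_mul_index
    rw [hcard, hk] at h1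
    exact Dvd.dvd.trans ⟨k, by rw [← h1]; ring⟩ (card_subgroup_dvd_card N)
  let P : Sylow 3 N := hp.toSylow hidx
  have hPm : ∀ g : N, g ∈ (P : Subgroup N) ↔ g.1 ∈ D := fun g => Iff.rfl
  have hP : normalizer ((P : Subgroup N) : Set N) ≤ centralizer ((P : Subgroup N) : Set N) := by
    intro g hg
    have h1 : g.1 ∈ normalizer (D : Set X) := by
      apply mem_normalizer_fintype
      intro n hn
      exact (hPm _).mp ((mem_normalizer_iff.mp hg ⟨n, hDN hn⟩).mp ((hPm _).mpr hn))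
    have h2 := hc g.1 g.2 h1
    intro x hx
    exact Subtype.ext (h2 x.1 ((hPm x).mp hx))
  have comp := MonoidHom.ker_transferSylow_isComplement' P hP
  set M := (MonoidHom.transferSylow P hP).ker with hM
  have hMn : M.Normal := by rw [hM]; infer_instance
  have hMc : Nat.card M = (D.subgroupOf N).index := by
    have := comp.index_eq_card
    exact this.symm
  have hKc : Nat.card (M.map N.subtype) = Nat.card M :=
    (Nat.card_congr (M.equivMapOfInjective N.subtype N.subtype_injective).toEquiv).symm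
  have hcop : (Nat.card D).Coprime (Nat.card (M.map N.subtype)) := by
    rw [hD, hKc, hMc]
    exact Nat.Coprime.pow_left 2 ((Nat.Prime.coprime_iff_not_dvd (by norm_num)).mpr hidx)
  have hnorm : D ≤ normalizer ((M.map N.subtype : Subgroup X) : Set X) := by
    intro d hd
    apply mem_normalizer_fintype
    rintro _ ⟨m, hm, rfl⟩
    exact ⟨_, hMn.conj_mem m hm ⟨d, hDN hd⟩, rfl⟩
  have hgen := Cfsg.Agent.S0058.result D (M.map N.subtype) hnc hnorm hcop
  have hK : M.map N.subtype ≤ R := by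
    rw [← hgen]
    refine iSup_le fun a => iSup_le fun ha => ?_
    exact inf_le_right.trans (hR a ha.1 ha.2)
  intro n hn
  obtain ⟨⟨m, q⟩, he⟩ := comp.2 ⟨n, hn⟩
  have he' : n = m.1.1 * q.1.1 := (congrArg Subtype.val he).symm
  rw [he']
  exact mul_mem (hK ⟨m.1, m.2, rfl⟩) (hDR ((hPm _).mp q.2))

/-- membership in the group generated by the three-cycle -/
def inZ (x : A5) : Prop := x = 1 ∨ x = c3 ∨ x = c3 * c3
/-- membership in the four-group -/
def inV (x : A5) : Prop := x = 1 ∨ x = a1 ∨ x = a2 ∨ x = a1 * a2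

instance (x : A5) : Decidable (inZ x) := by unfold inZ; infer_instance
instance (x : A5) : Decidable (inV x) := by unfold inV; infer_instance

theorem key : ∀ x : A5, inZ (x * c3 * x⁻¹) → inV (x * a1 * x⁻¹) → x * c3 = c3 * x := by decide +kernel

theorem zf : (∀ x : A5, inZ x → inZ x⁻¹ ∧ x ^ 3 = 1 ∧ inZ (x * c3) ∧ inZ (x * (c3 * c3)) ∧ inV (x * a1 * x⁻¹) ∧
    inV (x * a2 * x⁻¹) ∧ inV (x * (a1 * a2) * x⁻¹)) ∧
    (∀ x : A5, inV x → inV x⁻¹ ∧ inV (x * a1) ∧ inV (x * a2) ∧ inV (x * (a1 * a2))) ∧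
    (Finset.univ.filter inZ).card = 3 ∧ c3 ≠ 1 := by decide +kernel

/-- the group generated by the three-cycle -/
def Z3 : Subgroup A5 where
  carrier := {x | inZ x}
  one_mem' := Or.inl rfl
  inv_mem' := fun {x} hx => (zf.1 x hx).1
  mul_mem' := fun {x y} hx hy => by
    rcases hy with rfl | rfl | rfl
    · rw [mul_one]; exact hx
    · exact (zf.1 x hx).2.2.1
    · exact (zf.1 x hx).2.2.2.1

/-- the four-group -/
def V4 : Subgroup A5 where
  carrier := {x | inV x}
  one_mem' := Or.inl rfl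
  inv_mem' := fun {x} hx => (zf.2.1 x hx).1
  mul_mem' := fun {x y} hx hy => by
    rcases hy with rfl | rfl | rfl | rfl
    · rw [mul_one]; exact hx
    · exact (zf.2.1 x hx).2.1
    · exact (zf.2.1 x hx).2.2.1
    · exact (zf.2.1 x hx).2.2.2

theorem card_Z3 : Nat.card Z3 = 3 := by
  have : Nat.card Z3 = Fintype.card {x : A5 // inZ x} := Nat.card_eq_fintype_card (α := {x : A5 // inZ x})
  rw [this, Fintype.card_subtype]
  exact zf.2.2.1

theorem conjV {x y : A5} (hx : x ∈ Z3) (hy : y ∈ V4) : x * y * x⁻¹ ∈ V4 := by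
  rcases hy with rfl | rfl | rfl | rfl
  · rw [mul_one, mul_inv_cancel]; exact one_mem _
  · exact (zf.1 x hx).2.2.2.2.1
  · exact (zf.1 x hx).2.2.2.2.2.1
  · exact (zf.1 x hx).2.2.2.2.2.2

theorem commZ {x y : A5} (hx : x * c3 = c3 * x) (hy : y ∈ Z3) : y * x = x * y := by
  rcases hy with rfl | rfl | rfl
  · simp
  · exact hx.symm
  · rw [mul_assoc, ← hx, ← mul_assoc, ← hx, mul_assoc]

variable {X : Type*} [Group X] (φ : A5 × A5 →* X)

theorem D_eq : closure {φ (c3, 1), φ (1, c3)} = (Z3.prod Z3).map φ := by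
  apply le_antisymm
  · rw [closure_le]
    rintro _ (rfl | rfl)
    · exact mem_map_of_mem φ ⟨Or.inr (Or.inl rfl), Or.inl rfl⟩
    · exact mem_map_of_mem φ ⟨Or.inl rfl, Or.inr (Or.inl rfl)⟩
  · rintro _ ⟨⟨x, y⟩, ⟨hx, hy⟩, rfl⟩
    have h1 : φ (c3, 1) ∈ closure {φ (c3, 1), φ (1, c3)} := subset_closure (by simp)
    have h2 : φ (1, c3) ∈ closure {φ (c3, 1), φ (1, c3)} := subset_closure (by simp)
    rw [show (x, y) = (x, 1) * (1, y) by simp, map_mul]
    apply mul_mem
    · rcases hx with rfl | rfl | rfl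
      · exact (map_one φ).symm ▸ one_mem _
      · exact h1
      · rw [show ((c3 * c3, 1) : A5 × A5) = (c3, 1) * (c3, 1) by simp, map_mul]; exact mul_mem h1 h1
    · rcases hy with rfl | rfl | rfl
      · exact (map_one φ).symm ▸ one_mem _
      · exact h2
      · rw [show ((1, c3 * c3) : A5 × A5) = (1, c3) * (1, c3) by simp, map_mul]; exact mul_mem h2 h2

theorem E_eq : E φ = (V4.prod V4).map φ := by
  apply le_antisymm
  · rw [E, closure_le]
    rintro _ (rfl | rfl | rfl | rfl)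
    · exact mem_map_of_mem φ ⟨Or.inr (Or.inl rfl), Or.inl rfl⟩
    · exact mem_map_of_mem φ ⟨Or.inr (Or.inr (Or.inl rfl)), Or.inl rfl⟩
    · exact mem_map_of_mem φ ⟨Or.inl rfl, Or.inr (Or.inl rfl)⟩
    · exact mem_map_of_mem φ ⟨Or.inl rfl, Or.inr (Or.inr (Or.inl rfl))⟩
  · rintro _ ⟨⟨x, y⟩, ⟨hx, hy⟩, rfl⟩
    have h1 : φ (a1, 1) ∈ E φ := subset_closure (by simp)
    have h2 : φ (a2, 1) ∈ E φ := subset_closure (by simp)
    have h3 : φ (1, a1) ∈ E φ := subset_closure (by simp)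
    have h4 : φ (1, a2) ∈ E φ := subset_closure (by simp)
    rw [show (x, y) = (x, 1) * (1, y) by simp, map_mul]
    apply mul_mem
    · rcases hx with rfl | rfl | rfl | rfl
      · exact (map_one φ).symm ▸ one_mem _
      · exact h1
      · exact h2
      · rw [show ((a1 * a2, 1) : A5 × A5) = (a1, 1) * (a2, 1) by simp, map_mul]; exact mul_mem h1 h2
    · rcases hy with rfl | rfl | rfl | rfl
      · exact (map_one φ).symm ▸ one_mem _
      · exact h3
      · exact h4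
      · rw [show ((1, a1 * a2) : A5 × A5) = (1, a1) * (1, a2) by simp, map_mul]; exact mul_mem h3 h4

/-- part AB1 of the cluster on the 3-local characterization of `S₈` -/
theorem ab1 [Finite X] {φ : A5 × A5 →* X} (h : AB φ) : AB1 φ := by
  have hcard : Nat.card ((Z3.prod Z3).map φ) = 9 := by
    rw [← Nat.card_congr ((Z3.prod Z3).equivMapOfInjective φ h.inj).toEquiv,
      Nat.card_congr (prodEquiv Z3 Z3).toEquiv, Nat.card_prod, card_Z3]
  have hpow : ∀ d ∈ Z3.prod Z3, d ^ 3 = 1 := fun d hd => Prod.ext (zf.1 _ hd.1).2.1 (zf.1 _ hd.2).2.1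
  have hcomm : ∀ d ∈ Z3.prod Z3, ∀ e : A5 × A5, e.1 * c3 = c3 * e.1 → e.2 * c3 = c3 * e.2 → d * e = e * d :=
    fun d hd e h1 h2 => Prod.ext (commZ h1 hd.1) (commZ h2 hd.2)
  have hc3 : c3 ∈ Z3 := Or.inr (Or.inl rfl)
  haveI : IsMulCommutative ((Z3.prod Z3).map φ) := by
    refine ⟨⟨?_⟩⟩
    rintro ⟨_, d, hd, rfl⟩ ⟨_, e, he, rfl⟩
    apply Subtype.ext
    change φ d * φ e = φ e * φ d
    rw [← map_mul, ← map_mul, hcomm d hd e (commZ rfl he.1) (commZ rfl he.2)]
  refine gen (normalizer (E φ : Set X)) ((Z3.prod Z3).map φ) φ.range ?_ hcard h.n27 ?_ ?_ (map_le_range _ _) ?_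
  · rintro _ ⟨d, hd, rfl⟩
    rw [E_eq]
    apply mem_normalizer_fintype
    rintro _ ⟨e, he, rfl⟩
    exact ⟨d * e * d⁻¹, ⟨conjV hd.1 he.1, conjV hd.2 he.2⟩, by simp⟩
  · intro hcyc
    obtain ⟨g, hg⟩ := IsCyclic.exists_ofOrder_eq_natCard (α := ((Z3.prod Z3).map φ))
    have h3 : g ^ 3 = 1 := by
      obtain ⟨_, d, hd, rfl⟩ := g
      apply Subtype.ext
      change φ d ^ 3 = 1
      rw [← map_pow, hpow d hd, map_one]
    have := orderOf_dvd_of_pow_eq_one h3
    rw [hg, hcard] at this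
    norm_num at this
  · intro g hgE hgD
    obtain ⟨e, rfl⟩ : g ∈ φ.range := h.nD (by rw [D_eq]; exact hgD)
    rw [E_eq] at hgE
    have tr : ∀ (S : Subgroup (A5 × A5)), φ e ∈ normalizer ((S.map φ : Subgroup X) : Set X) → ∀ d ∈ S, e * d * e⁻¹ ∈ S := by
      intro S hS d hd
      obtain ⟨d', hd', he⟩ := (mem_normalizer_iff.mp hS (φ d)).mp (mem_map_of_mem φ hd)
      have : d' = e * d * e⁻¹ := h.inj (by rw [he]; simp)
      exact this ▸ hd'
    have ha1 : a1 ∈ V4 := Or.inr (Or.inl rfl)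
    have h1 := key e.1 (tr _ hgD (c3, c3) ⟨hc3, hc3⟩).1 (tr _ hgE (a1, a1) ⟨ha1, ha1⟩).1
    have h2 := key e.2 (tr _ hgD (c3, c3) ⟨hc3, hc3⟩).2 (tr _ hgE (a1, a1) ⟨ha1, ha1⟩).2
    rintro _ ⟨d, hd, rfl⟩
    rw [← map_mul, ← map_mul, hcomm d hd e h1 h2]
  · rintro _ ⟨d, hd, rfl⟩ hne g hg
    apply h.n3 d (fun h1 => hne (by rw [h1, map_one])) (hpow d hd)
    apply centralizer_le_normalizer
    intro x hx
    obtain ⟨n, rfl⟩ := mem_zpowers_iff.mp hx
    have hc : Commute (φ d) g := hg (φ d) rfl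
    exact (hc.zpow_left n).eq

end H09.Dm
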