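import Mathlib
import Cfsg.Agent.H09.SUn3
/-! `SU₃(q)`, `q ≥ 3`, is generated by two conjugate regular unipotent elements. -/
namespace H09
open Matrix Cfsg
open scoped MatrixGroups
variable {F : Type*} [Field F] {q n m : ℕ}

theorem subring_top [Finite F] {χ : F} (h : ∀ r j, 2 ≤ r → 2 ≤ j → r ^ j = Nat.card F → χ ^ r ≠ χ) (K : Subring F) (hK : χ ∈ K) :
    K = ⊤ := by
  classical
  have := Fintype.ofFinite F
  have k : ∀ x ∈ K, x⁻¹ ∈ K := fun x hx => by
    by_cases x0 : x = 0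
    · simpa [x0] using K.zero_mem
    have : x⁻¹ = x ^ (Fintype.card F - 2) := by
      refine inv_eq_of_mul_eq_one_right ?_
      rw [← pow_succ', ← FiniteField.pow_card_sub_one_eq_one x x0]
      have := Fintype.one_lt_card (α := F)
      congr 1; omega
    exact this ▸ K.pow_mem hx _
  let L : Subfield F := { K with inv_mem' := k }
  have e := Module.card_eq_pow_finrank (K := L) (V := F)
  have p := Module.finrank_pos (R := L) (M := F)
  by_cases c : Module.finrank L F = 1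
  · refine eq_top_iff.2 fun x _ => ?_
    obtain ⟨y, hy⟩ := (finrank_eq_one_iff_of_nonzero' (1 : F) one_ne_zero).1 c x
    rw [← hy, Subfield.smul_def, smul_eq_mul, mul_one]
    exact y.2
  · exact absurd (congrArg Subtype.val (FiniteField.pow_card (⟨χ, hK⟩ : L)))
      (h _ (Module.finrank L F) Fintype.one_lt_card (by omega) (by rw [← e, Nat.card_eq_fintype_card]))

variable [Finite F] [hF : Fact (Nat.card F = q ^ 2)]

theorem U3_top' {H : Subgroup (U3 F q)} (h : uA H = ⊤) {z} (hz : z ∈ H) (hz' : z ∉ uB F q) : H = ⊤ := by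
  obtain ⟨b, s, e, c, rfl⟩ := uB_br hz'
  obtain ⟨b', s', e', k, hk⟩ := uB_eq c.2
  have m1 : uT * c.1 ∈ H := (mul_mem_cancel_left (uX_all h _ _ _)).1 (mul_assoc _ _ c.1 ▸ hz)
  have m2 : ∀ a s e, uT * uX a s e * uT ∈ H := fun a s e => by
    obtain ⟨a', s', e', l, hl⟩ := uB_eq (mul_mem (mul_mem (inv_mem c.2) (uX_mem a s e)) c.2)
    have := congrArg (·.1.1 0 0) (inv_mul_eq_iff_eq_mul.1 (mul_assoc _ _ c.1 ▸ hl))
    have l1 : l = 1 := Units.ext (by
      simpa [hk, U3.mul_val, uX_val, uH_val] using this)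
    have := mul_mem (mul_mem m1 (uX_all h a' s' e')) (inv_mem m1)
    rw [l1, map_one, mul_one] at hl
    rwa [← hl, _root_.mul_inv_rev, inv_eq_of_mul_eq_one_right uT_sq, show ∀ a b c : U3 F q,
      a * b * (b⁻¹ * c * b) * (b⁻¹ * a) = a * c * a from fun _ _ _ => by group] at this
  obtain ⟨a, ha⟩ := ex_norm (q := q) (c := -(1 + 1 : F)) (by rw [cq_neg, cq_add, one_pow])
  have e1 : (1 : F) + 1 ^ q + a ^ q * a = 0 := by rw [one_pow]; linear_combination ha
  obtain ⟨b, s, e', c, hc⟩ := uB_br (g := uT * uX a 1 e1 * uT) fun h => by simpa [U3.mul_val, uT_val, uX_val] using h.2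
  obtain ⟨b', s', e'', k, hk⟩ := uB_eq c.2
  have := congrArg (·.1.1 2 0) hc
  rw [hk] at hc this
  obtain rfl : 1 = k := Units.ext (by simpa [U3.mul_val, uT_val, uX_val, uH_val] using this)
  rw [map_one, mul_one] at hc
  exact U3_top h ((mul_mem_cancel_right (uX_all h _ _ _)).1 ((mul_mem_cancel_left (uX_all h _ _ _)).1
    (mul_assoc _ _ (uX b' s' e'') ▸ hc ▸ m2 _ _ _)))

theorem uX_inv (a s : F) (e) : (uX (q := q) a s e)⁻¹ = uX (-a) (s ^ q) (by rw [cq_cq, cq_neg]; linear_combination e) := by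
  rw [inv_eq_iff_mul_eq_one, uX_mul, uX_congr (b := 0) (t := 0) (by simp) (by linear_combination e), uX_zero]
theorem uX_vec (a b : F) (e) (x y w : F) : (uX (q := q) a b e).1.1 *ᵥ ![x, y, w] = ![x - a ^ q * y + b * w, y + a * w, w] := by
  ext i; fin_cases i <;> simp [uX_val, mulVec, dotProduct, Fin.sum_univ_three]; ring
theorem uZ_vec (a b : F) (e) (x y w : F) :
    (uT * uX (q := q) a b e * uT).1.1 *ᵥ ![x, y, w] = ![x, y - a * x, b * x + a ^ q * y + w] := by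
  ext i; fin_cases i <;> simp [U3.mul_val, uT_val, uX_val, mulVec, dotProduct, Fin.sum_univ_three]; ring

/-- two conjugate regular unipotent generators -/
def RU2 (F : Type*) [Field F] (q : ℕ) : Prop := ∃ u g : U3 F q, (u.1.1 - 1) ^ 3 = 0 ∧ (u.1.1 - 1) ^ 2 ≠ 0 ∧
  Subgroup.closure {u, g * u * g⁻¹} = ⊤

theorem ru2_of {a b d μ : F} (e : b + b ^ q + a ^ q * a = 0) (e' : d + d ^ q + 1 ^ q * 1 = 0) {l : F} (l0 : l ≠ 0)
    (hl : l ^ q * l ^ q = a * l) (h : ∀ r j, 2 ≤ r → 2 ≤ j → r ^ j = Nat.card F → (μ ^ q * μ ^ q / μ) ^ r ≠ μ ^ q * μ ^ q / μ)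
    (hw : ∀ H : Subgroup (U3 F q), uX a b e ∈ H → uT * uX 1 d e' * uT ∈ H → ∃ g ∈ H, g.1.1 *ᵥ ![1, 0, 0] = ![μ, 0, 0]) :
    RU2 F q := by
  have a0 : a ≠ 0 := by rintro rfl; simp [l0] at hl
  have d0 : d ≠ 0 := by rintro rfl; simp [cq_zero] at e'
  obtain ⟨t, ht⟩ := ex_tr_eq (q := q) (c := (1 : F)) (by simp)
  obtain ⟨y, hy⟩ : ∃ y, y = (l ^ q * l * d - b) * t / a ^ q := ⟨_, rfl⟩
  obtain ⟨s, hs⟩ := ex_tr_eq (q := q) (c := -(y ^ q * y)) (by simp [cq_neg, mul_pow, cq_cq, mul_comm])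
  have e1 : s + s ^ q + y ^ q * y = 0 := by linear_combination hs
  have c1 : uX y s e1 * uX a b e * (uX y s e1)⁻¹ = uH (.mk0 l l0) * uX 1 d e' * (uH (.mk0 l l0))⁻¹ := by
    rw [uH_uX, mul_inv_eq_iff_eq_mul, uX_mul, uX_mul]
    have a1 : l ^ q * l ^ q / l = a := by rw [hl]; field_simp
    have a2 : a ^ q * l ^ q = l * l := by simpa [mul_pow, cq_cq] using congrArg (· ^ q) hl.symm
    have a3 : a ^ q * a = l ^ q * l := mul_right_cancel₀ (mul_ne_zero l0 (pow_ne_zero q l0)) (by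
      linear_combination a * l * a2 - l * l * hl)
    refine uX_congr (by simp [a1, add_comm]) ?_
    simp only [Units.val_mk0, a1, mul_one, hy, div_pow, mul_pow, cq_sub, cq_cq]
    rw [one_pow] at e'
    field_simp
    linear_combination (l ^ q * l * d - b) * ht + t ^ q * (e - l ^ q * l * e' - a3)
  refine ⟨uX a b e, uT * (uH (.mk0 l l0))⁻¹ * uX y s e1, ?_, fun c => a0 ?_, ?_⟩
  · ext i j; fin_cases i <;> fin_cases j <;> simp [uX_val, pow_succ, Matrix.mul_apply, Fin.sum_univ_three, one_apply]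
  · simpa [uX_val, pow_succ, Matrix.mul_apply, Fin.sum_univ_three, one_apply, q_ne F] using congrFun (congrFun c 0) 2
  have c2 : uT * (uH (.mk0 l l0))⁻¹ * uX y s e1 * uX a b e * (uT * (uH (.mk0 l l0))⁻¹ * uX y s e1)⁻¹ = uT * uX 1 d e' * uT := by
    rw [show ∀ a b c d : U3 F q, a * b⁻¹ * c * d * (a * b⁻¹ * c)⁻¹ = a * (b⁻¹ * (c * d * c⁻¹) * b) * a⁻¹ from fun _ _ _ _ => by group,
      c1, inv_eq_of_mul_eq_one_right uT_sq]
    group
  rw [c2]
  generalize hH : Subgroup.closure {uX a b e, uT * uX 1 d e' * uT} = H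
  have m1 : uX a b e ∈ H := hH ▸ Subgroup.subset_closure (by simp)
  have m2 : uT * uX 1 d e' * uT ∈ H := hH ▸ Subgroup.subset_closure (by simp)
  obtain ⟨g, m3, hg⟩ := hw H m1 m2
  obtain ⟨a', s', e'', k, rfl⟩ := uB_eq (g := g) ⟨by simpa [mulVec, dotProduct, Fin.sum_univ_three] using congrFun hg 1,
    by simpa [mulVec, dotProduct, Fin.sum_univ_three] using congrFun hg 2⟩
  obtain rfl : k.1 = μ := by
    simpa [mulVec, dotProduct, Fin.sum_univ_three, U3.mul_val, uX_val, uH_val] using congrFun hg 0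
  let K : Subring F :=
    { carrier := {x | ∀ y ∈ uA H, x * y ∈ uA H}
      mul_mem' := fun h h' y p => mul_assoc _ _ y ▸ h _ (h' y p)
      one_mem' := fun y p => (one_mul y).symm ▸ p
      add_mem' := fun h h' y p => (add_mul _ _ y).symm ▸ add_mem (h y p) (h' y p)
      zero_mem' := fun y _ => (zero_mul y).symm ▸ zero_mem _
      neg_mem' := fun h y p => (neg_mul _ y).symm ▸ neg_mem (h y p) }
  have := subring_top h K fun x ⟨s, e, p⟩ => by
    have := mul_mem (mul_mem m3 p) (inv_mem m3)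
    rw [show ∀ a b c : U3 F q, a * b * c * (a * b)⁻¹ = a * (b * c * b⁻¹) * a⁻¹ from fun _ _ _ => by group, uH_uX,
      uX_inv, uX_mul, uX_mul] at this
    exact ⟨_, _, (uX_congr (by ring) rfl).subst this⟩
  refine U3_top' (eq_top_iff.2 fun x _ => ?_) m2 fun c => d0 (by simpa [U3.mul_val, uT_val, uX_val] using c.2)
  exact div_mul_cancel₀ x a0 ▸ (this.ge (Subring.mem_top (x / a)) : x / a ∈ K) a ⟨_, _, m1⟩

theorem ru2_gen (hq : 3 ≤ q) (h5 : q ≠ 5) (h8 : q ≠ 8) : RU2 F q := by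
  obtain ⟨ζ, -, -, h, -⟩ := u3_gen (F := F) (q := q)
  obtain ⟨μ, hμ⟩ : ∃ μ, μ = ζ.1 ^ q / ζ := ⟨_, rfl⟩
  rw [← hμ] at h
  have μ0 : μ ≠ 0 := by simp [hμ]
  have μ1 : μ ^ q = μ⁻¹ := by simp [hμ, div_pow, cq_cq]
  have μ2 : 1 + μ ≠ 0 := fun c => by
    have := Nat.le_of_dvd two_pos (h 2 (by linear_combination (μ - 1) * c)); omega
  have μ3 : 1 + μ⁻¹ ≠ 0 := fun c => μ2 (by field_simp at c; linear_combination c)
  have a1 : (-(1 + μ) ^ 2 / μ) ^ q = -(1 + μ) ^ 2 / μ := by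
    simp only [div_pow, cq_neg, sq, mul_pow, cq_add, one_pow, μ1]; field_simp; ring
  refine ru2_of (a := -(1 + μ) ^ 2 / μ) (b := -(1 + μ) * (2 * μ * μ + μ + 1) / (μ * μ)) (d := -μ / (1 + μ)) (μ := μ) ?_ ?_
    (l := -(1 + μ) ^ 2 / μ) (by simp [μ0, μ2]) (by rw [a1]) (fun r j r2 j2 e c => ?_) fun H m1 m2 => ⟨_, mul_mem m2 (mul_mem m1 m2), ?_⟩
  · rw [a1, show (2 : F) = 1 + 1 by norm_num]
    simp only [div_pow, cq_neg, mul_pow, cq_add, one_pow, μ1]; field_simp; ring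
  · simp only [div_pow, cq_neg, cq_add, one_pow, μ1]; rw [show 1 + μ⁻¹ = (1 + μ) / μ by field_simp; ring]; field_simp; ring
  · obtain ⟨r, rfl⟩ : ∃ k, r = k + 1 := ⟨r - 1, by omega⟩
    have := h (3 * r) (by
      rw [pow_succ, mul_eq_right₀ (by simp [μ0]), μ1, show μ⁻¹ * μ⁻¹ / μ = (μ ^ 3)⁻¹ by field_simp, inv_pow, inv_eq_one] at c
      rwa [pow_mul])
    rw [hF.1] at e
    rcases j2.eq_or_lt with rfl | j3
    · obtain rfl : r + 1 = q := Nat.pow_left_injective two_ne_zero e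
      have h6 : r + 1 + 1 ∣ 6 := (Nat.dvd_add_right this).1 ⟨3, by ring⟩
      have := Nat.le_of_dvd (by norm_num) h6
      have : r ≤ 4 := by omega
      interval_cases r <;> omega
    · have b1 := Nat.le_of_dvd (by omega) this
      have b2 : (r + 1) ^ 3 ≤ q ^ 2 := e ▸ Nat.pow_le_pow_right (by omega) j3
      have b3 : q ^ 2 ≤ (3 * r - 1) ^ 2 := Nat.pow_le_pow_left (by omega) 2
      have b4 : r < 9 := by
        by_contra! c
        have : (3 * r - 1) ^ 2 ≤ (3 * r) ^ 2 := Nat.pow_le_pow_left (by omega) 2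
        nlinarith
      have b5 : q < 24 := by omega
      interval_cases r <;> simp at b2 b3 <;> try omega
      have : 8 ≤ q := by nlinarith
      omega
  · rw [U3.mul_val, U3.mul_val (uX _ _ _), ← mulVec_mulVec, ← mulVec_mulVec, uZ_vec, uX_vec, uZ_vec, a1]
    ext i; fin_cases i <;> simp <;> field_simp <;> ring

theorem ru2_five (hq : q = 5) : RU2 F q := by
  have := charP_q (F := F) (hq ▸ Nat.prime_five : q.Prime)
  obtain ⟨ζ, -, -, -, h⟩ := u3_gen (F := F) (q := q)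
  obtain ⟨t, t1, t2⟩ : ∃ t : F, t ^ q = -t ∧ t * t = 2 := by
    obtain ⟨t, ht⟩ : ∃ t, t = ζ.1 - ζ.1 ^ q := ⟨_, rfl⟩
    have t1 : t ^ q = -t := by rw [ht, cq_sub, cq_cq]; ring
    have t0 : t ≠ 0 := fun c => by
      have := h 4 (by simp) (mul_right_cancel₀ ζ.ne_zero (by rw [hq] at ht; linear_combination ht - c))
      simp [hq] at this
    have : t * t = 2 ∨ (t + t) * (t + t) = 2 := by subst hq; grind
    exact this.elim (⟨t, t1, ·⟩) (⟨t + t, by rw [cq_add, t1]; ring, ·⟩)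
  have c : ∀ k : ℕ, (k : F) ^ q = k := fun k => map_natCast (H10.conj hF.1) k
  have c1 : ∀ k l : ℕ, (k + l * t : F) ^ q = k - l * t := fun k l => by rw [cq_add, mul_pow, c, c, t1]; ring
  have h5 : (5 : F) = 0 := by subst hq; exact CharP.cast_eq_zero F 5
  refine ru2_of (a := (0 : ℕ) + (2 : ℕ) * t) (b := (4 : ℕ) + (3 : ℕ) * t) (d := (2 : ℕ) + (2 : ℕ) * t) (μ := (1 : ℕ) + (2 : ℕ) * t)
    ?_ ?_ (l := (0 : ℕ) + (2 : ℕ) * t) ?_ (by rw [c1]; push_cast; ring) (fun r j r2 j2 e c => ?_)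
    fun H m1 m2 => ⟨_, mul_mem m2 (mul_mem m2 (mul_mem m1 m2)), ?_⟩
  · simp only [c1]; subst hq; grind
  · simp only [c1]; subst hq; grind
  · subst hq; grind
  · have a1 : ((1 : ℕ) + (2 : ℕ) * t) ^ q * ((1 : ℕ) + (2 : ℕ) * t) ^ q / ((1 : ℕ) + (2 : ℕ) * t) = t := by
      rw [c1, div_eq_iff] <;> subst hq <;> grind
    rw [hF.1, hq] at e
    have : r ^ 2 ≤ 25 := (Nat.pow_le_pow_right (by omega) j2).trans e.le
    have : r ∣ 25 := (dvd_pow_self r (n := j) (by omega)).trans ⟨1, by rw [e]; rfl⟩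
    have : r ≤ 5 := by nlinarith
    obtain rfl : r = 5 := by interval_cases r <;> omega
    rw [a1, ← hq, t1] at c
    subst hq; grind
  · rw [U3.mul_val, U3.mul_val (uT * _ * _), U3.mul_val (uX _ _ _), ← mulVec_mulVec, ← mulVec_mulVec, ← mulVec_mulVec, uZ_vec,
      uX_vec, uZ_vec, uZ_vec, c1]
    subst hq
    ext i; fin_cases i <;> simp <;> grind

theorem ru2_eight (hq : q = 8) : RU2 F q := by
  obtain ⟨ζ, -, -, -, h⟩ := u3_gen (F := F) (q := q)
  have h2 : (2 : F) = 0 := by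
    have := Fintype.ofFinite F
    have : ((Fintype.card F : ℕ) : F) = 0 := FiniteField.cast_card_eq_zero F
    rw [← Nat.card_eq_fintype_card, hF.1, hq] at this
    exact pow_eq_zero_iff (n := 6) (by simp) |>.1 (by rw [← this]; norm_num)
  have : CharP F 2 := CharTwo.of_one_ne_zero_of_two_eq_zero one_ne_zero h2
  have z : ζ.1 ^ 63 = 1 := mul_right_cancel₀ ζ.ne_zero (by have := cq_cq (q := q) ζ.1; rw [hq] at this; linear_combination this)
  have z1 : ∀ k, k ≠ 0 → k < 63 → ζ.1 ^ k ≠ 1 := fun k k0 k1 c => by have := h k k0 c; rw [hq] at this; omega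
  obtain ⟨w, hw⟩ : ∃ w : F, w * w = w + 1 := ⟨ζ.1 ^ 21, by
    refine mul_left_cancel₀ (sub_ne_zero.2 (z1 21 (by simp) (by simp))) ?_
    linear_combination z - (ζ.1 ^ 42 - 1) * h2⟩
  obtain ⟨g, hg⟩ : ∃ g : F, g * g * g = g + 1 := by
    obtain ⟨g, hg⟩ : ∃ g, g = ζ.1 ^ 9 := ⟨_, rfl⟩
    have g1 : g ≠ 1 := hg ▸ z1 9 (by simp) (by simp)
    have g7 : g ^ 7 = 1 := by rw [hg, ← pow_mul, z]
    clear hg
    have : g * g * g = g + 1 ∨ (g + 1) * (g + 1) * (g + 1) = g + 1 + 1 := by grind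
    exact this.elim (⟨g, ·⟩) (⟨g + 1, ·⟩)
  have w1 : w ^ q = w + 1 := by subst hq; grind
  have g1 : g ^ q = g := by subst hq; grind
  refine ru2_of (a := g * w) (b := 1 + g * g * w) (d := 1 + g * g + w) (μ := 1 + g * w + g * g * w)
    ?_ ?_ (l := g * g + w + g * w) ?_ ?_ (fun r j r2 j2 e c => ?_)
    fun H m1 m2 => ⟨_, mul_mem m2 (mul_mem m1 (mul_mem m1 (mul_mem m2 (mul_mem m1 m2)))), ?_⟩
  · simp only [cq_add, mul_pow, w1, g1, one_pow]; grind
  · simp only [cq_add, mul_pow, w1, g1, one_pow]; grind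
  · grind
  · simp only [cq_add, mul_pow, w1, g1, one_pow]; grind
  · have a1 : (1 + g * w + g * g * w) ^ q * (1 + g * w + g * g * w) ^ q / (1 + g * w + g * g * w) = w + g * w := by
      simp only [cq_add, mul_pow, w1, g1, one_pow]
      rw [div_eq_iff] <;> grind
    rw [hF.1, hq] at e
    have : r ^ 2 ≤ 64 := (Nat.pow_le_pow_right (by omega) j2).trans e.le
    have : r ∣ 64 := (dvd_pow_self r (n := j) (by omega)).trans ⟨1, by rw [e]; rfl⟩
    have : r ≤ 8 := by nlinarith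
    rw [a1] at c
    clear a1 w1 g1 z1 z h
    interval_cases r <;> first | omega | grind
  · rw [U3.mul_val, U3.mul_val (uX _ _ _), U3.mul_val (uX _ _ _), U3.mul_val (uT * _ * _), U3.mul_val (uX _ _ _)]
    simp only [← mulVec_mulVec, uZ_vec, uX_vec, mul_pow, w1, g1, one_pow]
    clear m1 m2 w1 g1 z1 z h
    ext i; fin_cases i <;> simp <;> grind

theorem SU3_ru (hq : 3 ≤ q) : ∃ u g : SU 3 F q, (IsNilpotent (u.1.1 - 1) ∧ (u.1.1 - 1) ^ 2 ≠ 0) ∧
    Subgroup.closure {u, g * u * g⁻¹} = ⊤ := by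
  obtain ⟨u, g, h1, h2, h3⟩ : RU2 F q := by
    by_cases h5 : q = 5
    · exact ru2_five h5
    by_cases h8 : q = 8
    exacts [ru2_eight h8, ru2_gen hq h5 h8]
  obtain ⟨c, hc⟩ := ex_norm (q := q) (c := (-1 : F)) (by simp [cq_neg])
  obtain ⟨β, hβ⟩ := ex_tr_eq (q := q) (c := (-1 : F)) (by simp [cq_neg])
  have c0 : c ≠ 0 := by rintro rfl; simp at hc
  obtain ⟨P, hP⟩ : ∃ P : GL (Fin 3) F, ∀ u v, hermForm 3 F q (P.1 *ᵥ u) (P.1 *ᵥ v) = hyF q u v :=
    ⟨.mkOfDetNeZero !![1, 0, β + 1; c, 0, β * c; 0, 1, 0] (by simp [det_fin_three, mul_add, mul_comm, c0]), fun u v => by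
      simp [hermForm, hyF, mulVec, dotProduct, Fin.sum_univ_three, cq_add, mul_pow, cq_zero]
      linear_combination (u 0 + β * u 2) * (v 0 ^ q + β ^ q * v 2 ^ q) * hc + u 2 * v 2 ^ q * hβ⟩
  obtain ⟨e, he⟩ := U3_equiv' hP
  have k : ∀ k, ((e u).1.1 - 1) ^ k * P.1 = P.1 * (u.1.1 - 1) ^ k := fun k => by
    induction k with
    | zero => simp
    | succ k ih => rw [pow_succ', mul_assoc, ih, ← mul_assoc, sub_mul, he, pow_succ', ← mul_assoc, mul_sub]; simp
  refine ⟨e u, e g, ⟨⟨3, P.isUnit.mul_right_cancel (by rw [k, h1]; simp)⟩, fun c => h2 (P.isUnit.mul_left_cancel ?_)⟩, ?_⟩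
  · rw [← k, c]; simp
  · simpa [MonoidHom.map_closure, Set.image_insert_eq] using congrArg (Subgroup.map e.toMonoidHom) h3

end H09
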