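import Mathlib
import Cfsg.Agent.H09.RuD
import Cfsg.Agent.H09.RuA
import Cfsg.Agent.H09.Phan12
/-! `SU_n(q)`, `n` odd, is generated by three conjugate regular unipotent elements. -/
namespace H09
open Matrix Cfsg
variable {F : Type*} [Field F] {q n m : ℕ} [Finite F] [hF : Fact (Nat.card F = q ^ 2)]
local notation "B" => hermForm _ F q

variable (n) in
/-- the unitary group as a skew-Hermitian datum -/
noncomputable def suSk {a : F} (ha : a ^ q = -a) (a0 : a ≠ 0) : Sk F (Fin n → F) (SU n F q) where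
  σ := H10.conj hF.1
  h := LinearMap.mk₂'ₛₗ _ _ (fun u v => a * B u v) (fun _ _ _ => by rw [hB_add, mul_add]) (fun _ _ _ => by simp [hB_smul, mul_left_comm])
    (fun _ _ _ => by rw [hB_add', mul_add]) fun c _ _ => by rw [hB_smul', mul_left_comm]; rfl
  ρ := ⟨⟨fun g => toLin' g.1.1, toLin'_one⟩, fun a b => toLin'_mul _ _⟩
  σσ := cq_cq
  skew x y := show a * B y x = -(a * B x y) ^ q by rw [mul_pow, ha, hB_cq]; ring
  inv g x y := congrArg (a * ·) (hB_uac g x y)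
  nd y h := hB_nondeg fun x => (mul_eq_zero.1 (h x)).resolve_left a0
  inj _ _ h := Subtype.ext (Subtype.ext (toLin'.injective h))
  ex r p b h1 h2 h3 := by
    change a * B r r = 0 at h1
    change a * B p r = 0 at h2
    change b ^ q = b - a * B p p at h3
    obtain ⟨g, -, -, -, hg⟩ := ex_sg (q := q) (r := r) (v := (-a) • p) (s := -(b * a)) (by simpa [a0] using h1)
      (by rw [hB_smul]; linear_combination -h2) (by rw [hB_smul, hB_smul', cq_neg, cq_neg, mul_pow, ha, h3]; ring)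
    refine ⟨g, fun y => (hg y).trans ?_⟩
    change _ = y + (a * B y r) • p + (a * B y p) • r + (b * (a * B y r)) • r
    rw [hB_smul', cq_neg, ha]; module

theorem SU_ru (hm : 2 ≤ m) (hn : n = 2 * m + 1) : ∃ u g h : SU n F q, (IsNilpotent (u.1.1 - 1) ∧ (u.1.1 - 1) ^ (n - 1) ≠ 0) ∧
    Subgroup.closure {u, g * u * g⁻¹, h * u * h⁻¹} = ⊤ := by
  obtain ⟨ζ, -, -, h, -⟩ := u3_gen (F := F) (q := q)
  obtain ⟨l, hl⟩ : ∃ l, l = ζ.1 ^ q / ζ := ⟨_, rfl⟩
  rw [← hl] at h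
  have q2 := H10.two_le_q hF.1
  have l1 : l * l ^ q = 1 := by simp [hl, div_pow, cq_cq]
  have l2 : l ≠ l ^ q := fun c => by have := Nat.le_of_dvd two_pos (h 2 (by rw [sq, ← l1, ← c])); omega
  have l3 := subring_top (χ := l) fun r j r2 j2 e c => by
    obtain ⟨r, rfl⟩ : ∃ k, r = k + 1 := ⟨r - 1, by omega⟩
    have := Nat.le_of_dvd (by omega) (h r (by rwa [pow_succ, mul_eq_right₀ (left_ne_zero_of_mul_eq_one l1)] at c))
    have := (Nat.pow_le_pow_right (by omega) j2).trans (e.trans hF.1).le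
    nlinarith
  obtain ⟨ι, hι⟩ := ex_norm (q := q) (c := (-1 : F)) (by simp [cq_neg])
  obtain ⟨s, hs⟩ := ex_tr_eq (q := q) (c := (1 : F)) (by simp)
  obtain ⟨a, ha⟩ : ∃ a, a = l - l ^ q := ⟨_, rfl⟩
  have a0 : a ≠ 0 := ha ▸ sub_ne_zero.2 l2
  have a1 : a ^ q = -a := by rw [ha, cq_sub, cq_cq]; ring
  obtain ⟨δ, hδ⟩ : ∃ δ : ℕ → Fin n → F, ∀ i j, δ i j = if j.val = i then 1 else 0 := ⟨_, fun _ _ => rfl⟩
  have d1 : ∀ i : Fin n, δ i = Pi.single i 1 := fun i => by ext; simp [hδ, Pi.single_apply, Fin.ext_iff]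
  obtain ⟨S, hS⟩ : ∃ S, S = suSk n a1 a0 := ⟨_, rfl⟩
  have σ : ∀ x, S.σ x = x ^ q := fun x => by rw [hS]; rfl
  have d2 : ∀ i j, j < n → S.h (δ i) (δ j) = if i = j then a else 0 := fun i j hj => by
    rw [hS]; change a * B _ _ = _
    rw [d1 ⟨j, hj⟩, hB_ev]; simp [hδ, eq_comm]
  have n1 : ∀ i j : ℕ, 2 * i ≠ 2 * j + 1 := by omega
  have n2 : ∀ i j : ℕ, 2 * i + 1 ≠ 2 * j := by omega
  obtain ⟨e, he⟩ : ∃ e : ℕ → Fin n → F, ∀ i, e i = δ (2 * i) + ι • δ (2 * i + 1) := ⟨_, fun _ => rfl⟩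
  obtain ⟨f, hf⟩ : ∃ f : ℕ → Fin n → F, ∀ i, f i = (-a⁻¹) • (s • δ (2 * i) + ((s - 1) * ι) • δ (2 * i + 1)) := ⟨_, fun _ => rfl⟩
  have o1 : ∀ i < m, S.h (δ (2 * m)) (e i) = 0 := fun i hi => by
    simp [he, d2 _ _ (by omega : 2 * i < n), d2 _ _ (by omega : 2 * i + 1 < n), n1, hi.ne']
  have o2 : ∀ i < m, S.h (δ (2 * m)) (f i) = 0 := fun i hi => by
    simp [hf, d2 _ _ (by omega : 2 * i < n), d2 _ _ (by omega : 2 * i + 1 < n), n1, hi.ne']
  have ι0 : ι ≠ 0 := by rintro rfl; simp at hι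
  have K : S.Hy e f (ι ^ m • δ (2 * m)) m := by
    refine ⟨fun i j hi hj => ?_, fun i j hi hj => ?_, fun i j hi hj => ?_, fun i hi => by simp [o1 i hi], fun i hi => by simp [o2 i hi],
      fun W h1 h2 h3 => eq_top_iff.2 fun y _ => ?_, hm⟩
    iterate 3
      simp [he, hf, d2 _ _ (by omega : 2 * j < n), d2 _ _ (by omega : 2 * j + 1 < n), n1, n2, σ, cq_neg, cq_sub, mul_pow, a1]
      split_ifs <;> grind
    have b1 : ∀ i < m, δ (2 * i + 1) ∈ W := fun i hi => by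
      convert W.smul_mem ι⁻¹ (add_mem (W.smul_mem a (h2 i hi)) (W.smul_mem s (h1 i hi))) using 1
      rw [he, hf]; match_scalars <;> field_simp <;> ring
    have b2 : ∀ i < n, δ i ∈ W := fun i hi => by
      obtain ⟨k, rfl | rfl⟩ := Nat.even_or_odd' i
      · rcases (by omega : k < m ∨ k = m) with c | rfl
        · simpa [he] using sub_mem (h1 k c) (W.smul_mem ι (b1 k c))
        · exact (W.smul_mem_iff (pow_ne_zero _ ι0)).1 h3
      · exact b1 k (by omega)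
    rw [pi_eq_sum_univ' y]
    exact sum_mem fun a _ => W.smul_mem _ (d1 a ▸ b2 a a.2)
  have w1 : S.h (ι ^ m • δ (2 * m)) (ι ^ m • δ (2 * m)) = (-1) ^ m * a := by
    simp [d2 _ _ (by omega : 2 * m < n), σ, ← hι, mul_pow, mul_assoc, pow_right_comm ι m]
  obtain ⟨x, R⟩ := K.ex (b := (-1) ^ m * l) (by rw [w1, map_mul, σ l, ha]; simp; ring)
  have r := R.reg2 K (by rw [w1]; simp [a0])
  have C := R.cy K (n := n) (by simp) (by omega) (by rwa [show n - 1 = 2 * m by omega]) (by simpa using left_ne_zero_of_mul_eq_one l1)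
  rw [← mul_assoc, ← mul_pow, neg_one_mul, neg_neg, one_pow, one_mul] at C
  obtain ⟨Y, hY⟩ := R.y1 K s
  rw [σ, hs] at hY
  obtain ⟨g, k, h⟩ := R.core K (l := l) (by rw [σ, l1]) o1 o2 (by rw [d2 _ _ (by omega), if_pos rfl, σ, ha]) hY (by simp)
  have t : ∀ j, ((S.ρ x - 1) ^ j) = toLin' ((x.1.1 - 1) ^ j) := fun j => by simp [hS, suSk, toLin'_pow, Module.End.one_eq_id]
  refine ⟨x, g, k, ⟨(R.nil K).imp fun j hj => toLin'.injective (by rw [← t, hj, map_zero]), fun c => r (by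
    rw [t, show 2 * m = n - 1 by omega, c]; simp)⟩, ?_⟩
  have m1 : x ∈ Subgroup.closure {x, g * x * g⁻¹, k * x * k⁻¹} := Subgroup.subset_closure (by simp)
  obtain ⟨h1, h2⟩ := h _ m1 (Subgroup.subset_closure (by simp)) (Subgroup.subset_closure (by simp))
  obtain ⟨h1, h2⟩ := C.su (by rw [σ, l1]) (by rwa [σ]) l3 h1 (by simpa using h2)
  have : (Subgroup.closure {g | ∃ y c, S.Ok y 0 c ∧ S.IsE g y 0 c}).Normal := ⟨fun g hg k => by
    induction hg using Subgroup.closure_induction with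
    | mem g h =>
      obtain ⟨y, c, o, a⟩ := h
      exact Subgroup.subset_closure ⟨_, c, by simpa using o.conj k, by simpa using a.conj k⟩
    | one => simp
    | mul a b _ _ h h' => simpa [mul_assoc] using mul_mem h h'
    | inv a _ h => simpa [mul_assoc] using inv_mem h⟩
  rcases normal_SU (by omega) (Subgroup.closure {g | ∃ y c, S.Ok y 0 c ∧ S.IsE g y 0 c}) with c | c
  · have ee := K.ee 0 0 (by omega) (by omega)
    have ff := K.ff 0 0 (by omega) (by omega)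
    have ef := K.ef 0 0 (by omega) (by omega)
    obtain ⟨o, T, -, hT⟩ := S.eg_top (r := e 0) (p := 0) (b := 1) ⟨ee, by simp, by simp⟩
    obtain ⟨-, U, -, hU⟩ := S.eg_top (r := f 0) (p := 0) (b := 1) ⟨ff, by simp, by simp⟩
    have := congrArg (fun g => S.h (S.ρ g (e 0)) (f 0)) (Subgroup.mem_center_iff.1 (c (Subgroup.subset_closure ⟨_, _, o, hT⟩)) U)
    simp [S.ρ_mul, hT _, hU _, ee, ff, ef, K.fe 0 0 (by omega) (by omega)] at this
  · exact eq_top_iff.2 (c.ge.trans ((Subgroup.closure_le _).2 fun g ⟨y, c, o, a⟩ => C.fin m1 h1 h2 a o))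

end H09
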