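import Mathlib
import Cfsg.Agent.H09.SUn3
import Cfsg.Agent.H09.U4P
/-! Bounded presentations of `SU_n(q)`, III: assembly. -/
namespace H09
open Matrix Cfsg
variable {F : Type*} [Field F] {q n m : ℕ} [Finite F] [hF : Fact (Nat.card F = q ^ 2)]

theorem lift_top {G ι : Type*} [Group G] {g : ι → G ⧸ Subgroup.center G} (hg : Subgroup.closure (Set.range g) = ⊤)
    (h : ∀ H : Subgroup G, H ⊔ Subgroup.center G = ⊤ → H = ⊤) : Subgroup.closure (Set.range fun i => (g i).out) = ⊤ := h _ (by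
  have := congrArg (Subgroup.comap (QuotientGroup.mk' _)) hg
  rwa [show g = QuotientGroup.mk' _ ∘ fun i => (g i).out from funext fun i => (g i).out_eq.symm, Set.range_comp, ← MonoidHom.map_closure,
    Subgroup.comap_map_eq, QuotientGroup.ker_mk', Subgroup.comap_top] at this)

theorem PG.lift {G : Type*} [Group G] {d r : ℕ} [IsCyclic (Subgroup.center G)] (hg : PG (G ⧸ Subgroup.center G) d r)
    (h : ∀ H : Subgroup G, H ⊔ Subgroup.center G = ⊤ → H = ⊤) : PG G d (r + d + 1) := by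
  obtain ⟨g, hg⟩ := hg
  exact ⟨_, (HasPres.of_center (surj_lift_iff.2 (lift_top (surj_lift_iff.1 hg.1) h)) (r := r) (by simpa using hg)).mono (by simp)⟩

theorem SU_sup_center (hn : 4 ≤ n) (H : Subgroup (SU n F q)) (h : H ⊔ Subgroup.center _ = ⊤) : H = ⊤ := by
  have : H.Normal := Subgroup.normalizer_eq_top_iff.1 (top_le_iff.1 (h.ge.trans (sup_le Subgroup.le_normalizer (Subgroup.center_le_normalizer _))))
  refine (normal_SU hn H).resolve_left fun c => ?_
  have e : 0 + 2 ≤ n := by omega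
  obtain ⟨c, hc⟩ := center_val (by omega) ((sup_eq_right.2 c).symm.trans h ▸ Subgroup.mem_top (suPad (shift 0 e) uw))
  have := (padM_ee (shift 0 e) (uw : SU 2 F q).1.1 0 1).symm.trans (congrFun (congrFun hc (shift 0 e 0)) (shift 0 e 1))
  simp [uw_val] at this

theorem SU4_small (hq : ¬ 4 ≤ q) : PG (SU 4 F q) 3 14 := by
  have := SU_center (F := F) (q := q) (n := 4) (by omega)
  have := H10.two_le_q hF.1
  by_cases c : q = 2
  exacts [((PSU42_pg c).lift (SU_sup_center le_rfl)).pad (by simp) (by simp), (PSU43_pg (by omega)).lift (SU_sup_center le_rfl)]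

theorem SU45_pg (hn : 4 ≤ n) (h5 : n ≤ 5) : PG (SU n F q) 6 34 := by
  by_cases c : 4 ≤ q
  · exact (SU_cyc (.inl ⟨rfl, c⟩) hn h5 (SU3_pg (by omega)) SU2_two SU2_two).pad (by simp) (by simp)
  obtain rfl | rfl : n = 4 ∨ n = 5 := by omega
  exacts [(SU4_small c).pad (by simp) (by simp), (SU_cyc (.inr rfl) le_rfl h5 (SU4_small c) SU3_two SU2_two).pad (by simp) (by simp)]

theorem SUn_pg (hn : 4 ≤ n) : PG (SU n F q) 6 39 := by
  by_cases c : n ≤ 5
  · exact (SU45_pg hn c).pad le_rfl (by simp)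
  by_cases c' : 4 ≤ q
  exacts [SU_alt (.inl ⟨rfl, c'⟩) (by omega) (SU3_pg (by omega)) SU2_two, (SU_alt (.inr rfl) (by omega) (SU4_small c') SU3_two).pad le_rfl (by simp)]

end H09
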