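import Mathlib
import Cfsg.Agent.H09.SUn4
/-! Subgroups of `SU_n(q)` containing transvection groups; two-element generation of `SU_n(q)`. -/
namespace H09
open Matrix Cfsg
open scoped MatrixGroups
variable {F : Type*} [Field F] {q n m : ℕ} [Finite F] [hF : Fact (Nat.card F = q ^ 2)] {H : Subgroup (SU n F q)}
local notation "B" => hermForm _ F q
local notation "tv" => Matrix.SpecialLinearGroup.transvection

/-- `H` contains the transvection group with centre `r` -/
def Om (H : Subgroup (SU n F q)) (r : Fin n → F) : Prop := B r r = 0 ∧ ∀ g, IsTr g r → g ∈ H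

omit [Finite F] hF in
theorem Om.conj {r} (h : Om H r) {k} (hk : k ∈ H) : Om H (uac k r) := ⟨by simp [h.1], fun g e => by
  exact (mul_mem_cancel_left (inv_mem hk)).1 ((mul_mem_cancel_right (inv_mem (inv_mem hk))).1 (h.2 _ (by simpa using e.conj k⁻¹)))⟩
omit [Finite F] hF in
theorem Om.smul {r} (h : Om H r) (c : F) : Om H (c • r) := ⟨by simp [hB_smul, hB_smul', h.1], fun g ⟨_, s, e⟩ =>
  h.2 g ⟨h.1, s * c ^ q * c, fun x => by rw [e, hB_smul', smul_smul]; congr 2; ring⟩⟩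
theorem Om.add {r} (h : Om H r) {v} (hv : Om H v) {s : F} (hs : s + s ^ q = 0) : Om H (v + (s * B v r) • r) := by
  obtain ⟨g, -, -, -, e⟩ := ex_sg (v := 0) (s := -s) h.1 (by simp) (by rw [cq_neg, hB_zero]; linear_combination -hs)
  simpa [e] using hv.conj (h.2 g ⟨h.1, s, by simp [e]⟩)

theorem Om.three {x y w} (hx : Om H x) (hy : Om H y) (yx : B y x = 1) (wx : B w x = 0) (wy : B w y = 0) (ww : B w w ≠ 0) {a l b : F}
    (a0 : a ≠ 0) (l0 : l ≠ 0) (h : Om H (a • y + l • w + b • x)) (a' l' b' : F) (a1 : a' ≠ 0)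
    (e : B (a' • y + l' • w + b' • x) (a' • y + l' • w + b' • x) = 0) : Om H (a' • y + l' • w + b' • x) := by
  have xy : B x y = 1 := by rw [← hB_cq, yx, one_pow]
  have k0 : ∀ l b : F, B (y + l • w + b • x) (y + l • w + b • x) = l ^ q * l * B w w + b + b ^ q := fun l b => by
    simp only [hB_add, hB_add', hB_smul, hB_smul', hx.1, hy.1, yx, xy, wx, wy, hB_symm wx, hB_symm wy]; ring
  let P : F → Prop := fun l => ∀ b, l ^ q * l * B w w + b + b ^ q = 0 → Om H (y + l • w + b • x)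
  have k1 : ∀ a ≠ 0, ∀ l b, Om H (a • y + l • w + b • x) → P (l / a) := fun a a0 l b h b' e => by
    have h1 : Om H (y + (l / a) • w + (b / a) • x) := by convert h.smul a⁻¹ using 1; match_scalars <;> field_simp
    convert hx.add h1 (s := b' - b / a) (by rw [cq_sub]; linear_combination e - (k0 _ _).symm.trans h1.1) using 1
    simp only [hB_add, hB_smul, hx.1, yx, wx]; module
  have k2 : ∀ l ≠ 0, P l → ∀ μ, μ ^ q ≠ μ → P (l / μ) := fun l l0 h μ e => by
    have e1 : l ^ q * l * B w w ≠ 0 := by simp [l0, ww]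
    have e2 : (l ^ q * l * B w w) ^ q = l ^ q * l * B w w := by rw [mul_pow, mul_pow, cq_cq, hB_cq]; ring
    have e3 := sub_ne_zero.2 e
    generalize hτ : l ^ q * l * B w w = τ at e1 e2
    have := hy.add (h ((μ - 1) * τ / (μ ^ q - μ)) (by
      simp only [hτ, div_pow, mul_pow, cq_sub, cq_cq, e2, one_pow]; rw [← neg_sub (μ ^ q)]; field_simp; ring)) (s := (μ ^ q - μ) / τ) (by
      simp only [div_pow, cq_sub, cq_cq, e2]; ring)
    refine k1 μ (by rintro rfl; simp [cq_zero] at e) l ((μ - 1) * τ / (μ ^ q - μ)) ?_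
    convert this using 1
    simp only [hB_add, hB_smul, hy.1, xy, wy]; match_scalars <;> field_simp <;> ring
  have k3 : ∀ l, P l := fun l' => by
    by_cases c : l' = 0
    · simpa [c] using k1 1 one_ne_zero 0 0 (by simpa using hy)
    replace h := k1 _ a0 _ _ h
    have l1 := div_ne_zero l0 a0
    generalize l / a = l at h l1
    by_cases c' : (l / l') ^ q = l / l'
    · obtain ⟨θ, h1, h2⟩ := ex_theta (F := F) (q := q)
      have h3 : θ ^ q ≠ θ := fun e => h2 (by rwa [e] at h1)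
      have h0 : θ ≠ 0 := by rintro rfl; simp at h1
      convert k2 _ (div_ne_zero l1 h0) (k2 l l1 h θ h3) (l / l' / θ) (by rw [div_pow, c']; simpa [div_eq_mul_inv, l1, c]) using 1
      field_simp
    · convert k2 l l1 h _ c' using 1; field_simp
  have : a' • y + l' • w + b' • x = a' • (y + (l' / a') • w + (b' / a') • x) := by match_scalars <;> field_simp
  rw [this] at e ⊢
  rw [hB_smul, hB_smul', k0] at e
  exact (k3 _ _ (by simpa only [mul_eq_zero, a1, pow_ne_zero q a1, false_or] using e)).smul a'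

theorem iso_two {r x : Fin 2 → F} (h0 : r ≠ 0) (h2 : B r r = 0) : r 0 ≠ 0 ∧ r 1 ≠ 0 ∧ (B x r = 0 → x = (x 0 / r 0) • r) := by
  simp only [hermForm, Fin.sum_univ_two] at h2 ⊢
  have r0 : r 0 ≠ 0 := fun e => h0 (by ext i; fin_cases i <;> simp_all [q_ne F])
  have r1 : r 1 ≠ 0 := fun e => h0 (by ext i; fin_cases i <;> simp_all [q_ne F])
  refine ⟨r0, r1, fun hx => ?_⟩
  ext i; fin_cases i <;> simp [r0]
  field_simp; exact mul_right_cancel₀ (pow_ne_zero q r1) (by linear_combination r 0 * hx - x 0 * h2)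

theorem su2_kit : ∃ (r : Fin 2 → Fin 2 → F) (j : SL(2, ufix F q) ≃* SU 2 F q), (∀ a, r a ≠ 0 ∧ B (r a) (r a) = 0) ∧
    ∀ y i, uac (j y) (r i) = (y.1 0 i : F) • r 0 + (y.1 1 i : F) • r 1 := by
  obtain ⟨P, j, hj⟩ := su2_sl2 (F := F) (q := q)
  have h : ∀ y i, uac (j y) (P.1 *ᵥ ev i) = (y.1 0 i : F) • P.1 *ᵥ ev 0 + (y.1 1 i : F) • P.1 *ᵥ ev 1 := fun y i => by
    rw [uac, mulVec_mulVec, hj, ← mulVec_mulVec, ← mulVec_smul, ← mulVec_smul, ← mulVec_add]; congr 1
    ext k; fin_cases k <;> simp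
  refine ⟨fun i => P.1 *ᵥ ev i, j, fun a => ⟨fun h => ?_, ?_⟩, h⟩
  · have := congrArg (P⁻¹).1.mulVec h
    rw [mulVec_mulVec, Units.inv_mul] at this; simpa using congrFun this a
  have h1 := hB_uac (j (tv zero_ne_one 1)) (P.1 *ᵥ ev 1) (P.1 *ᵥ ev 0)
  have h2 := hB_uac (j (tv one_ne_zero 1)) (P.1 *ᵥ ev 0) (P.1 *ᵥ ev 1)
  rw [h, h] at h1 h2
  fin_cases a
  exacts [by simpa [SpecialLinearGroup.transvection, transvection, hB_add] using h1,
    by simpa [SpecialLinearGroup.transvection, transvection, hB_add] using h2]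

theorem su2_tr {H : Subgroup (SU 2 F q)} (h : ∀ g r, IsTr g r → g ∈ H) (x) : x ∈ H := by
  obtain ⟨r, j, h1, h2⟩ := su2_kit (F := F) (q := q)
  obtain ⟨x, rfl⟩ := j.surjective x
  refine SL_ind (H := H.comap j.toMonoidHom) (fun {a b} e c => h _ (r a) (isTr_of_fix (h1 a).1 (h1 a).2 fun x hx => ?_)) x
  rw [(iso_two (h1 a).1 (h1 a).2).2.2 hx, uac_smul, MulEquiv.coe_toMonoidHom, h2]
  congr 1
  fin_cases a <;> fin_cases b <;> simp [SpecialLinearGroup.transvection, transvection] at e ⊢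

theorem su2_split (hq : 3 ≤ q) : ∃ (h : SU 2 F q) (ω : F) (k : ufix F q), ω ^ q * ω = -1 ∧ uac h ![1, ω] = (k : F) • ![1, ω] ∧
    h ^ (q - 1) = 1 ∧ k ≠ 1 ∧ ∀ a ≠ 0, ∃ i : ℕ, k ^ i = a := by
  obtain ⟨r, j, h1, h2⟩ := su2_kit (F := F) (q := q)
  have := Fintype.ofFinite (ufix F q)
  have c : Fintype.card (ufix F q) = q := by rw [← Nat.card_eq_fintype_card, card_ufix]
  obtain ⟨k, k0, k1, k2⟩ := exists_gen (K := ufix F q)
  obtain ⟨d, hd⟩ : ∃ d : SL(2, ufix F q), d.1 = diagonal ![k, k⁻¹] := ⟨⟨_, det_diagonal.trans (by simp [k0])⟩, rfl⟩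
  obtain ⟨r0, r1, -⟩ := iso_two (x := 0) (h1 0).1 (h1 0).2
  have e : ![1, r 0 1 / r 0 0] = (r 0 0)⁻¹ • r 0 := by ext i; fin_cases i <;> simp [r0, div_eq_inv_mul]
  refine ⟨j d, r 0 1 / r 0 0, k, ?_, by rw [e, uac_smul, h2, smul_comm]; simp [hd], ?_, fun e => by have := k2 1 (by simp) (by simp [e]); omega, k1⟩
  · have := (h1 0).2
    simp only [hermForm, Fin.sum_univ_two] at this
    rw [div_pow]; field_simp; linear_combination this
  · rw [← map_pow, show d ^ _ = 1 from Subtype.ext ?_, map_one]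
    have := FiniteField.pow_card_sub_one_eq_one _ k0
    rw [c] at this
    rw [Matrix.SpecialLinearGroup.coe_pow, hd, diagonal_pow]
    ext i j; fin_cases i <;> fin_cases j <;> simp [this]

theorem shift_mem {s : SU n F q} (hs : ∀ k (i j : Fin n), j.1 = i + k → uac (s ^ k) (ev i) = ev j) (m1 : s ∈ H) {a} (e : a + m ≤ n)
    {j} (e' : j + m ≤ n) {x} (h : suPad (shift a e) x ∈ H) : suPad (shift j e') x ∈ H := by
  have k : ∀ a (e : a + m ≤ n), suPad (shift a e) x ∈ H ↔ suPad (shift 0 (by omega)) x ∈ H := fun a e => by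
    rw [← conj_pad (g := s ^ a) (e := shift 0 (by omega)) fun i => hs _ _ _ (by simp; omega), mul_mem_cancel_right (inv_mem (pow_mem m1 a)),
      mul_mem_cancel_left (pow_mem m1 a)]
  exact (k j e').2 ((k a e).1 h)

theorem shift_gen {s : SU n F q} (hs : ∀ k (i j : Fin n), j.1 = i + k → uac (s ^ k) (ev i) = ev j) (m1 : s ∈ H) {a} (e : a + m ≤ n)
    (h : sbl F q n a (a + m) ≤ H) (j) (e' : j + m ≤ n) : sbl F q n j (j + m) ≤ H := fun _ hg =>
  let ⟨x, hx⟩ := (sbl_iff e').1 hg; hx ▸ shift_mem hs m1 e e' (h (suPad_sbl e x))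

theorem SUn_two_big (hn : 4 ≤ n) (hq : 3 ≤ q) : ∃ a b : SU n F q, Subgroup.closure {a, b} = ⊤ := by
  obtain ⟨s, hs⟩ := ex_cyc (n := n) (F := F) (q := q)
  obtain ⟨h, ω, k, h1, h2, h3, h4, h5⟩ := su2_split (F := F) hq
  obtain ⟨σ, s0, s1⟩ := H10.exists_skew hF.1
  obtain ⟨p, l, hp, hc, hl⟩ := H10.exists_q_eq_pow hF.1
  have w0 : ω ≠ 0 := by rintro rfl; simp at h1
  have e0 : 0 + 2 ≤ n := by omega
  have e2 : 2 + 2 ≤ n := by omega
  obtain ⟨E, hE⟩ : ∃ E : Fin 4 → Fin n → F, ∀ i, E i = ev ⟨i, by omega⟩ := ⟨_, fun _ => rfl⟩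
  have b1 : ∀ i j, B (E i) (E j) = if i = j then 1 else 0 := fun i j => by simp [hE, Pi.single_apply, Fin.ext_iff, eq_comm]
  have i1 : ∀ v, incl F (shift 2 e2) *ᵥ v = v 0 • E 2 + v 1 • E 3 := fun v => by
    rw [show v = Pi.single 0 (v 0) + Pi.single 1 (v 1) by ext i; fin_cases i <;> simp, mulVec_add, incl_vec, incl_vec]
    simp [hE, ← Pi.single_smul]; rfl
  have x0 : B (E 0 + ω • E 1) (E 0 + ω • E 1) = 0 := by simp [hB_add, hB_add', hB_smul, hB_smul', b1]; linear_combination h1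
  obtain ⟨z, -, -, -, hz⟩ := ex_sg (v := 0) (s := -σ) x0 (by simp) (by simp [cq_neg, s1])
  replace hz : ∀ x, uac z x = x + (σ * B x (E 0 + ω • E 1)) • (E 0 + ω • E 1) := by simpa [-smul_add] using hz
  refine ⟨z * suPad (shift 2 e2) h, s, ?_⟩
  generalize hH : Subgroup.closure {z * suPad (shift 2 e2) h, s} = H
  have m1 : s ∈ H := hH ▸ Subgroup.subset_closure (by simp)
  obtain ⟨m2, m3⟩ := mem_of_mul_mem (H := H) (a := q) (b := q - 1) (ubl_comm (Set.disjoint_left.2 fun i => by simp; omega)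
    (IsTr.mem (A := seg n 0 2) ⟨x0, σ, hz⟩ (by rw [hE, hE]; exact (on_ev (by simp)).add ((on_ev (by simp)).smul _))) (suPad_sbl e2 h))
    (by obtain ⟨l, hl⟩ : p ∣ q := hl ▸ dvd_pow_self p (by rintro rfl; simp at hl; omega)
        exact (congrArg (z ^ ·) hl).trans ((pow_mul z p l).trans (by rw [IsTr.pow ⟨x0, σ, hz⟩, one_pow]))) (by rw [← map_pow, h3, map_one])
    (by simp [(by omega : 1 ≤ q)]) (hH ▸ Subgroup.subset_closure (by simp))
  have s2 : ∀ k (i j : Fin 4), j.1 = i + k → uac (s ^ k) (E i) = E j := fun k i j e => by rw [hE, hE]; exact hs _ _ _ e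
  have s3 : uac (s ^ 2) (E 0 + ω • E 1) = E 2 + ω • E 3 := by rw [uac_add, uac_smul, s2 2 0 2 rfl, s2 2 1 3 rfl]
  obtain ⟨y, hy⟩ : ∃ y, y = suPad (shift 2 e2) h := ⟨_, rfl⟩
  have y1 : uac y (E 1) = E 1 := by rw [hy, hE]; exact suPad_sbl e2 h _ (by simp)
  have y2 : ∀ v, uac y (v 0 • E 2 + v 1 • E 3) = uac h v 0 • E 2 + uac h v 1 • E 3 := fun v => by
    rw [hy, ← i1, ← i1, uac_suPad, show (_ *ᵥ v) ∘ _ = v from funext (incl_apply _ v), mulVec_sub, add_sub_cancel]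
  have y3 : uac y (E 2 + ω • E 3) = (k : F) • (E 2 + ω • E 3) := by simpa [h2, smul_smul] using y2 ![1, ω]
  rw [← hy] at m3
  generalize hx : E 2 + ω • E 3 = x at s3 y3
  have x1 : B x x = 0 := by rw [← s3, hB_uac, x0]
  have o2 : Om H x := ⟨x1, fun g hg => by
    have xn : x ≠ 0 := fun e => by simpa [e, hB_add, hB_smul, b1] using congrArg (B · (E 2)) hx
    let A : AddSubgroup (ufix F q) :=
      { carrier := {c | ∀ g, IsSg g x 0 (σ * c) → g ∈ H}
        zero_mem' := fun g e => by rw [e.ext (by simpa using IsSg.one x1)]; exact one_mem _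
        add_mem' := fun {a b} ha hb g e => by
          have t : ∀ a : ufix F q, ∃ g, IsSg g x 0 (σ * a) := fun a => ex_sg x1 (by simp) (by simp [mul_pow, s1, mem_ufix.1 a.2])
          obtain ⟨⟨u, hu⟩, v, hv⟩ := And.intro (t a) (t b)
          rw [e.ext (by simpa [mul_add] using hu.mul hv)]; exact mul_mem (ha u hu) (hb v hv)
        neg_mem' := fun {a} ha g e => by
          obtain ⟨u, hu⟩ : ∃ g, IsSg g x 0 (σ * a) := ex_sg x1 (by simp) (by simp [mul_pow, s1, mem_ufix.1 a.2])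
          rw [eq_inv_of_mul_eq_one_left ((e.mul hu).ext (by simpa using IsSg.one x1))]; exact inv_mem (ha u hu) }
    have a1 : -1 ∈ A := fun g e => by
      rw [show g = s ^ 2 * z * (s ^ 2)⁻¹ from SU_ext_v fun v => by
        rw [e.2.2.2, uac_mul, uac_mul, hz, uac_add, uac_smul, uac_uac_inv, ← hB_uac (s ^ 2) (uac _ v), uac_uac_inv, s3]; simp]
      exact mul_mem (mul_mem (pow_mem m1 _) m2) (inv_mem (pow_mem m1 _))
    obtain ⟨t, ht⟩ := hg.isSg xn
    refine (span_sq h5 A (by simpa using neg_mem a1) fun c hc g e => ?_).ge (AddSubgroup.mem_top ⟨t / σ, ?_⟩) g (by simpa [mul_div_cancel₀, s0])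
    · refine (mul_mem_cancel_left (inv_mem m3)).1 ((mul_mem_cancel_right m3).1 (hc _ ⟨x1, by simp, by simp [mul_pow, s1, mem_ufix.1 c.2], fun v => ?_⟩))
      have := hB_uac y v x
      rw [y3, hB_smul', mem_ufix.1 k.2] at this
      rw [uac_mul, uac_mul]
      refine uac_inv_eq ?_
      simp only [e.2.2.2, hB_zero', zero_smul, smul_zero, add_zero, sub_zero, uac_sub, uac_smul, y3, smul_smul, ← this]
      push_cast; congr 2; ring
    · have := ht.2.2.1
      rw [mem_ufix, div_pow, s1, show t ^ q = -t by rw [hB_zero] at this; linear_combination this, neg_div_neg_eq]⟩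
  have o1 : Om H (ω⁻¹ • E 1 + E 2) := by
    have := ((o2.conj (inv_mem (pow_mem m1 2))).conj (pow_mem m1 1)).smul ω⁻¹
    rwa [uac_inv_eq s3, uac_add, uac_smul, s2 1 0 1 rfl, s2 1 1 2 rfl, smul_add, smul_smul, inv_mul_cancel₀ w0, one_smul] at this
  have wq : ω ^ q = -ω⁻¹ := by field_simp; exact h1
  have yx : B (ω⁻¹ • E 1 + E 2) x = 1 := by simp [← hx, hB_add, hB_add', hB_smul, hB_smul', b1]
  have wx : B (x + ω⁻¹ • E 1) x = 0 := by rw [hB_add, x1]; simp [← hx, hB_add', hB_smul, hB_smul', b1]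
  have o3 := o1.conj m3
  have y4 := y2 (ev 0)
  simp only [Pi.single_eq_same, one_smul, ne_eq, one_ne_zero, not_false_eq_true, Pi.single_eq_of_ne, zero_smul, add_zero] at y4
  generalize uac h (ev 0) 0 = c, uac h (ev 0) 1 = d at y4
  have y5 : uac y (ω⁻¹ • E 1 + E 2) = (c - d / ω) • (ω⁻¹ • E 1 + E 2) + (1 - (c - d / ω)) • (x + ω⁻¹ • E 1) + (c - 1) • x := by
    rw [uac_add, uac_smul, y1, y4, ← hx]; match_scalars <;> field_simp <;> ring
  have y6 : k * (c - d / ω) = 1 := by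
    have := hB_uac y (ω⁻¹ • E 1 + E 2) x
    rwa [y3, hB_smul', mem_ufix.1 k.2, y5, hB_add, hB_add, hB_smul, hB_smul, hB_smul, yx, wx, x1, mul_zero, mul_zero, add_zero, add_zero, mul_one] at this
  have o4 := Om.three (a := c - d / ω) o2 o1 yx wx (by
    simp [← hx, hB_add, hB_add', hB_smul, hB_smul', b1, wq, w0]) (by rw [hB_add', wx]; simp [← hx, hB_add, hB_smul, hB_smul', b1, w0])
    (right_ne_zero_of_mul_eq_one y6) (fun e => h4 (Subtype.ext (by simpa [← sub_eq_zero.1 e] using y6))) (y5 ▸ o3)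
  have e1 : 1 + 2 ≤ n := by omega
  refine top_le_iff.1 (sbl_top.ge.trans (sbl_gen2 hq (by omega) le_rfl fun j _ => shift_gen hs m1 e1 (fun g hg => ?_) j))
  obtain ⟨g, rfl⟩ := (sbl_iff e1).1 hg
  refine su2_tr (H := H.comap (suPad _)) (fun g r e => ?_) g
  by_cases r0 : r = 0
  · obtain ⟨-, _, e⟩ := e
    rw [show g = 1 from SU_ext_v (by simp [e, r0])]; exact one_mem _
  have i2 : incl F (shift 1 e1) *ᵥ r = r 1 • (ω⁻¹ • E 1 + E 2) + (r 0 * ω - r 1) • (x + ω⁻¹ • E 1) + (r 1 - r 0 * ω) • x := by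
    conv_lhs => rw [show r = Pi.single 0 (r 0) + Pi.single 1 (r 1) by ext i; fin_cases i <;> simp, mulVec_add, incl_vec, incl_vec]
    rw [show Pi.single (shift 1 e1 0) (r 0) = r 0 • E 1 by simp [hE, ← Pi.single_smul]; rfl,
      show Pi.single (shift 1 e1 1) (r 1) = r 1 • E 2 by simp [hE, ← Pi.single_smul]; rfl]
    match_scalars <;> field_simp <;> ring
  exact (o4 _ _ _ (iso_two (x := 0) r0 e.1).2.1 (i2 ▸ (e.pad _).1)).2 _ (i2 ▸ e.pad _)

theorem SUn_two_two (hn : 5 ≤ n) (hq : q = 2) : ∃ a b : SU n F q, Subgroup.closure {a, b} = ⊤ := by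
  obtain ⟨s, hs⟩ := ex_cyc (n := n) (F := F) (q := q)
  obtain ⟨ω, u, u', h1, h2, h3, h4⟩ := SU32_two (F := F) hq
  obtain ⟨n, rfl⟩ : ∃ k, n = k + 2 := ⟨n - 2, by omega⟩
  have h5 : ω ^ 3 = 1 := by rw [← h1, hq, pow_succ]
  obtain ⟨d, hd⟩ : ∃ d : Fin (n + 2) → F, ∀ i, d i = if i.1 = 0 then ω ^ 2 else if i.1 = 1 then ω else 1 := ⟨_, fun _ => rfl⟩
  obtain ⟨y, hy⟩ : ∃ y : SU (n + 2) F q, y.1.1 = diagonal d := ⟨suDiag d (fun i => by
    rw [hd]; split_ifs; exacts [by rw [← pow_mul, mul_comm 2, pow_mul, ← mul_pow, h1, one_pow], h1, by simp])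
    (by simp [Fin.prod_univ_succ, hd, ← pow_succ, h5]), rfl⟩
  have e1 : 1 + 3 ≤ n + 2 := by omega
  have e2 : 2 + 3 ≤ n + 2 := by omega
  refine ⟨suPad (shift 2 e2) u * y, s, ?_⟩
  generalize hH : Subgroup.closure {suPad (shift 2 e2) u * y, s} = H
  have m1 : s ∈ H := hH ▸ Subgroup.subset_closure (by simp)
  obtain ⟨m2, m3⟩ := mem_of_mul_mem (H := H) (a := 4) (b := 3) (ubl_comm (A' := seg _ 0 2) (Set.disjoint_left.2 fun i => by simp; omega)
    (suPad_sbl e2 u) fun i e => by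
      simp at e
      rw [uac, hy, diagonal_mulVec_single, hd, if_neg (by omega), if_neg (by omega), mul_one]) (by rw [← map_pow, h2, map_one])
    (Subtype.ext (Subtype.ext (by
      change y.1.1 ^ 3 = 1
      rw [hy, diagonal_pow, ← diagonal_one]; congr; ext i
      rw [Pi.pow_apply, hd]; split_ifs; exacts [by rw [← pow_mul, mul_comm, pow_mul, h5, one_pow], h5, by simp]))) (by decide)
    (hH ▸ Subgroup.subset_closure (by simp))
  have m4 := shift_mem hs m1 e2 e1 m2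
  have m5 : suPad (shift 1 e1) u' * y = y * suPad (shift 1 e1) u := SU_ext' fun i j => by
    have k : ∀ i, d (shift 1 e1 i) = ![ω, 1, 1] i := fun i => by fin_cases i <;> simp [hd]
    rw [SU_mul_val, SU_mul_val, hy, mul_diagonal, diagonal_mul, suPad_val, suPad_val]
    by_cases c : i ∈ Set.range (shift 1 e1)
    · by_cases c' : j ∈ Set.range (shift 1 e1)
      · obtain ⟨⟨i, rfl⟩, j, rfl⟩ := And.intro c c'
        simpa only [mul_diagonal, diagonal_mul, padM_ee, k] using congrFun (congrFun h3 i) j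
      · rw [padM_col _ _ c', padM_col _ _ c', one_apply]; split_ifs with e <;> simp [e]
    · rw [padM_row _ _ c, padM_row _ _ c, one_apply]; split_ifs with e <;> simp [e]
  refine top_le_iff.1 (sbl_top.ge.trans (sbl_gen3 (by omega) le_rfl fun j _ => shift_gen hs m1 e1 (fun g hg => ?_) j))
  obtain ⟨g, rfl⟩ := (sbl_iff e1).1 hg
  exact (Subgroup.closure_le (H.comap (suPad _))).2 (Set.pair_subset m4 ((mul_mem_cancel_right m3).1 (m5 ▸ mul_mem m3 m4))) (h4.ge trivial)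

theorem PSU_two (hn : 3 ≤ n) (h : n = 3 → q ≠ 2) : ∃ a b : PSU n F q, Subgroup.closure {a, b} = ⊤ := by
  by_cases c : n = 4 ∧ q = 2
  · obtain ⟨g, hg⟩ := PSU42_pg (F := F) c.2
    obtain rfl := c.1
    exact ⟨g 0, g 1, by rw [← surj_lift_iff.1 hg.1]; congr; ext; simp [Fin.exists_fin_two, eq_comm]⟩
  obtain ⟨a, b, e⟩ : ∃ a b : SU n F q, Subgroup.closure {a, b} = ⊤ := by
    have := H10.two_le_q hF.1
    by_cases c' : n = 3
    · exact c' ▸ SU3_two
    by_cases c' : q = 2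
    exacts [SUn_two_two (by omega) c', SUn_two_big (by omega) (by omega)]
  refine ⟨QuotientGroup.mk' _ a, QuotientGroup.mk' _ b, ?_⟩
  rw [← Set.image_pair, ← MonoidHom.map_closure, e, ← MonoidHom.range_eq_map, QuotientGroup.range_mk']

end H09
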